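import Cfsg.Agent.Lib.Pron.Basic
import Cfsg.Agent.Lib.Perm.Module
import Cfsg.Agent.Lib.Unitary.Glue
import Cfsg.Agent.Lib.GLC.Types

/-!
# Complete flags and Sylow `p`-subgroups in characteristic `p`
-/

set_option autoImplicit false

namespace Cfsg.Lib.Pron

open Module Cfsg.Lib.Unitary Cfsg.Lib.BG Cfsg.Lib.Transfer
open scoped Cfsg.Lib.Transfer

variable {F V : Type*} [Field F] [AddCommGroup V] [Module F V]

/-- A chain of subspaces with steps of dimension at most one. -/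
structure Chain (N : ℕ) (𝓕 : ℕ → Submodule F V) : Prop where
  mono : Monotone 𝓕
  zero : 𝓕 0 = ⊥
  top : 𝓕 N = ⊤
  step : ∀ i, ∀ x ∈ 𝓕 (i + 1), x ∉ 𝓕 i → ∀ y ∈ 𝓕 (i + 1), ∃ c : F, y - c • x ∈ 𝓕 i

/-- A complete flag. -/
structure Full (𝓕 : ℕ → Submodule F V) : Prop where
  mono : Monotone 𝓕
  rk : ∀ i, finrank F (𝓕 i) = min (finrank F V) i

/-- The stabilizer of a chain. -/
def stab (𝓕 : ℕ → Submodule F V) : Subgroup (V ≃ₗ[F] V) := ⨅ i, subStab (𝓕 i)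

theorem mem_stab {𝓕 : ℕ → Submodule F V} {g : V ≃ₗ[F] V} :
    g ∈ stab 𝓕 ↔ ∀ i v, v ∈ 𝓕 i ↔ g v ∈ 𝓕 i := by
  simp only [stab, Subgroup.mem_iInf, mem_subStab]

/-- `g` acts on the factors of the chain by the scalars `a`. -/
def Acts (𝓕 : ℕ → Submodule F V) (g : V ≃ₗ[F] V) (a : ℕ → F) : Prop :=
  ∀ i, ∀ x ∈ 𝓕 (i + 1), g x - a i • x ∈ 𝓕 i

/-- The stability group of a chain. -/
def stab1 (𝓕 : ℕ → Submodule F V) : Subgroup (V ≃ₗ[F] V) where
  carrier := {g | g ∈ stab 𝓕 ∧ ∀ i, ∀ x ∈ 𝓕 (i + 1), g x - x ∈ 𝓕 i}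
  mul_mem' {a b} ha hb := ⟨mul_mem ha.1 hb.1, fun i x hx => by
    have := add_mem (ha.2 i _ ((mem_stab.1 hb.1 _ _).1 hx)) (hb.2 i x hx)
    rwa [sub_add_sub_cancel] at this⟩
  one_mem' := ⟨one_mem _, fun i x _ => by simp⟩
  inv_mem' {a} ha := ⟨inv_mem ha.1, fun i x hx => by
    have := neg_mem (ha.2 i _ ((mem_stab.1 (inv_mem ha.1) _ _).1 hx))
    simpa using this⟩

variable {𝓕 𝓖 : ℕ → Submodule F V} {N : ℕ} {g t d : V ≃ₗ[F] V} {a b : ℕ → F}

theorem mem_stab1 : g ∈ stab1 𝓕 ↔ g ∈ stab 𝓕 ∧ ∀ i, ∀ x ∈ 𝓕 (i + 1), g x - x ∈ 𝓕 i := Iff.rfl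

theorem Acts.mul (h : Acts 𝓕 t a) (h' : Acts 𝓕 d b) (hd : d ∈ stab 𝓕) :
    Acts 𝓕 (t * d) (a * b) := fun i x hx => by
  have := add_mem (h i _ ((mem_stab.1 hd _ _).1 hx)) ((𝓕 i).smul_mem (a i) (h' i x hx))
  rwa [smul_sub, sub_add_sub_cancel, smul_smul] at this

theorem Acts.mul_inv_mem (h : Acts 𝓕 t a) (h' : Acts 𝓕 d a) (ht : t ∈ stab 𝓕)
    (hd : d ∈ stab 𝓕) : t * d⁻¹ ∈ stab1 𝓕 :=
  ⟨mul_mem ht (inv_mem hd), fun i x hx => by
    have h1 := (mem_stab.1 (inv_mem hd) _ _).1 hx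
    have := sub_mem (h i _ h1) (h' i _ h1)
    simpa using this⟩

theorem Acts.mem_stab [FiniteDimensional F V] (hc : Chain N 𝓕) (h : Acts 𝓕 t a) :
    t ∈ stab 𝓕 := by
  refine Subgroup.mem_iInf.2 fun i => mem_subStab_of_le fun v hv => ?_
  cases i with
  | zero => rw [hc.zero] at hv ⊢; simp [(Submodule.mem_bot F).1 hv]
  | succ i =>
    have := add_mem (hc.mono i.le_succ (h i v hv)) ((𝓕 (i + 1)).smul_mem (a i) hv)
    rwa [sub_add_cancel] at this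

theorem Chain.exists_acts (hc : Chain N 𝓕) (ht : t ∈ stab 𝓕) :
    ∃ a : ℕ → F, (∀ i, a i ≠ 0) ∧ Acts 𝓕 t a := by
  have : ∀ i, ∃ c : F, c ≠ 0 ∧ ∀ x ∈ 𝓕 (i + 1), t x - c • x ∈ 𝓕 i := fun i => by
    by_cases h : ∀ x ∈ 𝓕 (i + 1), x ∈ 𝓕 i
    · exact ⟨1, one_ne_zero, fun x hx => sub_mem ((mem_stab.1 ht _ _).1 (h x hx))
        (by simpa using h x hx)⟩
    push Not at h
    obtain ⟨x, hx, hx'⟩ := h
    obtain ⟨c, hc'⟩ := hc.step i x hx hx' _ ((mem_stab.1 ht _ _).1 hx)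
    refine ⟨c, ?_, fun y hy => ?_⟩
    · rintro rfl
      exact hx' ((mem_stab.1 ht _ _).2 (by simpa using hc'))
    obtain ⟨e, he⟩ := hc.step i x hx hx' y hy
    have h1 := add_mem ((𝓕 i).smul_mem e hc')
      (sub_mem ((mem_stab.1 ht _ _).1 he) ((𝓕 i).smul_mem c he))
    convert h1 using 1
    simp only [map_sub, map_smul]
    module
  choose a h1 h2 using this
  exact ⟨a, h1, h2⟩

theorem Chain.comm_mem (hc : Chain N 𝓕) (ht : t ∈ stab 𝓕) (hd : d ∈ stab 𝓕) :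
    t * d * t⁻¹ * d⁻¹ ∈ stab1 𝓕 := by
  obtain ⟨a, -, ha⟩ := hc.exists_acts ht
  obtain ⟨b, -, hb⟩ := hc.exists_acts hd
  have h1 := hb.mul ha ht
  rw [mul_comm b] at h1
  simpa [mul_assoc] using (ha.mul hb hd).mul_inv_mem h1 (mul_mem ht hd) (mul_mem hd ht)

theorem conj_mem_stab1 (hd : d ∈ stab 𝓕) (hg : g ∈ stab1 𝓕) : d * g * d⁻¹ ∈ stab1 𝓕 :=
  ⟨mul_mem (mul_mem hd hg.1) (inv_mem hd), fun i x hx => by
    have := (mem_stab.1 hd _ _).1 (hg.2 i _ ((mem_stab.1 (inv_mem hd) _ _).1 hx))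
    simpa using this⟩

theorem le_ker_of_mem_stab1 (h0 : 𝓕 0 = ⊥) (hg : g ∈ stab1 𝓕) (i : ℕ) :
    𝓕 i ≤ LinearMap.ker (((g : End F V) - 1) ^ i) := by
  induction i with
  | zero => simp [h0]
  | succ i ih =>
    intro x hx
    have := ih (hg.2 i x hx)
    rw [LinearMap.mem_ker] at this ⊢
    rw [pow_succ, Module.End.mul_apply]
    simpa using this

theorem pow_eq_one_of_nilp (p : ℕ) [hp : Fact p.Prime] [CharP F p]
    (h : ((g : End F V) - 1) ^ N = 0) : g ^ p ^ N = 1 := by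
  have h1 : ((g : End F V) - 1) ^ p ^ N = 0 :=
    pow_eq_zero_of_le (Nat.lt_pow_self hp.out.one_lt).le h
  rw [← GLC.pow_char_pow_eq_one_iff] at h1
  ext v
  have := congrArg (· v) h1
  simpa [LinearEquiv.pow_apply, Module.End.pow_apply] using this

theorem Chain.isPGroup (p : ℕ) [hp : Fact p.Prime] [CharP F p] (hc : Chain N 𝓕) :
    IsPGroup p (stab1 𝓕) := by
  rintro ⟨g, hg⟩
  refine ⟨N, Subtype.ext (pow_eq_one_of_nilp p ?_)⟩
  have := le_ker_of_mem_stab1 hc.zero hg N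
  rwa [hc.top, top_le_iff, LinearMap.ker_eq_top] at this

theorem det_eq_one_of_pow (p : ℕ) [hp : Fact p.Prime] [CharP F p] {k : ℕ}
    (h : g ^ p ^ k = 1) : LinearEquiv.det g = 1 := by
  have h1 : ((LinearEquiv.det g : Fˣ) : F) ^ p ^ k = 1 := by
    rw [← Units.val_pow_eq_pow_val, ← map_pow, h, map_one, Units.val_one]
  have h2 : (((LinearEquiv.det g : Fˣ) : F) - 1) ^ p ^ k = 0 := by
    rw [sub_pow_char_pow, h1, one_pow, sub_self]
  exact Units.ext (sub_eq_zero.1 (pow_eq_zero_iff (pow_ne_zero k hp.out.ne_zero) |>.1 h2))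

variable [FiniteDimensional F V]

theorem Full.chain (h : Full 𝓕) : Chain (finrank F V) 𝓕 where
  mono := h.mono
  zero := Submodule.finrank_eq_zero.1 (by rw [h.rk]; simp)
  top := Submodule.eq_top_of_finrank_eq (by rw [h.rk]; simp)
  step i x hx hx' y hy := by
    have h1 : 𝓕 i ⊔ F ∙ x = 𝓕 (i + 1) := by
      refine Submodule.eq_of_le_of_finrank_le (sup_le (h.mono i.le_succ)
        ((Submodule.span_singleton_le_iff_mem _ _).2 hx)) ?_
      have h2 : 𝓕 i < 𝓕 i ⊔ F ∙ x := lt_of_le_of_ne le_sup_left fun e =>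
        hx' (e ▸ Submodule.mem_sup_right (Submodule.mem_span_singleton_self x))
      have h3 := Submodule.finrank_lt_finrank_of_lt h2
      have h4 := Submodule.finrank_le (𝓕 i ⊔ F ∙ x)
      rw [h.rk] at h3 ⊢
      omega
    rw [← h1] at hy
    obtain ⟨z, hz, w, hw, rfl⟩ := Submodule.mem_sup.1 hy
    obtain ⟨c, rfl⟩ := Submodule.mem_span_singleton.1 hw
    exact ⟨c, by simpa using hz⟩

theorem Full.exists_not_mem (h : Full 𝓕) {i : ℕ} (hi : i < finrank F V) :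
    ∃ x ∈ 𝓕 (i + 1), x ∉ 𝓕 i := by
  by_contra h1
  push Not at h1
  have := Submodule.finrank_mono (show 𝓕 (i + 1) ≤ 𝓕 i from h1)
  rw [h.rk, h.rk] at this
  omega

omit [FiniteDimensional F V] in
theorem Full.comap (h : Full 𝓕) (g : V ≃ₗ[F] V) :
    Full fun i => (𝓕 i).comap (g : V →ₗ[F] V) where
  mono _ _ hij := Submodule.comap_mono (h.mono hij)
  rk i := by rw [Submodule.comap_equiv_eq_map_symm, LinearEquiv.finrank_map_eq, h.rk]

omit [FiniteDimensional F V] in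
theorem mem_stab1_comap (h : d * g * d⁻¹ ∈ stab1 𝓕) :
    g ∈ stab1 fun i => (𝓕 i).comap (d : V →ₗ[F] V) :=
  ⟨mem_stab.2 fun i v => by simpa using mem_stab.1 h.1 i (d v), fun i x hx => by
    simpa using h.2 i (d x) hx⟩

theorem Full.eq_ker (h : Full 𝓕) (hg : g ∈ stab1 𝓕)
    (hr : ∀ k, finrank F (LinearMap.ker (((g : End F V) - 1) ^ k)) = min (finrank F V) k) (i : ℕ) :
    𝓕 i = LinearMap.ker (((g : End F V) - 1) ^ i) :=
  Submodule.eq_of_le_of_finrank_eq (le_ker_of_mem_stab1 h.chain.zero hg i) (by rw [h.rk, hr])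

theorem exists_step (p : ℕ) [Fact p.Prime] [CharP F p] {P : Subgroup (V ≃ₗ[F] V)} [Finite P]
    (hP : IsPGroup p P) (W : Submodule F V) (hW : ∀ g ∈ P, ∀ x ∈ W, g x ∈ W) :
    ∃ W' : Submodule F V, W ≤ W' ∧ finrank F W' = min (finrank F V) (finrank F W + 1) ∧
      ∀ g ∈ P, ∀ x ∈ W', g x - x ∈ W := by
  by_cases h : W = ⊤
  · subst h
    exact ⟨⊤, le_rfl, by simp, fun _ _ _ _ => trivial⟩
  let ρ : Representation F P V := (LinearEquiv.automorphismGroup.toLinearMapMonoidHom).comp P.subtype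
  have hρ : ∀ g, W ≤ W.comap (ρ g) := fun g x hx => hW g g.2 x hx
  obtain ⟨v, -, hv, h1⟩ := Perm.exists_fixed_vector hP (ρ.quotient W hρ) ⊤ (fun _ _ _ => trivial)
    (by
      haveI := Submodule.Quotient.nontrivial_iff.2 h
      exact top_ne_bot)
  obtain ⟨v, rfl⟩ := W.mkQ_surjective v
  have hv' : v ∉ W := fun e => hv ((Submodule.Quotient.mk_eq_zero W).2 e)
  have h2 : ∀ g ∈ P, g v - v ∈ W := fun g hg => (Submodule.Quotient.eq W).1 (h1 ⟨g, hg⟩)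
  refine ⟨W ⊔ F ∙ v, le_sup_left, ?_, fun g hg x hx => ?_⟩
  · have h3 := Submodule.finrank_sup_add_finrank_inf_eq W (F ∙ v)
    rw [finrank_span_singleton (fun e : v = 0 => hv' (e ▸ W.zero_mem)),
      (Submodule.disjoint_span_singleton_of_notMem hv').eq_bot, finrank_bot] at h3
    have h4 := Submodule.finrank_le (W ⊔ F ∙ v)
    omega
  obtain ⟨z, hz, w, hw, rfl⟩ := Submodule.mem_sup.1 hx
  obtain ⟨c, rfl⟩ := Submodule.mem_span_singleton.1 hw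
  convert add_mem (sub_mem (hW g hg z hz) hz) (W.smul_mem c (h2 g hg)) using 1
  simp only [map_add, map_smul]
  module

theorem exists_full (p : ℕ) [Fact p.Prime] [CharP F p] {P : Subgroup (V ≃ₗ[F] V)} [Finite P]
    (hP : IsPGroup p P) : ∃ 𝓕 : ℕ → Submodule F V, Full 𝓕 ∧ P ≤ stab1 𝓕 := by
  choose f h1 h2 h3 using exists_step p hP
  let T := {W : Submodule F V // ∀ g ∈ P, ∀ x ∈ W, g x ∈ W}
  let φ : T → T := fun W => ⟨f W.1 W.2, fun g hg x hx => by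
    have := add_mem (h1 W.1 W.2 (h3 W.1 W.2 g hg x hx)) hx
    rwa [sub_add_cancel] at this⟩
  let W₀ : T := ⟨⊥, fun g _ x hx => by simp [(Submodule.mem_bot F).1 hx]⟩
  have hs : ∀ i, ((φ^[i + 1] W₀).1 : Submodule F V) = f (φ^[i] W₀).1 (φ^[i] W₀).2 := fun i => by
    rw [Function.iterate_succ_apply']
  refine ⟨fun i => (φ^[i] W₀).1, ⟨monotone_nat_of_le_succ fun i => ?_, fun i => ?_⟩, fun g hg =>
    ⟨Subgroup.mem_iInf.2 fun i => mem_subStab_of_le ((φ^[i] W₀).2 g hg), fun i x hx => ?_⟩⟩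
  · rw [hs]; exact h1 _ _
  · induction i with
    | zero => exact (finrank_bot F V).trans (by simp)
    | succ i ih => rw [hs, h2, ih]; omega
  · exact h3 _ (φ^[i] W₀).2 g hg x ((hs i).le hx)

variable [Finite F]

/-- The flag of a Sylow `p`-subgroup of a linear group containing a regular unipotent element. -/
theorem exists_syl_flag (p : ℕ) [Fact p.Prime] [CharP F p] {G S : Subgroup (V ≃ₗ[F] V)}
    (hj : ∃ j ∈ G, ∀ k,
      finrank F (LinearMap.ker (((j : End F V) - 1) ^ k)) = min (finrank F V) k)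
    (hS : Syl p S G) : ∃ 𝓕 : ℕ → Submodule F V, Full 𝓕 ∧ S = G ⊓ stab1 𝓕 ∧
      ∀ 𝓖, Full 𝓖 → S ≤ stab1 𝓖 → 𝓖 = 𝓕 := by
  haveI : Finite (V ≃ₗ[F] V) := finite_linearEquiv
  obtain ⟨𝓕, h1, h2⟩ := exists_full p hS.pgroup
  refine ⟨𝓕, h1, hS.eq_of_le_pgroup (le_inf hS.le h2) inf_le_left
    (pgroup_of_le (h1.chain.isPGroup p) inf_le_right), fun 𝓖 h3 h4 => ?_⟩
  obtain ⟨j, hj, hr⟩ := hj
  have h5 : j ^ p ^ finrank F V = 1 := pow_eq_one_of_nilp p (LinearMap.ker_eq_top.1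
    (Submodule.eq_top_of_finrank_eq (by rw [hr]; simp)))
  have h6 : IsPGroup p (Subgroup.zpowers j) := by
    rintro ⟨_, k, rfl⟩
    exact ⟨finrank F V, Subtype.ext (by
      simp only [SubmonoidClass.coe_pow, OneMemClass.coe_one]
      rw [← zpow_natCast, ← zpow_mul, mul_comm, zpow_mul, zpow_natCast, h5, one_zpow])⟩
  obtain ⟨g, -, hg⟩ := hS.exists_conj_le h6 (Subgroup.zpowers_le.2 hj)
  have h7 : g * j * g⁻¹ ∈ S := hg (conj_mem_conj.2 (Subgroup.mem_zpowers j))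
  funext i
  have := ((h3.comap g).eq_ker (mem_stab1_comap (h4 h7)) hr i).trans
    ((h1.comap g).eq_ker (mem_stab1_comap (h2 h7)) hr i).symm
  exact Submodule.comap_injective_of_surjective g.surjective this

omit [Finite F] [FiniteDimensional F V] in
theorem norm_le_stab {S : Subgroup (V ≃ₗ[F] V)} (h1 : Full 𝓕) (h2 : S ≤ stab1 𝓕)
    (h : ∀ 𝓖, Full 𝓖 → S ≤ stab1 𝓖 → 𝓖 = 𝓕) : 𝐍(S) ≤ stab 𝓕 := fun t ht => by
  have := h _ (h1.comap t) fun s hs => mem_stab1_comap (h2 (conj_mem_of_norm ht hs))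
  exact mem_stab.2 fun i v => by
    conv_lhs => rw [← this]
    rfl

end Cfsg.Lib.Pron
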