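import Cfsg.Agent.Lib.Pron.Flag

/-!
# Two flags have a common frame; overgroups of a Sylow `p`-subgroup in characteristic `p`
-/

set_option autoImplicit false

namespace Cfsg.Lib.Pron

open Module Cfsg.Lib.Unitary Cfsg.Lib.BG Cfsg.Lib.Transfer
open scoped Cfsg.Lib.Transfer

universe u

variable {F : Type*} [Field F]

section
variable {V : Type*} [AddCommGroup V] [Module F V] {𝓕 : ℕ → Submodule F V} {N : ℕ}

theorem Chain.comap (h : Chain N 𝓕) (W : Submodule F V) :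
    Chain N fun i => (𝓕 i).comap W.subtype where
  mono _ _ hij := Submodule.comap_mono (h.mono hij)
  zero := by simp [h.zero]
  top := by simp [h.top]
  step i x hx hx' y hy := h.step i x hx hx' y hy

theorem Chain.exists_jump (h : Chain N 𝓕) {v : V} (hv : v ≠ 0) :
    ∃ j < N, v ∈ 𝓕 (j + 1) ∧ v ∉ 𝓕 j := by
  classical
  have h1 : ∃ i, v ∈ 𝓕 i := ⟨N, by simp [h.top]⟩
  have h2 := Nat.find_spec h1
  have h3 : Nat.find h1 ≤ N := Nat.find_min' h1 (by simp [h.top])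
  obtain ⟨j, hj⟩ : ∃ j, Nat.find h1 = j + 1 :=
    Nat.exists_eq_succ_of_ne_zero fun e => hv (by simpa [e, h.zero] using h2)
  exact ⟨j, by omega, hj ▸ h2, Nat.find_min h1 (by omega)⟩

theorem Chain.exists_first (h : Chain N 𝓕) [Nontrivial V] :
    ∃ j < N, 𝓕 j = ⊥ ∧ ∃ e ∈ 𝓕 (j + 1), e ≠ 0 := by
  classical
  have h1 : ∃ i, 𝓕 i ≠ ⊥ := ⟨N, by simp [h.top]⟩
  have h2 := Nat.find_spec h1
  have h3 : Nat.find h1 ≤ N := Nat.find_min' h1 (by simp [h.top])
  obtain ⟨j, hj⟩ : ∃ j, Nat.find h1 = j + 1 :=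
    Nat.exists_eq_succ_of_ne_zero fun e => h2 (by rw [e, h.zero])
  rw [hj] at h2
  exact ⟨j, by omega, not_not.1 (Nat.find_min h1 (by omega)), (Submodule.ne_bot_iff _).1 h2⟩

end

theorem frame_lin (n : ℕ) : ∀ (V : Type u) [AddCommGroup V] [Module F V] [FiniteDimensional F V],
    finrank F V = n → ∀ {N M : ℕ} {𝓕 𝓖 : ℕ → Submodule F V}, Chain N 𝓕 → Chain M 𝓖 →
    ∀ {a : ℕ → F}, (∀ i, a i ≠ 0) →
    ∃ d : V ≃ₗ[F] V, (∀ i, ∀ x ∈ 𝓖 i, d x ∈ 𝓖 i) ∧ Acts 𝓕 d a := by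
  induction n with
  | zero =>
    intro V _ _ _ hn N M 𝓕 𝓖 _ _ a _
    haveI := finrank_zero_iff.1 hn
    exact ⟨1, fun _ _ h => h, fun i x _ => by rw [Subsingleton.elim (_ - _) 0]; exact zero_mem _⟩
  | succ n ih =>
    intro V _ _ _ hn N M 𝓕 𝓖 h1 h2 a ha
    haveI : Nontrivial V := nontrivial_of_finrank_eq_succ hn
    obtain ⟨i₀, -, hi, e, he, he0⟩ := h1.exists_first
    obtain ⟨j, -, hj, hj'⟩ := h2.exists_jump he0
    obtain ⟨ψ, hψ, hψ'⟩ := Submodule.exists_le_ker_of_notMem hj'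
    obtain ⟨φ, hφ, hφ'⟩ : ∃ φ : V →ₗ[F] F, φ e = 1 ∧ ∀ x ∈ 𝓖 j, φ x = 0 :=
      ⟨(ψ e)⁻¹ • ψ, by simp [hψ], fun x hx => by simp [LinearMap.mem_ker.1 (hψ' hx)]⟩
    have hr : finrank F (LinearMap.ker φ) = n := by
      have := φ.finrank_range_add_finrank_ker
      rw [LinearMap.range_eq_top.2 fun c => ⟨c • e, by simp [hφ]⟩, finrank_top, finrank_self,
        hn] at this
      omega
    obtain ⟨d, hd, hd'⟩ := ih _ hr (h1.comap (LinearMap.ker φ)) (h2.comap (LinearMap.ker φ)) ha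
    let π : V →ₗ[F] LinearMap.ker φ :=
      (LinearMap.id - φ.smulRight e).codRestrict _ fun x => by simp [hφ]
    have hπ : ∀ x, (π x : V) = x - φ x • e := fun _ => rfl
    let D : V →ₗ[F] V :=
      (a i₀ • φ).smulRight e + (LinearMap.ker φ).subtype ∘ₗ (d : _ →ₗ[F] _) ∘ₗ π
    have hD : ∀ x, D x = (a i₀ * φ x) • e + d (π x) := fun _ => rfl
    have hinj : Function.Injective D := by
      rw [← LinearMap.ker_eq_bot, eq_bot_iff]
      intro x hx
      rw [LinearMap.mem_ker, hD] at hx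
      have h3 := congrArg φ hx
      simp only [map_add, map_smul, hφ, LinearMap.mem_ker.1 (d (π x)).2, map_zero, smul_eq_mul,
        mul_one, add_zero, mul_eq_zero, ha, false_or] at h3
      rw [h3, mul_zero, zero_smul, zero_add, ZeroMemClass.coe_eq_zero,
        LinearEquiv.map_eq_zero_iff] at hx
      have := hπ x
      rw [hx, h3, zero_smul, sub_zero] at this
      exact this.symm
    refine ⟨LinearEquiv.ofInjectiveEndo D hinj, fun i x hx => ?_, fun i x hx => ?_⟩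
    · have h3 : φ x • e ∈ 𝓖 i := by
        rcases le_or_gt i j with h | h
        · rw [hφ' x (h2.mono h hx), zero_smul]; exact zero_mem _
        · exact (𝓖 i).smul_mem _ (h2.mono h hj)
      change D x ∈ _
      rw [hD, mul_smul]
      exact add_mem ((𝓖 i).smul_mem _ h3) (hd i (π x) (sub_mem hx h3))
    · change D x - _ ∈ _
      rcases lt_or_ge i i₀ with h | h
      · obtain rfl : x = 0 := (Submodule.mem_bot F).1 (hi ▸ h1.mono h hx)
        simp
      have h3 : ((d (π x) - a i • π x : LinearMap.ker φ) : V) ∈ 𝓕 i :=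
        hd' i (π x) (sub_mem hx ((𝓕 _).smul_mem _ (h1.mono (by omega) he)))
      have h4 : ((a i₀ - a i) * φ x) • e ∈ 𝓕 i := by
        rcases h.eq_or_lt with rfl | h
        · simp
        · exact (𝓕 i).smul_mem _ (h1.mono h he)
      convert add_mem h4 h3 using 1
      rw [hD, AddSubgroupClass.coe_sub, SetLike.val_smul, hπ]
      module

variable {σ : F →+* F}

section
variable {V : Type*} [AddCommGroup V] [Module F V] {B : V →ₛₗ[σ] V →ₗ[F] F}
  {𝓕 : ℕ → Submodule F V} {N : ℕ}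

/-- A self-dual chain. -/
structure DChain (B : V →ₛₗ[σ] V →ₗ[F] F) (N : ℕ) (𝓕 : ℕ → Submodule F V) : Prop
    extends Chain N 𝓕 where
  dual : ∀ i ≤ N, 𝓕 (N - i) = perp B (𝓕 i)

theorem DChain.left (h : DChain B N 𝓕) {j : ℕ} (hj : j < N) {f : V} (hf : f ∈ 𝓕 (N - j)) {i : ℕ}
    (hi : i ≤ j) {x : V} (hx : x ∈ 𝓕 i) : B f x = 0 := by
  have := h.dual (N - j) (by omega)
  rw [show N - (N - j) = j by omega] at this
  exact mem_perp.1 (this ▸ h.mono hi hx) f hf

theorem DChain.right (h : DChain B N 𝓕) {j : ℕ} (hj : j < N) {e : V} (he : e ∈ 𝓕 (j + 1)) {i : ℕ}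
    (hi : i < N - j) {x : V} (hx : x ∈ 𝓕 i) : B e x = 0 :=
  mem_perp.1 (h.dual (j + 1) hj ▸ h.mono (by omega) hx) e he

theorem DChain.split (h : DChain B N 𝓕) {j : ℕ} (hj : j < N) {e f : V} (he : e ∈ 𝓕 (j + 1))
    (hf : f ∈ 𝓕 (N - j)) {i : ℕ} {x : V} (hx : x ∈ 𝓕 i) :
    B f x • e ∈ 𝓕 i ∧ B e x • f ∈ 𝓕 i := by
  constructor
  · rcases le_or_gt i j with hi | hi
    · rw [h.left hj hf hi hx, zero_smul]; exact zero_mem _
    · exact (𝓕 i).smul_mem _ (h.mono hi he)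
  · rcases lt_or_ge i (N - j) with hi | hi
    · rw [h.right hj he hi hx, zero_smul]; exact zero_mem _
    · exact (𝓕 i).smul_mem _ (h.mono hi hf)

theorem DChain.comap (h : DChain B N 𝓕) {j : ℕ} (hj : j < N) {e f : V} (he : e ∈ 𝓕 (j + 1))
    (hf : f ∈ 𝓕 (N - j)) {W : Submodule F V} (hW : ∀ y ∈ W, B e y = 0 ∧ B f y = 0)
    (hπ : ∀ x, x - B f x • e - B e x • f ∈ W) :
    DChain (B.domRestrict₁₂ W W) N fun i => (𝓕 i).comap W.subtype where
  toChain := h.toChain.comap W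
  dual i hi := by
    ext y
    rw [Submodule.mem_comap, h.dual i hi, mem_perp, mem_perp]
    refine ⟨fun h1 w hw => h1 w hw, fun h1 x hx => ?_⟩
    have : B (x - B f x • e - B e x • f) y = 0 :=
      h1 ⟨_, hπ x⟩ (sub_mem (sub_mem hx (h.split hj he hf hx).1) (h.split hj he hf hx).2)
    simpa [(hW y y.2).1, (hW y y.2).2] using this

theorem DChain.exists_pair (h : DChain B N 𝓕) (hB : IsHerm σ B) {e : V} (he0 : e ≠ 0)
    (hee : B e e = 0) : ∃ j < N, e ∈ 𝓕 (j + 1) ∧ ∃ f ∈ 𝓕 (N - j), B e f = 1 ∧ B f f = 0 := by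
  obtain ⟨j, hj, he, he'⟩ := h.exists_jump he0
  refine ⟨j, hj, he, ?_⟩
  have h1 := h.dual (N - j) (by omega)
  rw [show N - (N - j) = j by omega] at h1
  rw [h1, mem_perp] at he'
  push Not at he'
  obtain ⟨f₁, hf₁, h2⟩ := he'
  rw [Ne, hB.eq_zero_comm] at h2
  obtain ⟨f₀, hf₀, h3⟩ : ∃ f₀ ∈ 𝓕 (N - j), B e f₀ = 1 :=
    ⟨(B e f₁)⁻¹ • f₁, (𝓕 _).smul_mem _ hf₁, by simp [h2]⟩
  rcases le_or_gt (N - j) j with hle | hlt
  · exact ⟨f₀, hf₀, h3, h.left hj hf₀ hle hf₀⟩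
  obtain ⟨c, hc⟩ := hB.exists_trace_eq (hB.self_fixed f₀)
  have h4 : B f₀ e = 1 := by rw [← hB.symm, h3, map_one]
  refine ⟨f₀ - c • e, sub_mem hf₀ ((𝓕 _).smul_mem _ (h.mono hlt he)), by simp [h3, hee], ?_⟩
  simp only [map_sub, LinearMap.map_smulₛₗ, LinearMap.sub_apply, LinearMap.smul_apply, h3, h4, hee,
    ← hc, smul_eq_mul, RingHom.id_apply]
  ring

end

theorem frame_uni (n : ℕ) : ∀ (V : Type u) [AddCommGroup V] [Module F V] [FiniteDimensional F V]
    (B : V →ₛₗ[σ] V →ₗ[F] F), IsHerm σ B → finrank F V = 2 * n →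
    ∀ {N M : ℕ} {𝓕 𝓖 : ℕ → Submodule F V}, DChain B N 𝓕 → DChain B M 𝓖 →
    ∀ {a : ℕ → F}, (∀ i < N, σ (a i) * a (N - 1 - i) = 1) →
    ∃ d ∈ UG B, (∀ i, ∀ x ∈ 𝓖 i, d x ∈ 𝓖 i) ∧ Acts 𝓕 d a := by
  induction n with
  | zero =>
    intro V _ _ _ B _ hn N M 𝓕 𝓖 _ _ a _
    haveI := finrank_zero_iff.1 hn
    exact ⟨1, one_mem _, fun _ _ h => h,
      fun i x _ => by rw [Subsingleton.elim (_ - _) 0]; exact zero_mem _⟩
  | succ n ih =>
    intro V _ _ _ B hB hn N M 𝓕 𝓖 h1 h2 a ha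
    haveI : Nontrivial V := nontrivial_of_finrank_eq_succ (n := 2 * n + 1) hn
    obtain ⟨i₀, hi₀, hi, e, he, he0⟩ := h1.exists_first
    have hee : B e e = 0 := by
      by_contra h0
      have h3 : N - (i₀ + 1) ≤ i₀ := by
        by_contra h3
        exact h0 (h1.right hi₀ he (by omega) he)
      have h4 : perp B (F ∙ e) ≤ ⊥ := fun y hy => by
        rw [← hi]
        refine h1.mono h3 ?_
        rw [h1.dual _ hi₀, mem_perp]
        intro w hw
        obtain ⟨c, hc⟩ := h1.step i₀ e he (by simp [hi, he0]) w hw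
        rw [hi, Submodule.mem_bot, sub_eq_zero] at hc
        simp [hc, mem_perp_singleton.1 hy]
      have h5 := hB.finrank_perp_singleton he0
      rw [le_bot_iff.1 h4, finrank_bot] at h5
      omega
    obtain ⟨j, hj, hje, f, hf, hef, hff⟩ := h2.exists_pair hB he0 hee
    have hfe : B f e = 1 := by rw [← hB.symm, hef, map_one]
    have hf' : f ∈ 𝓕 (N - i₀) := by rw [h1.dual _ hi₀.le, hi, mem_perp]; simp
    let W := perp B (Submodule.span F {e, f})
    have hW : ∀ y, y ∈ W ↔ B e y = 0 ∧ B f y = 0 := fun y => mem_perp_span.trans (by simp)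
    have hπ : ∀ x, x - B f x • e - B e x • f ∈ W := fun x => by
      simp [hW, hee, hef, hfe, hff]
    have hdis : Disjoint (Submodule.span F {e, f}) W := by
      rw [Submodule.disjoint_def]
      intro x hx hx'
      obtain ⟨s, t, rfl⟩ := Submodule.mem_span_pair.1 hx
      rw [hW] at hx'
      simp only [map_add, map_smul, hee, hef, hfe, hff, smul_eq_mul, mul_zero, mul_one, zero_add,
        add_zero] at hx'
      simp [hx'.1, hx'.2]
    have hr : finrank F W = 2 * n := by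
      have h3 := hB.finrank_add_finrank_perp (Submodule.span F {e, f})
      have h4 : LinearIndependent F ![e, f] := by
        rw [LinearIndependent.pair_iff]
        intro s t h
        have h5 := congrArg (B e) h
        have h6 := congrArg (B f) h
        simp [hee, hef, hfe, hff] at h5 h6
        exact ⟨h6, h5⟩
      have h5 := finrank_span_eq_card h4
      rw [Matrix.range_cons_cons_empty, Fintype.card_fin] at h5
      rw [h5, hn] at h3
      change 2 + finrank F W = _ at h3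
      omega
    obtain ⟨d, hdU, hd, hd'⟩ := ih _ _ (hB.restrict_perp hdis) hr
      (h1.comap hi₀ he hf' (fun y => (hW y).1) hπ) (h2.comap hj hje hf (fun y => (hW y).1) hπ) ha
    let π : V →ₗ[F] W :=
      (LinearMap.id - (B f).smulRight e - (B e).smulRight f).codRestrict _ hπ
    have hπ' : ∀ x, (π x : V) = x - B f x • e - B e x • f := fun _ => rfl
    let D : V →ₗ[F] V := (a i₀ • B f).smulRight e + (a (N - 1 - i₀) • B e).smulRight f +
      W.subtype ∘ₗ (d : _ →ₗ[F] _) ∘ₗ π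
    have hD : ∀ x, D x = (a i₀ * B f x) • e + (a (N - 1 - i₀) * B e x) • f + d (π x) :=
      fun _ => rfl
    have hDB : ∀ x y, B (D x) (D y) = B x y := fun x y => by
      have h3 : B (d (π x)) (d (π y)) = B (π x) (π y) := hdU (π x) (π y)
      have h4 := (hW _).1 (d (π x)).2
      have h5 := (hW _).1 (d (π y)).2
      have h6 := ha _ hi₀
      have h7 := congrArg σ h6
      rw [map_mul, hB.invol, map_one] at h7
      rw [hD, hD]
      simp only [map_add, LinearMap.map_smulₛₗ, LinearMap.add_apply, LinearMap.smul_apply, h3, h5.1,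
        h5.2, hB.eq_zero_comm.1 h4.1, hB.eq_zero_comm.1 h4.2, hee, hef, hfe, hff, hπ', map_sub,
        LinearMap.sub_apply, smul_eq_mul, RingHom.id_apply, map_mul, hB.symm]
      linear_combination (B x f * B e y) * h6 + (B x e * B f y) * h7
    have hinj : Function.Injective D := by
      rw [← LinearMap.ker_eq_bot, eq_bot_iff]
      intro x hx
      exact hB.nondeg x fun v => by rw [← hDB, LinearMap.mem_ker.1 hx]; simp
    refine ⟨LinearEquiv.ofInjectiveEndo D hinj, hDB, fun i x hx => ?_, fun i x hx => ?_⟩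
    · have h3 := h2.split hj hje hf hx
      change D x ∈ _
      rw [hD, mul_smul, mul_smul]
      exact add_mem (add_mem ((𝓖 i).smul_mem _ h3.1) ((𝓖 i).smul_mem _ h3.2))
        (hd i (π x) (sub_mem (sub_mem hx h3.1) h3.2))
    · change D x - _ ∈ _
      have h3 := h1.split hi₀ he hf' hx
      have h4 : ((d (π x) - a i • π x : W) : V) ∈ 𝓕 i :=
        hd' i (π x) (sub_mem (sub_mem hx h3.1) h3.2)
      have h5 : ((a i₀ - a i) * B f x) • e ∈ 𝓕 i := by
        rcases lt_trichotomy i i₀ with h | rfl | h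
        · rw [h1.left hi₀ hf' h hx]; simp
        · simp
        · exact (𝓕 i).smul_mem _ (h1.mono h he)
      have h6 : ((a (N - 1 - i₀) - a i) * B e x) • f ∈ 𝓕 i := by
        rcases lt_trichotomy i (N - 1 - i₀) with h | rfl | h
        · rw [h1.right hi₀ he (by omega) hx]; simp
        · simp
        · exact (𝓕 i).smul_mem _ (h1.mono (by omega) hf')
      convert add_mem (add_mem h5 h6) h4 using 1
      rw [hD, AddSubgroupClass.coe_sub, SetLike.val_smul, hπ']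
      module

variable {V : Type u} [AddCommGroup V] [Module F V] [FiniteDimensional F V]
  {B : V →ₛₗ[σ] V →ₗ[F] F} {𝓕 : ℕ → Submodule F V}

theorem Full.perp (h : Full 𝓕) (hB : IsHerm σ B) :
    Full fun i => perp B (𝓕 (finrank F V - i)) where
  mono i j hij := Submodule.orthogonalBilin_le (h.mono (by omega))
  rk i := by rw [hB.finrank_perp, h.rk]; omega

omit [FiniteDimensional F V] in
theorem mem_stab1_perp {g : V ≃ₗ[F] V} (h0 : Chain (finrank F V) 𝓕) (hg : g ∈ UG B)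
    (h : g ∈ stab1 𝓕) : g ∈ stab1 fun i => perp B (𝓕 (finrank F V - i)) := by
  refine ⟨Subgroup.mem_iInf.2 fun i => perp_mem_subStab hg (Subgroup.mem_iInf.1 h.1 _),
    fun i x hx => mem_perp.2 fun y hy => ?_⟩
  rcases lt_or_ge i (finrank F V) with hi | hi
  · rw [show finrank F V - i = finrank F V - (i + 1) + 1 by omega] at hy
    have := mem_perp.1 hx _ ((inv_mem h : g⁻¹ ∈ stab1 𝓕).2 _ y hy)
    rw [map_sub, UG_apply_right hg]
    simpa using this
  · rw [show finrank F V - i = 0 by omega, h0.zero, Submodule.mem_bot] at hy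
    simp [hy]

theorem Full.acts_dual (h : Full 𝓕) (h' : DChain B (finrank F V) 𝓕)
    {t : V ≃ₗ[F] V} (ht : t ∈ UG B) (ht' : t ∈ stab 𝓕) {a : ℕ → F} (ha : Acts 𝓕 t a) :
    ∀ i < finrank F V, σ (a i) * a (finrank F V - 1 - i) = 1 := fun i hi => by
  obtain ⟨x, hx, hx'⟩ := h.exists_not_mem (i := finrank F V - 1 - i) (by omega)
  rw [show finrank F V - 1 - i = finrank F V - (i + 1) by omega, h'.dual _ hi, mem_perp] at hx'
  push Not at hx'
  obtain ⟨y, hy, hxy⟩ := hx'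
  have h1 := h'.right hi ((mem_stab.1 ht' _ _).1 hy) (by omega) (ha _ x hx)
  have h2 := mem_perp.1 (h'.dual i hi.le ▸ h.mono (by omega) hx) _ (ha _ y hy)
  simp only [map_sub, LinearMap.map_smulₛₗ, LinearMap.sub_apply, LinearMap.smul_apply, ht y x,
    smul_eq_mul, RingHom.id_apply] at h1 h2
  refine mul_right_cancel₀ hxy ?_
  linear_combination -h1 - a (finrank F V - 1 - i) * h2

variable [Finite F]

/-- In characteristic `p`, the normalizer of a Sylow `p`-subgroup of `SL` or `SU` normalizes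
every overgroup of it. -/
theorem norm_le_norm_char (p : ℕ) [Fact p.Prime] [CharP F p]
    (hB : B = 0 ∨ IsHerm σ B ∧ Even (finrank F V))
    (hj : ∃ j ∈ SUG B, ∀ k,
      finrank F (LinearMap.ker (((j : End F V) - 1) ^ k)) = min (finrank F V) k)
    {S H : Subgroup (V ≃ₗ[F] V)} (hS : Syl p S (SUG B)) (h1 : S ≤ H) (h2 : H ≤ SUG B) :
    SUG B ⊓ 𝐍(S) ≤ 𝐍(H) := by
  haveI : Finite (V ≃ₗ[F] V) := finite_linearEquiv
  obtain ⟨𝓕, hF, hS1, hu⟩ := exists_syl_flag p hj hS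
  have hN := norm_le_stab hF (hS1.le.trans inf_le_right) hu
  refine norm_le_norm hS h1 h2 (fun t ht u hu' => ?_) fun g hg t ht => ?_
  · rw [hS1]
    exact ⟨(SUG B).mul_mem (mul_mem (mul_mem ht.1 hu'.1) ((SUG B).inv_mem ht.1))
        ((SUG B).inv_mem hu'.1),
      hF.chain.comm_mem (hN ht.2) (hN hu'.2)⟩
  obtain ⟨𝓖, hG, hS2, hu'⟩ := exists_syl_flag p hj (hS.conj_of_mem hg)
  obtain ⟨a, ha, ha'⟩ := hF.chain.exists_acts (hN ht.2)
  obtain ⟨d, hd, hd1, hd2⟩ : ∃ d ∈ UG B, (∀ i, ∀ x ∈ 𝓖 i, d x ∈ 𝓖 i) ∧ Acts 𝓕 d a := by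
    rcases hB with rfl | ⟨hB, n, hn⟩
    · obtain ⟨d, hd⟩ := frame_lin _ V rfl hF.chain hG.chain ha
      exact ⟨d, fun _ _ => rfl, hd⟩
    have hd : ∀ {T : Subgroup (V ≃ₗ[F] V)} {𝓗 : ℕ → Submodule F V}, Full 𝓗 →
        T = SUG B ⊓ stab1 𝓗 → (∀ 𝓖, Full 𝓖 → T ≤ stab1 𝓖 → 𝓖 = 𝓗) →
        DChain B (finrank F V) 𝓗 := fun {T 𝓗} k1 k2 k3 => ⟨k1.chain, fun i hi => by
      have := congrFun (k3 _ (k1.perp hB) fun g hg =>
        mem_stab1_perp k1.chain (k2.le hg).1.1 (k2.le hg).2) (finrank F V - i)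
      rw [← this, show finrank F V - (finrank F V - i) = i by omega]⟩
    exact frame_uni n V B hB (by omega) (hd hF hS1 hu) (hd hG hS2 hu')
      (hF.acts_dual (hd hF hS1 hu) ht.1.1 (hN ht.2) ha')
  have h3 := ha'.mul_inv_mem hd2 (hN ht.2) (hd2.mem_stab hF.chain)
  have h4 : d ∈ stab 𝓖 := Subgroup.mem_iInf.2 fun i => mem_subStab_of_le (hd1 i)
  refine ⟨d, mem_normalizer_of_conj_le (conj_le_iff.2 fun x hx => ?_), ?_⟩
  · rw [hS2] at hx ⊢
    exact ⟨conj_mem_SUG hd hx.1, conj_mem_stab1 h4 hx.2⟩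
  · rw [hS1]
    obtain ⟨k, hk⟩ := hF.chain.isPGroup p ⟨_, h3⟩
    exact ⟨mem_SUG.2 ⟨mul_mem ht.1.1 (inv_mem hd),
      det_eq_one_of_pow p (congrArg Subtype.val hk)⟩, h3⟩

end Cfsg.Lib.Pron
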