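import Cfsg.Agent.Lib.Pron.Odd
import Cfsg.Agent.Lib.Pron.Frame

/-!
# Subgroups of odd index in `PSL_n(q)`, `PSU_n(q)`, `n` a power of `2`, are pronormal
-/

set_option autoImplicit false

namespace Cfsg.Lib.Pron

open Module Cfsg.Lib.Unitary Cfsg.Lib.BG Cfsg.Lib.Transfer
open scoped Cfsg.Lib.Transfer

theorem isPronormal_quot {F V Γ : Type*} [Field F] [Finite F] [AddCommGroup V] [Module F V]
    [FiniteDimensional F V] [Group Γ] {σ : F →+* F} {B : V →ₛₗ[σ] V →ₗ[F] F} (hB : Good B) {w : ℕ}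
    (hn : finrank F V = 2 ^ (w + 1)) (hw : (2 : F) = 0 ∨ 1 ≤ w) (ι : Γ →* (V ≃ₗ[F] V))
    (hι : Function.Injective ι) (hr : ι.range = SUG B)
    (hj : ∃ j : Γ, GLC.Blocks (ι j : End F V) (GLC.jt 1 {finrank F V}))
    {H : Subgroup (Γ ⧸ Subgroup.center Γ)} (hH : Odd H.index) : IsPronormal H := by
  haveI : Finite (V ≃ₗ[F] V) := finite_linearEquiv
  have hφ := QuotientGroup.mk'_surjective (Subgroup.center Γ)
  refine isPronormal_of_pronIn ι hι _ hφ ?_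
  have hle : (H.comap (QuotientGroup.mk' _)).map ι ≤ ι.range := Subgroup.map_le_range _ _
  obtain ⟨S, hS, hSH⟩ := exists_syl_le (p := 2) hle
    (by rw [relIndex_map_comap ι hι _ hφ]; exact hH.not_two_dvd_nat)
  refine pronIn_of_norm_le hS hSH hle ?_
  by_cases h2 : (2 : F) = 0
  · haveI := CharTwo.of_one_ne_zero_of_two_eq_zero (R := F) one_ne_zero h2
    obtain ⟨j, hj⟩ := hj
    rw [hr] at hS hle ⊢
    refine norm_le_norm_char 2 (hB.imp id fun h => ⟨h, hn ▸ ⟨2 ^ w, by ring⟩⟩)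
      ⟨ι j, hr ▸ ⟨j, rfl⟩, fun k => ?_⟩ hS hSH hle
    have := hj.jt_finrank_ker k
    rw [one_smul] at this
    simpa using this
  obtain ⟨w, rfl⟩ := Nat.exists_eq_add_of_le' (hw.resolve_left h2)
  refine (norm_le_of_odd hS hSH ?_).trans (le_norm _)
  rintro _ ⟨⟨g, rfl⟩, hg⟩ ho
  have h1 := sc_of_odd hB h2 hn (hr ▸ hS) (hr.le ⟨g, rfl⟩).1 hg ho
  refine ⟨g, ?_, rfl⟩
  have h3 : g ∈ Subgroup.center Γ := Subgroup.mem_center_iff.2 fun x => hι (by
    rw [map_mul, map_mul, h1.comm])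
  change QuotientGroup.mk' _ g ∈ H
  rw [show QuotientGroup.mk' _ g = 1 from (QuotientGroup.eq_one_iff g).2 h3]
  exact one_mem _

end Cfsg.Lib.Pron
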