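import Cfsg.Agent.Lib.Pron.Two
import Cfsg.Agent.S0221

/-!
# Sylow `2`-normalizers in `SL_n`, `SU_n`, `n` a power of `2`, odd characteristic
-/

set_option autoImplicit false

namespace Cfsg.Lib.Pron

open Module Cfsg.Lib.Unitary Cfsg.Lib.BG Cfsg.Lib.Transfer
open scoped Cfsg.Lib.Transfer

universe u

variable {F : Type*} [Field F] {σ : F →+* F}

section
variable {V : Type*} [AddCommGroup V] [Module F V] {B : V →ₛₗ[σ] V →ₗ[F] F}

/-- The fixed space. -/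
def fixS (t : V ≃ₗ[F] V) : Submodule F V := LinearMap.eqLocus (t : V →ₗ[F] V) LinearMap.id

theorem mem_fixS {t : V ≃ₗ[F] V} {v : V} : v ∈ fixS t ↔ t v = v := Iff.rfl

/-- The negative of a map. -/
def ng (t : V ≃ₗ[F] V) : V ≃ₗ[F] V := LinearEquiv.neg F * t

@[simp] theorem ng_apply (t : V ≃ₗ[F] V) (v : V) : ng t v = -t v := rfl

theorem ng_ng (t : V ≃ₗ[F] V) : ng (ng t) = t := by ext; simp

theorem mem_fixS_ng {t : V ≃ₗ[F] V} {v : V} : v ∈ fixS (ng t) ↔ t v = -v := by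
  rw [mem_fixS, ng_apply, neg_eq_iff_eq_neg]

theorem cent_ng (t : V ≃ₗ[F] V) : 𝐂[ng t] = 𝐂[t] := by
  ext x
  simp only [mem_cent1, LinearEquiv.ext_iff, LinearEquiv.mul_apply, ng_apply, map_neg, neg_inj]

/-- The image of a subgroup in the general linear group of an invariant subspace. -/
def im (W : Submodule F V) (T : Subgroup (V ≃ₗ[F] V)) : Subgroup (W ≃ₗ[F] W) :=
  (T.subgroupOf (subStab W)).map (restr W)

theorem mem_im {W : Submodule F V} {T : Subgroup (V ≃ₗ[F] V)} {u : W ≃ₗ[F] W} :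
    u ∈ im W T ↔ ∃ g ∈ T, ∃ hg : g ∈ subStab W, restr W ⟨g, hg⟩ = u :=
  ⟨fun ⟨g, h, e⟩ => ⟨g, h, g.2, e⟩, fun ⟨g, h, hg, e⟩ => ⟨⟨g, hg⟩, h, e⟩⟩

theorem syl_im {p : ℕ} {W : Submodule F V} {T K : Subgroup (V ≃ₗ[F] V)} (h : Syl p T K)
    (hK : K ≤ subStab W) : Syl p (im W T) (im W K) :=
  ((Hall.subgroupOf_iff hK (h.le.trans hK)).2 h).map _

/-- An involution normalized up to sign by `S`. -/
structure Sw (B : V →ₛₗ[σ] V →ₗ[F] F) (S : Subgroup (V ≃ₗ[F] V)) (t : V ≃ₗ[F] V) : Prop where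
  mem : t ∈ UG B
  sq : ∀ v, t (t v) = v
  nsc : ¬ Sc t
  sgn : ∀ s ∈ S, s * t * s⁻¹ = t ∨ s * t * s⁻¹ = ng t

variable {S : Subgroup (V ≃ₗ[F] V)} {t t' g : V ≃ₗ[F] V}

theorem conj_ng (s t : V ≃ₗ[F] V) : s * ng t * s⁻¹ = ng (s * t * s⁻¹) := by ext; simp

theorem Sw.neg (h : Sw B S t) : Sw B S (ng t) where
  mem u v := by simpa using h.mem u v
  sq v := by simp [h.sq]
  nsc := fun ⟨c, hc⟩ => h.nsc ⟨-c, fun v => by rw [neg_smul, ← hc, ng_apply, neg_neg]⟩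
  sgn s hs := by
    rw [conj_ng]
    rcases h.sgn s hs with e | e <;> simp [e]

theorem Sw.conj (h : Sw B S t) (hg : g ∈ UG B) (hg' : g ∈ 𝐍(S)) : Sw B S (g * t * g⁻¹) where
  mem := mul_mem (mul_mem hg h.mem) (inv_mem hg)
  sq v := by simp [h.sq]
  nsc e := h.nsc e.of_conj
  sgn s hs := by
    have e : s * (g * t * g⁻¹) * s⁻¹ = g * ((g⁻¹ * s * g) * t * (g⁻¹ * s * g)⁻¹) * g⁻¹ := by group
    rw [e, ← conj_ng]
    rcases h.sgn _ (conj_mem_of_norm' hg' hs) with e | e <;> simp only [e, true_or, or_true]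

theorem Sw.decomp (h : Sw B S t) (h2 : (2 : F) ≠ 0) (v : V) :
    ∃ x ∈ fixS t, ∃ y ∈ fixS (ng t), v = x + y :=
  ⟨(2 : F)⁻¹ • (v + t v), by simp [mem_fixS, h.sq, add_comm], (2 : F)⁻¹ • (v - t v),
    by simp [mem_fixS_ng, h.sq, ← smul_neg], by
      rw [← smul_add, add_add_sub_cancel, ← two_smul F v, smul_smul, inv_mul_cancel₀ h2, one_smul]⟩

theorem Sw.isCompl (h : Sw B S t) (h2 : (2 : F) ≠ 0) : IsCompl (fixS t) (fixS (ng t)) := by
  refine ⟨Submodule.disjoint_def.2 fun x hx hx' => ?_, codisjoint_iff.2 (eq_top_iff.2 fun v _ => ?_)⟩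
  · rw [mem_fixS_ng, mem_fixS.1 hx, eq_neg_iff_add_eq_zero, ← two_smul F x] at hx'
    simpa [h2] using hx'
  · obtain ⟨x, hx, y, hy, rfl⟩ := h.decomp h2 v
    exact Submodule.add_mem_sup hx hy

theorem Sw.orth (h : Sw B S t) (h2 : (2 : F) ≠ 0) : fixS (ng t) ≤ perp B (fixS t) := by
  intro y hy
  refine mem_perp.2 fun x hx => (mul_eq_zero.1 ?_).resolve_left h2
  have := h.mem x y
  rw [mem_fixS.1 hx, mem_fixS_ng.1 hy, map_neg] at this
  linear_combination -this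

theorem Sw.good (h : Sw B S t) (h2 : (2 : F) ≠ 0) (hB : Good B) :
    Good (B.domRestrict₁₂ (fixS t) (fixS t)) := by
  rcases hB with rfl | hB
  · exact .inl rfl
  refine .inr (hB.restrict (Submodule.disjoint_def.2 fun x hx hx' => hB.nondeg_right x fun v => ?_))
  obtain ⟨a, ha, b, hb, rfl⟩ := h.decomp h2 v
  simp [mem_perp.1 hx' a ha, hB.eq_zero_comm.1 (mem_perp.1 (h.orth h2 hb) x hx)]

theorem cent_le_subStab (t : V ≃ₗ[F] V) : 𝐂[t] ≤ subStab (fixS t) := fun m hm v => by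
  have : m (t v) = t (m v) := congrArg (· v) (mem_cent1.1 hm)
  rw [mem_fixS, mem_fixS, ← this, m.injective.eq_iff]

theorem Sw.norm_cent (h : Sw B S t) : S ≤ 𝐍(𝐂[t]) := fun s hs => norm_of_conj_eq (by
  rw [conj_cent1]
  rcases h.sgn s hs with e | e <;> rw [e]
  exact cent_ng t)

theorem swap_mem {s : V ≃ₗ[F] V} (h : s * t * s⁻¹ = ng t) {x : V} :
    s x ∈ fixS (ng t) ↔ x ∈ fixS t := by
  rw [mem_fixS, mem_fixS, ← h]
  simp

theorem Sw.glue_mem (h : Sw B S t) (h2 : (2 : F) ≠ 0) (hB : Good B)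
    {u : fixS t ≃ₗ[F] fixS t} (hu : u ∈ UG (B.domRestrict₁₂ (fixS t) (fixS t))) :
    glue (h.isCompl h2) (u, 1) ∈ UG B ⊓ 𝐂[t] := by
  constructor
  · rcases hB with rfl | hB
    · exact zero_mem_UG _
    exact (glue_mem_UG_iff _ hB (h.orth h2) _).2 ⟨hu, one_mem _⟩
  refine mem_cent1.2 (LinearEquiv.ext fun v => ?_)
  obtain ⟨x, y, rfl⟩ := exists_add_of_isCompl (h.isCompl h2) v
  simp [mem_fixS.1 x.2, mem_fixS_ng.1 y.2, mem_fixS.1 (u x).2]

variable [Finite F] [FiniteDimensional F V]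

theorem norm_im {W : Submodule F V} {T : Subgroup (V ≃ₗ[F] V)} (hg : g ∈ subStab W)
    (h : g ∈ 𝐍(T)) : restr W ⟨g, hg⟩ ∈ 𝐍(im W T) := by
  haveI : Finite (W ≃ₗ[F] W) := finite_linearEquiv
  refine mem_normalizer_of_conj_le (conj_le_iff.2 ?_)
  rintro _ ⟨x, hx, rfl⟩
  rw [← map_inv, ← map_mul, ← map_mul]
  exact ⟨_, show g * x * g⁻¹ ∈ T from conj_mem_of_norm h hx, rfl⟩

theorem schur_syl (hB : Good B) (h2 : (2 : F) ≠ 0) {w : ℕ} (hn : finrank F V = 2 ^ (w + 1))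
    (hS : Syl 2 S (SUG B)) (h : ∀ s ∈ S, s * t = t * s) : Sc t := by
  haveI : Finite (V ≃ₗ[F] V) := finite_linearEquiv
  obtain ⟨P, h1, h3, h4⟩ : ∃ P ≤ SUG B, IsPGroup 2 P ∧
      ∀ t : V ≃ₗ[F] V, (∀ s ∈ P, s * t = t * s) → Sc t := by
    cases w with
    | zero => exact exists_schur_two hB h2 hn
    | succ w => exact exists_schur_big hB h2 (by omega) hn
  obtain ⟨g, -, hg⟩ := hS.exists_le_conj h3 h1
  refine Sc.of_conj (x := g) (h4 _ fun s hs => ?_)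
  have := h _ (mem_conj.1 (hg hs))
  calc _ = g * (g⁻¹ * s * g * t) * g⁻¹ := by group
    _ = _ := by rw [this]; group

theorem syl_inf_SUG {W : Subgroup (V ≃ₗ[F] V)} (hW : Syl 2 W (UG B)) :
    Syl 2 (W ⊓ SUG B) (SUG B) := by
  haveI : Finite (V ≃ₗ[F] V) := finite_linearEquiv
  exact hW.inf SUG_le_UG (le_norm_iff.2 fun a ha _ hx => conj_mem_SUG (hW.le ha) hx)

theorem sc_of_odd_two (hB : Good B) (h2 : (2 : F) ≠ 0) (hn : finrank F V = 2)
    {W : Subgroup (V ≃ₗ[F] V)} (hW : Syl 2 W (UG B)) (hg : g ∈ 𝐍(W)) (ho : Odd (orderOf g)) :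
    Sc g := by
  haveI : Finite (V ≃ₗ[F] V) := finite_linearEquiv
  haveI hZ : (scal V : Fˣ →* _).range.Normal := ⟨fun z hz x => by
    rw [(sc_iff.2 hz).comm x, mul_inv_cancel_right]; exact hz⟩
  obtain ⟨P, h1, h3, x, hx, y, hy, hxy⟩ := exists_dih hB h2 hn
  obtain ⟨k, -, hk⟩ := hW.exists_conj_le h3 h1
  have hna : ∃ x ∈ W, ∃ y ∈ W, ¬ Sc (x * y * x⁻¹ * y⁻¹) :=
    ⟨_, hk (conj_mem_conj.2 hx), _, hk (conj_mem_conj.2 hy), fun h => hxy (Sc.of_conj (x := k)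
      (by convert h using 1; group))⟩
  clear hxy hx hy x y hk h3 h1 P k
  obtain ⟨x, hx, y, hy, hxy⟩ := hna
  let π := QuotientGroup.mk' (scal V : Fˣ →* _).range
  have hπ : ∀ x, π x = 1 ↔ Sc x := fun x => by
    rw [sc_iff]; exact QuotientGroup.eq_one_iff x
  have hW' : IsPGroup 2 (W.map π) := hW.pgroup.map π
  have h1 : W.map π ≠ ⊥ := ne_bot_of_mem (Subgroup.mem_map_of_mem π
    (mul_mem (mul_mem (mul_mem hx hy) (inv_mem hx)) (inv_mem hy))) fun e => hxy ((hπ _).1 e)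
  obtain ⟨Z, hZ1, hZ2⟩ := exists_card_eq_prime Nat.prime_two
    (pgroup_dvd_card (pgroup_of_le hW' inf_le_left) (center_ne_bot_of_nil (pgroup_nil hW') h1))
  obtain ⟨a', ha', ha1⟩ := exists_ne_one (ne_bot_of_prime (A := Z) (hZ2 ▸ Nat.prime_two))
  obtain ⟨⟨a, ha, rfl⟩, hc⟩ := hZ1 ha'
  have hsc : ¬ Sc a := fun e => ha1 ((hπ _).2 e)
  obtain ⟨δ, hδ⟩ : Sc (a ^ 2) := (hπ _).1 (by
    have := pow_card_eq_one' (x := (⟨_, ha'⟩ : Z))
    rw [hZ2] at this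
    rw [map_pow]; exact congrArg Subtype.val this)
  have hδ' : ∀ v, a (a v) = δ • v := hδ
  have h4 : ∀ w ∈ W, ∃ c, Sc c ∧ w * a * w⁻¹ = c * a := fun w hw =>
    ⟨w * a * w⁻¹ * a⁻¹, (hπ _).1 (by
      rw [map_mul, map_mul, map_mul, mem_cent.1 hc _ (Subgroup.mem_map_of_mem π hw)]
      simp), by simp⟩
  have h5 : ∀ w ∈ W, w * a = a * w ∨ ∀ v, w (a v) = -a (w v) := fun w hw => by
    obtain ⟨c, ⟨β, hβ⟩, e⟩ := h4 w hw
    have e' : ∀ v, w (a v) = β • a (w v) := fun v => by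
      simpa [hβ] using congrArg (· (w v)) e
    rcases sign_of_det hn hβ e with rfl | rfl
    · exact .inl (LinearEquiv.ext fun v => by simpa using e' v)
    · exact .inr fun v => by simpa using e' v
  rcases h5 _ (conj_mem_of_norm hg ha) with h6 | h6
  swap
  · obtain ⟨c₁, z₁, e₁⟩ := h4 x hx
    obtain ⟨c₂, z₂, e₂⟩ := h4 y hy
    obtain ⟨c₃, z₃, e₃⟩ := h4 _ (conj_mem_of_norm' hg hx)
    obtain ⟨c₄, z₄, e₄⟩ := h4 _ (conj_mem_of_norm' hg hy)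
    refine absurd (sc_of_anti hn h2 hsc h6 (comm_comm e₁ e₂ z₁.comm z₂.comm) ?_) hxy
    have := comm_comm e₃ e₄ z₃.comm z₄.comm
    calc _ = g * (g⁻¹ * x * g * (g⁻¹ * y * g) * (g⁻¹ * x * g)⁻¹ * (g⁻¹ * y * g)⁻¹ * a) * g⁻¹ := by
          group
      _ = _ := by rw [this]; group
  obtain ⟨α, β, e⟩ := exists_eq_of_comm hn hsc h6
  have hβ : β ≠ 0 := by
    rintro rfl
    exact hsc (Sc.of_conj (x := g) ⟨α, by simpa using e⟩)
  obtain rfl : α = 0 := by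
    by_contra hα
    refine hsc ⟨(δ - α ^ 2 - β ^ 2 * δ) / (2 * α * β), fun v => ?_⟩
    have h7 : (g * a * g⁻¹) ((g * a * g⁻¹) v) = δ • v := by simp [hδ']
    rw [e, e, map_add, map_smul, map_smul, hδ'] at h7
    rw [div_eq_inv_mul, mul_smul, eq_inv_smul_iff₀ (by simp [h2, hα, hβ])]
    linear_combination (norm := module) h7
  have h7 : g * a * g⁻¹ = scal V (Units.mk0 β hβ) * a := LinearEquiv.ext fun v => by simp [e]
  have h8 : g * a = a * g := comm_of_sq ho (LinearEquiv.ext fun v => by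
    have h9 : ∀ v, g (a v) = β • a (g v) := fun v => by simpa using e (g v)
    rcases sign_of_det hn (scal_apply _) h7 with h | h <;> simp only [Units.val_mk0] at h <;>
      simp [h9, h])
  obtain ⟨s, hs, h9⟩ : ∃ s ∈ W, ∀ v, s (a v) = -a (s v) := by
    by_contra h
    push Not at h
    refine hsc (schur_syl hB h2 (w := 0) hn (syl_inf_SUG hW) fun s hs => ?_)
    exact (h5 s hs.1).resolve_right (not_forall.2 (h s hs.1))
  have h10 : s * g * s⁻¹ * a = a * (s * g * s⁻¹) := LinearEquiv.ext fun v => by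
    have h11 : s⁻¹ (a v) = -a (s⁻¹ v) := s.injective (by simp [h9])
    have h12 : ∀ v, g (a v) = a (g v) := fun v => congrArg (· v) h8
    simp only [LinearEquiv.mul_apply, h11, map_neg, h12, h9, neg_neg]
  obtain ⟨α₁, β₁, e₁⟩ := exists_eq_of_comm hn hsc h8
  obtain ⟨α₂, β₂, e₂⟩ := exists_eq_of_comm hn hsc h10
  have h11 := conj_eq_of_comm hW.pgroup hg hs ho (LinearEquiv.ext fun v => by
    change g ((s * g * s⁻¹) v) = (s * g * s⁻¹) (g v)
    rw [e₁, e₂, e₂, e₁]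
    simp only [map_add, map_smul]
    module)
  exact sc_of_anti hn h2 hsc h9 h8 (by rw [← mul_inv_eq_iff_eq_mul.1 h11])

theorem exists_sw (hB : Good B) (h2 : (2 : F) ≠ 0) {w : ℕ} (hn : finrank F V = 2 ^ (w + 2))
    (hS : Syl 2 S (SUG B)) : ∃ t ∈ S, Sw B S t := by
  haveI : Finite (V ≃ₗ[F] V) := finite_linearEquiv
  obtain ⟨E, h1, h3, h4⟩ := exists_eight hB h2
    (hn ▸ Nat.pow_le_pow_right (n := 2) (by norm_num) (by omega : 2 ≤ w + 2))
  obtain ⟨g, hg, h5⟩ := hS.exists_conj_le (IsPGroup.of_card (n := 3) h4) h1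
  obtain ⟨U, k1, k2, k3⟩ := Agent.S0221.exists_normal_four hS.pgroup h5
    ⟨(abelian_conj g).2 h3.1, by rintro _ ⟨a, ha, rfl⟩; rw [← map_pow, h3.2 a ha, map_one]⟩
    ((card_conj g E).trans h4)
  have h6 : ∀ u ∈ U, u ≠ 1 → Sc u → ∀ v, u v = -v := fun u hu h1 ⟨c, hc⟩ v => by
    have h7 : u (u v) = v := congrArg (· v) (Inv.k4_mul_self k3 hu)
    by_cases hv : v = 0
    · simp [hv]
    rw [hc, hc, smul_smul] at h7
    rcases mul_self_eq_one_iff.1 (smul_left_injective F hv (h7.trans (one_smul F v).symm)) with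
      rfl | rfl
    · exact absurd (LinearEquiv.ext fun v => by simpa using hc v) h1
    · simpa using hc v
  obtain ⟨z, hz, hz1⟩ := exists_ne_one (nil_meet_center hS.nil k1 k2
    (ne_bot_of_dvd Nat.prime_two (by rw [k3.card_four]; norm_num)))
  have hz2 := h6 z hz.1 hz1 (schur_syl hB h2 hn hS (mem_cent.1 hz.2))
  obtain ⟨t, ht, ht1, htz⟩ := Inv.k4_exists_ne k3 z
  refine ⟨t, k1 ht, (hS.le (k1 ht)).1, fun v => congrArg (· v) (Inv.k4_mul_self k3 ht),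
    fun h => htz (LinearEquiv.ext fun v => by rw [h6 t ht ht1 h, hz2]), fun s hs => ?_⟩
  rcases (Inv.k4_mem_iff k3 hz.1 ht hz1 ht1 htz.symm).1 (conj_mem_of_norm (k2 hs) ht) with
    e | e | e | e
  · exact absurd e (Inv.conj_ne_one ht1)
  · refine absurd ?_ htz
    rw [mul_inv_eq_iff_eq_mul, ← mem_cent.1 hz.2 s hs] at e
    exact mul_left_cancel e
  · exact .inl e
  · exact .inr (e.trans (LinearEquiv.ext fun v => hz2 _))

theorem Sw.exists_swap (h : Sw B S t) (hB : Good B) (h2 : (2 : F) ≠ 0) {w : ℕ}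
    (hn : finrank F V = 2 ^ (w + 1)) (hS : Syl 2 S (SUG B)) : ∃ s ∈ S, s * t * s⁻¹ = ng t := by
  by_contra h1
  push Not at h1
  exact h.nsc (schur_syl hB h2 hn hS fun s hs =>
    mul_inv_eq_iff_eq_mul.1 ((h.sgn s hs).resolve_right (h1 s hs)))

theorem Sw.finrank_eq (h : Sw B S t) (hB : Good B) (h2 : (2 : F) ≠ 0) {w : ℕ}
    (hn : finrank F V = 2 ^ (w + 1)) (hS : Syl 2 S (SUG B)) : finrank F (fixS t) = 2 ^ w := by
  obtain ⟨s, -, hs⟩ := h.exists_swap hB h2 hn hS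
  have h1 : (fixS t).map (s : V →ₗ[F] V) = fixS (ng t) := by
    ext v
    obtain ⟨v, rfl⟩ := s.surjective v
    rw [swap_mem hs]
    exact Submodule.mem_map_equiv _ |>.trans (by simp)
  have h3 := Submodule.finrank_add_eq_of_isCompl (h.isCompl h2)
  rw [← h1, LinearEquiv.finrank_map_eq, hn, pow_succ] at h3
  omega

theorem Sw.syl_cent (h : Sw B S t) (hS : Syl 2 S (SUG B)) :
    Syl 2 (S ⊓ (SUG B ⊓ 𝐂[t])) (SUG B ⊓ 𝐂[t]) := by
  haveI : Finite (V ≃ₗ[F] V) := finite_linearEquiv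
  exact hS.inf inf_le_left (norm_inf (le_norm_of_le hS.le) h.norm_cent)

theorem Sw.syl_UG (h : Sw B S t) (hB : Good B) (h2 : (2 : F) ≠ 0) {w : ℕ}
    (hn : finrank F V = 2 ^ (w + 1)) (hS : Syl 2 S (SUG B)) :
    Syl 2 (im (fixS t) (S ⊓ (SUG B ⊓ 𝐂[t]))) (UG (B.domRestrict₁₂ (fixS t) (fixS t))) := by
  obtain ⟨s, hs, hs'⟩ := h.exists_swap hB h2 hn hS
  convert syl_im (h.syl_cent hS) (inf_le_right.trans (cent_le_subStab t))
  ext u
  rw [mem_im]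
  refine ⟨fun hu => ?_, ?_⟩
  swap
  · rintro ⟨g, hg, hg', rfl⟩
    exact restr_mem_UG _ hg.1.1
  have h1 := h.glue_mem h2 hB hu
  have h3 : glue (h.isCompl h2) (u, 1) * (s * (glue (h.isCompl h2) (u, 1))⁻¹ * s⁻¹) ∈ 𝐂[t] :=
    mul_mem h1.2 (conj_mem_of_norm (h.norm_cent hs) (inv_mem h1.2))
  have h4 := (hS.le hs).1
  refine ⟨_, ⟨mem_SUG.2 ⟨mul_mem h1.1 (mul_mem (mul_mem h4 ((UG B).inv_mem h1.1))
    ((UG B).inv_mem h4)), ?_⟩, h3⟩, cent_le_subStab t h3, ?_⟩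
  · simp only [map_mul, map_inv]
    rw [mul_comm (LinearEquiv.det s), mul_inv_cancel_right, mul_inv_cancel]
  ext x
  have h5 : s⁻¹ x ∈ fixS (ng t) := by
    rw [← swap_mem (s := s) (by rw [conj_ng, hs']), ng_ng]
    simp
  have h6 := glue_apply_right (h.isCompl h2) (u⁻¹, 1) ⟨_, h5⟩
  rw [show (u⁻¹, (1 : fixS (ng t) ≃ₗ[F] fixS (ng t))) = (u, 1)⁻¹ by simp, map_inv] at h6
  simp only [coe_restr_apply, LinearEquiv.mul_apply, h6]
  simp

theorem Sw.syl_SUG (h : Sw B S t) (hB : Good B) (h2 : (2 : F) ≠ 0) (hS : Syl 2 S (SUG B)) :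
    Syl 2 (im (fixS t) (S ⊓ (SUG B ⊓ 𝐂[t]) ⊓ (SUG B ⊓ 𝐂[t] ⊓ fixStab (fixS (ng t)))))
      (SUG (B.domRestrict₁₂ (fixS t) (fixS t))) := by
  haveI : Finite (V ≃ₗ[F] V) := finite_linearEquiv
  have h1 : Syl 2 _ (SUG B ⊓ 𝐂[t] ⊓ fixStab (fixS (ng t))) :=
    (h.syl_cent hS).inf inf_le_left (norm_inf (le_norm_of_le inf_le_right)
      (le_norm_iff.2 fun a ha x hx v hv => by
        have := hx _ ((cent_le_subStab (ng t) ((cent_ng t).ge (𝐂[t].inv_mem ha.2.2)) v).1 hv)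
        simp only [LinearEquiv.mul_apply, this]
        simp))
  convert syl_im h1 (inf_le_left.trans (inf_le_right.trans (cent_le_subStab t)))
  ext u
  rw [mem_im]
  refine ⟨fun hu => ?_, ?_⟩
  · have h3 := h.glue_mem h2 hB hu.1
    refine ⟨_, ⟨⟨mem_SUG.2 ⟨h3.1, ?_⟩, h3.2⟩, fun v hv => glue_apply_right _ _ ⟨v, hv⟩⟩,
      cent_le_subStab t h3.2, LinearEquiv.ext fun x => Subtype.ext (glue_apply_left _ _ x)⟩
    rw [det_glue, (mem_SUG.1 hu).2, map_one, one_mul]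
  rintro ⟨g, hg, hg', rfl⟩
  refine mem_SUG.2 ⟨restr_mem_UG _ hg.1.1.1, ?_⟩
  have h3 := glue_restr (h.isCompl h2) hg' (fixStab_le_subStab _ hg.2)
  have h4 : restr (fixS (ng t)) ⟨g, fixStab_le_subStab _ hg.2⟩ = 1 :=
    LinearEquiv.ext fun x => Subtype.ext (hg.2 x x.2)
  have h5 := (mem_SUG.1 hg.1.1).2
  rwa [← h3, det_glue, h4, map_one, mul_one] at h5

theorem Sw.exists_ne (h : Sw B S t) (hB : Good B) (h2 : (2 : F) ≠ 0) {w : ℕ}
    (hn : finrank F V = 2 ^ (w + 1)) (hS : Syl 2 S (SUG B)) : ∃ x ∈ fixS t, x ≠ 0 :=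
  (Submodule.ne_bot_iff _).1 fun e => by
    have := h.finrank_eq hB h2 hn hS
    rw [e, finrank_bot] at this
    exact (pow_ne_zero w two_ne_zero) this.symm

theorem Sw.smul_of_comm (h : Sw B S t) (h' : Sw B S t') (hB : Good B) (h2 : (2 : F) ≠ 0) {w : ℕ}
    (hn : finrank F V = 2 ^ (w + 2)) (hS : Syl 2 S (SUG B)) (hc : t' ∈ 𝐂[t]) :
    (∀ x ∈ fixS t, t' x = x) ∨ ∀ x ∈ fixS t, t' x = -x := by
  obtain ⟨y, hy, hy0⟩ := h.neg.exists_ne hB h2 hn hS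
  obtain ⟨c, hc'⟩ : Sc (restr _ ⟨t', cent_le_subStab t hc⟩) := by
    refine schur_syl (h.good h2 hB) h2 (h.finrank_eq hB h2 hn hS) (h.syl_SUG hB h2 hS) ?_
    intro u hu
    obtain ⟨a, ha, ha', rfl⟩ := mem_im.1 hu
    rw [← map_mul, ← map_mul]
    congr 1
    refine Subtype.ext (mul_inv_eq_iff_eq_mul.1 ((h'.sgn a ha.1.1).resolve_right fun e => ?_))
    have h3 := congrArg (· y) (mul_inv_eq_iff_eq_mul.1 e)
    simp only [LinearEquiv.mul_apply, ng_apply, ha.2.2 y hy,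
      ha.2.2 _ ((cent_le_subStab (ng t) (cent_ng t ▸ hc) y).1 hy)] at h3
    rw [eq_neg_iff_add_eq_zero, ← two_smul F (t' y)] at h3
    simp [h2, hy0] at h3
  have h3 : ∀ x ∈ fixS t, t' x = c • x := fun x hx => congrArg Subtype.val (hc' ⟨x, hx⟩)
  obtain ⟨x, hx, hx0⟩ := h.exists_ne hB h2 hn hS
  have h4 := h'.sq x
  rw [h3 x hx, map_smul, h3 x hx, smul_smul] at h4
  rcases mul_self_eq_one_iff.1 (smul_left_injective F hx0 (h4.trans (one_smul F x).symm)) with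
    rfl | rfl
  · exact .inl (by simpa using h3)
  · exact .inr (by simpa using h3)

theorem Sw.unique (h : Sw B S t) (h' : Sw B S t') (ht' : t' ∈ S) (hB : Good B) (h2 : (2 : F) ≠ 0)
    {w : ℕ} (hn : finrank F V = 2 ^ (w + 2)) (hS : Syl 2 S (SUG B)) : t' = t ∨ t' = ng t := by
  rcases h.sgn t' ht' with e | e
  · have hc : t' ∈ 𝐂[t] := mem_cent1.2 (mul_inv_eq_iff_eq_mul.1 e)
    rcases h.smul_of_comm h' hB h2 hn hS hc with h3 | h3 <;>
      rcases h.neg.smul_of_comm h' hB h2 hn hS (cent_ng t ▸ hc) with h4 | h4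
    · refine absurd ⟨1, fun v => ?_⟩ h'.nsc
      obtain ⟨x, hx, y, hy, rfl⟩ := h.decomp h2 v
      simp [h3 x hx, h4 y hy]
    · refine .inl (LinearEquiv.ext fun v => ?_)
      obtain ⟨x, hx, y, hy, rfl⟩ := h.decomp h2 v
      simp [h3 x hx, h4 y hy, mem_fixS.1 hx, mem_fixS_ng.1 hy]
    · refine .inr (LinearEquiv.ext fun v => ?_)
      obtain ⟨x, hx, y, hy, rfl⟩ := h.decomp h2 v
      simp [h3 x hx, h4 y hy, mem_fixS.1 hx, mem_fixS_ng.1 hy, add_comm]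
    · refine absurd ⟨-1, fun v => ?_⟩ h'.nsc
      obtain ⟨x, hx, y, hy, rfl⟩ := h.decomp h2 v
      simp [h3 x hx, h4 y hy, add_comm]
  have hr := h.finrank_eq hB h2 hn hS
  obtain ⟨k, hk⟩ := exists_not_sc (V := fixS t) h2
    (hr ▸ Nat.le_self_pow (n := w + 1) (by omega) 2)
  refine absurd (schur_syl (h.good h2 hB) h2 hr (h.syl_SUG hB h2 hS) fun u hu => ?_) hk
  obtain ⟨a, ha, ha', rfl⟩ := mem_im.1 hu
  refine (Sc.comm ?_ k).symm
  have h3 : ∀ x : fixS t, a (t' x) = t' x := fun x => ha.2.2 _ ((swap_mem e).2 x.2)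
  rcases h'.sgn a ha.1.1 with e' | e'
  · refine ⟨1, fun x => Subtype.ext ?_⟩
    simpa [h3, h'.sq] using congrArg (· (t' x)) (mul_inv_eq_iff_eq_mul.1 e')
  · refine ⟨-1, fun x => Subtype.ext ?_⟩
    simpa [h3, h'.sq] using congrArg (· (t' x)) (mul_inv_eq_iff_eq_mul.1 e')

theorem sc_of_odd_step (hB : Good B) (h2 : (2 : F) ≠ 0) {w : ℕ} (hn : finrank F V = 2 ^ (w + 2))
    (ih : ∀ W : Submodule F V, finrank F W = 2 ^ (w + 1) → Good (B.domRestrict₁₂ W W) →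
      ∀ T, Syl 2 T (UG (B.domRestrict₁₂ W W)) → ∀ g ∈ UG (B.domRestrict₁₂ W W), g ∈ 𝐍(T) →
        Odd (orderOf g) → Sc g)
    (hS : Syl 2 S (SUG B)) (hg : g ∈ UG B) (hg' : g ∈ 𝐍(S)) (ho : Odd (orderOf g)) : Sc g := by
  haveI : Finite (V ≃ₗ[F] V) := finite_linearEquiv
  obtain ⟨t, ht, h⟩ := exists_sw hB h2 hn hS
  have hc : g ∈ 𝐂[t] := by
    refine mem_cent1.2 (comm_of_sq ho (mul_inv_eq_iff_eq_mul.1 ?_))
    rw [show g * g * t * (g * g)⁻¹ = g * (g * t * g⁻¹) * g⁻¹ by group]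
    rcases h.unique (h.conj hg hg') (conj_mem_of_norm hg' ht) hB h2 hn hS with e | e
    · rw [e, e]
    · rw [e, conj_ng, e, ng_ng]
  have key : ∀ {t}, Sw B S t → g ∈ 𝐂[t] → ∃ a : F, ∀ x ∈ fixS t, g x = a • x := fun {t} h hc => by
    obtain ⟨a, ha⟩ := ih _ (h.finrank_eq hB h2 hn hS) (h.good h2 hB) _ (h.syl_UG hB h2 hn hS)
      (restr _ ⟨g, cent_le_subStab t hc⟩) (restr_mem_UG _ hg) (norm_im _ (norm_of_conj_eq (by
        rw [conj_inf, conj_inf, conj_eq_of_norm hg', conj_eq_of_mem hc, conj_eq_of_norm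
          ((le_norm_iff.2 fun a ha _ hx => conj_mem_SUG ha hx : UG B ≤ 𝐍(SUG B)) hg)])))
      (Odd.of_dvd_nat ho ((orderOf_map_dvd _ _).trans (by rw [Subgroup.orderOf_mk])))
    exact ⟨a, fun x hx => congrArg Subtype.val (ha ⟨x, hx⟩)⟩
  obtain ⟨a, ha⟩ := key h hc
  obtain ⟨b, hb⟩ := key h.neg (cent_ng t ▸ hc)
  obtain ⟨s, hs, hs'⟩ := h.exists_swap hB h2 hn hS
  have h3 : ∀ x ∈ fixS t, (s * g * s⁻¹) x = b • x := fun x hx => by
    have : s⁻¹ x ∈ fixS (ng t) := by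
      rw [← swap_mem (s := s) (by rw [conj_ng, hs']), ng_ng]
      simpa using hx
    simp only [LinearEquiv.mul_apply, hb _ this]
    simp
  have h4 : ∀ x ∈ fixS (ng t), (s * g * s⁻¹) x = a • x := fun x hx => by
    have : s⁻¹ x ∈ fixS t := by
      rw [← swap_mem hs']
      simpa using hx
    simp only [LinearEquiv.mul_apply, ha _ this]
    simp
  have h5 := conj_eq_of_comm hS.pgroup hg' hs ho (LinearEquiv.ext fun v => by
    change g ((s * g * s⁻¹) v) = (s * g * s⁻¹) (g v)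
    obtain ⟨x, hx, y, hy, rfl⟩ := h.decomp h2 v
    simp only [map_add, map_smul, h3 x hx, h4 y hy, ha x hx, hb y hy]
    module)
  obtain ⟨x, hx, hx0⟩ := h.exists_ne hB h2 hn hS
  obtain rfl : a = b := smul_left_injective F hx0 ((ha x hx).symm.trans (h5 ▸ h3 x hx))
  refine ⟨a, fun v => ?_⟩
  obtain ⟨x, hx, y, hy, rfl⟩ := h.decomp h2 v
  rw [map_add, ha x hx, hb y hy, smul_add]

end

theorem sc_of_odd_UG [Finite F] (h2 : (2 : F) ≠ 0) (w : ℕ) : ∀ (V : Type u) [AddCommGroup V]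
    [Module F V] [FiniteDimensional F V] (B : V →ₛₗ[σ] V →ₗ[F] F), finrank F V = 2 ^ (w + 1) →
    Good B → ∀ T, Syl 2 T (UG B) → ∀ g ∈ UG B, g ∈ 𝐍(T) → Odd (orderOf g) → Sc g := by
  induction w with
  | zero => exact fun V _ _ _ B hn hB T hT g _ hg ho => sc_of_odd_two hB h2 hn hT hg ho
  | succ w ih =>
    intro V _ _ _ B hn hB T hT g hg hg' ho
    refine sc_of_odd_step hB h2 hn (fun W => ih W _) (syl_inf_SUG hT) hg (norm_of_conj_eq ?_) ho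
    rw [conj_inf, conj_eq_of_norm hg', conj_eq_of_norm
      ((le_norm_iff.2 fun a ha _ hx => conj_mem_SUG ha hx : UG B ≤ 𝐍(SUG B)) hg)]

/-- An element of odd order normalizing a Sylow `2`-subgroup of `SL_n` or `SU_n`,
`n = 2 ^ w ≥ 4`, in odd characteristic is a scalar. -/
theorem sc_of_odd [Finite F] {V : Type u} [AddCommGroup V] [Module F V] [FiniteDimensional F V]
    {B : V →ₛₗ[σ] V →ₗ[F] F} (hB : Good B) (h2 : (2 : F) ≠ 0) {w : ℕ}
    (hn : finrank F V = 2 ^ (w + 2)) {S : Subgroup (V ≃ₗ[F] V)} (hS : Syl 2 S (SUG B))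
    {g : V ≃ₗ[F] V} (hg : g ∈ UG B) (hg' : g ∈ 𝐍(S)) (ho : Odd (orderOf g)) : Sc g :=
  sc_of_odd_step hB h2 hn (fun W => sc_of_odd_UG h2 w W _) hS hg hg' ho

end Cfsg.Lib.Pron
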