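import Cfsg.Agent.Lib.Pron.PSL2

/-!
# Norm one quaternions over a field of odd characteristic: the quaternion subgroup of order 8
-/

set_option autoImplicit false

namespace Cfsg.Lib.Pron.Sp

open Subgroup Cfsg.Lib.BG Cfsg.Lib.Transfer Quaternion
open scoped Cfsg.Lib.Transfer Quaternion

variable {F : Type*} [Field F]

/-- The group of norm one quaternions. -/
abbrev U1 (F : Type*) [Field F] : Type _ := unitary ℍ[F]

instance instNontrivialQuat : Nontrivial ℍ[F] := ⟨0, 1, fun h => by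
  simpa using congrArg QuaternionAlgebra.re h⟩

instance instFiniteQuat [Finite F] : Finite ℍ[F] :=
  Finite.of_equiv _ (Quaternion.equivProd F).symm

theorem mem_U1 {x : ℍ[F]} : x ∈ unitary ℍ[F] ↔ normSq x = 1 := by
  rw [Unitary.mem_iff, star_mul_self, self_mul_star, and_self, ← Quaternion.coe_one, coe_inj]

theorem nrm (x : U1 F) : normSq (x : ℍ[F]) = 1 := mem_U1.1 x.2

theorem nrm' (x : U1 F) : x.1.re ^ 2 + x.1.imI ^ 2 + x.1.imJ ^ 2 + x.1.imK ^ 2 = 1 := by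
  rw [← normSq_def']; exact nrm x

theorem coe_inv' (x : U1 F) : ((x⁻¹ : U1 F) : ℍ[F]) = star (x : ℍ[F]) := rfl

theorem coe_ne_zero (x : U1 F) : (x : ℍ[F]) ≠ 0 := fun h => by
  simpa [h] using nrm x

/-- A norm one quaternion as an element of `U1`. -/
def mkU (x : ℍ[F]) (h : normSq x = 1) : U1 F := ⟨x, mem_U1.2 h⟩

@[simp] theorem coe_mkU (x : ℍ[F]) (h : normSq x = 1) : (mkU x h : ℍ[F]) = x := rfl

/-- A quaternion from its coordinates. -/
def qm (a b c d : F) : ℍ[F] := ⟨a, b, c, d⟩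

@[simp] theorem re_qm (a b c d : F) : (qm a b c d).re = a := rfl
@[simp] theorem imI_qm (a b c d : F) : (qm a b c d).imI = b := rfl
@[simp] theorem imJ_qm (a b c d : F) : (qm a b c d).imJ = c := rfl
@[simp] theorem imK_qm (a b c d : F) : (qm a b c d).imK = d := rfl

@[simp] theorem coe_neg' (x : U1 F) : ((-x : U1 F) : ℍ[F]) = -x := rfl
@[simp] theorem coe_mul' (x y : U1 F) : ((x * y : U1 F) : ℍ[F]) = x * y := rfl
@[simp] theorem coe_one' : ((1 : U1 F) : ℍ[F]) = 1 := rfl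

/-- The unit `i`. -/
def qi : U1 F := mkU (qm 0 1 0 0) (by simp [normSq_def'])
/-- The unit `j`. -/
def qj : U1 F := mkU (qm 0 0 1 0) (by simp [normSq_def'])
/-- The unit `k`. -/
def qk : U1 F := mkU (qm 0 0 0 1) (by simp [normSq_def'])

@[simp] theorem coe_qi : ((qi : U1 F) : ℍ[F]) = (qm 0 1 0 0) := rfl
@[simp] theorem coe_qj : ((qj : U1 F) : ℍ[F]) = (qm 0 0 1 0) := rfl
@[simp] theorem coe_qk : ((qk : U1 F) : ℍ[F]) = (qm 0 0 0 1) := rfl

theorem U1.ext' {x y : U1 F} (h1 : x.1.re = y.1.re) (h2 : x.1.imI = y.1.imI)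
    (h3 : x.1.imJ = y.1.imJ) (h4 : x.1.imK = y.1.imK) : x = y :=
  Subtype.ext (Quaternion.ext _ _ h1 h2 h3 h4)

theorem qi_inv : (qi : U1 F)⁻¹ = -qi := by apply U1.ext' <;> simp [coe_inv']
theorem qj_inv : (qj : U1 F)⁻¹ = -qj := by apply U1.ext' <;> simp [coe_inv']
theorem qk_inv : (qk : U1 F)⁻¹ = -qk := by apply U1.ext' <;> simp [coe_inv']
theorem qi_sq : (qi : U1 F) * qi = -1 := by apply U1.ext' <;> simp
theorem qj_sq : (qj : U1 F) * qj = -1 := by apply U1.ext' <;> simp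
theorem qk_sq : (qk : U1 F) * qk = -1 := by apply U1.ext' <;> simp
theorem qi_qj : (qi : U1 F) * qj = qk := by apply U1.ext' <;> simp

theorem mul_cancel_of_norm {a b c : ℍ[F]} (hc : normSq c ≠ 0) (h : a * c = b * c) : a = b := by
  have := congrArg (· * star c * ((normSq c)⁻¹ : F)) h
  simpa only [mul_assoc, ← mul_assoc c, self_mul_star, ← Quaternion.coe_mul, mul_inv_cancel₀ hc, Quaternion.coe_one,
    mul_one] using this

theorem mul_cancel_of_norm' {a b c : ℍ[F]} (hc : normSq c ≠ 0) (h : c * a = c * b) : a = b := by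
  have := congrArg (((normSq c)⁻¹ : F) * star c * ·) h
  simpa only [← mul_assoc, mul_assoc _ (star c) c, star_mul_self, ← Quaternion.coe_mul, inv_mul_cancel₀ hc,
    Quaternion.coe_one, one_mul] using this

/-- The elements of a group inverting or centralizing `s`. -/
def Ax {X : Type*} [Group X] (s : X) : Subgroup X where
  carrier := {x | x * s * x⁻¹ = s ∨ x * s * x⁻¹ = s⁻¹}
  one_mem' := by simp
  mul_mem' := by
    intro a b ha hb
    have e : a * b * s * (a * b)⁻¹ = a * (b * s * b⁻¹) * a⁻¹ := by group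
    have e' : a * s⁻¹ * a⁻¹ = (a * s * a⁻¹)⁻¹ := by group
    rw [Set.mem_ofPred_eq, e]
    rcases hb with hb | hb <;> rcases ha with ha | ha <;> simp only [hb, e', ha, inv_inv] <;> simp
  inv_mem' := by
    intro a ha
    rcases ha with ha | ha
    · left
      conv_lhs => rw [← ha]
      group
    · right
      have : a⁻¹ * s * a⁻¹⁻¹ = (a⁻¹ * s⁻¹ * a)⁻¹ := by group
      rw [this, inv_inj, ← ha]
      group

theorem mem_Ax {X : Type*} [Group X] {s x : X} :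
    x ∈ Ax s ↔ x * s * x⁻¹ = s ∨ x * s * x⁻¹ = s⁻¹ := Iff.rfl

/-- The quaternion group `{±1, ±i, ±j, ±k}`. -/
def Q8 (F : Type*) [Field F] : Subgroup (U1 F) := Ax qi ⊓ Ax qj

variable [NeZero (2 : F)]

theorem two_mul_eq_zero {a : F} (h : a + a = 0) : a = 0 := by
  rw [← two_mul] at h
  exact (mul_eq_zero.1 h).resolve_left two_ne_zero

theorem neg_one_ne : (-1 : U1 F) ≠ 1 := fun h => by
  have := congrArg (fun x : U1 F => x.1.re) h
  simp only [coe_neg', coe_one', re_neg, re_one] at this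
  exact one_ne_zero (two_mul_eq_zero (a := (1 : F)) (by linear_combination -this))

theorem comm_i {x : ℍ[F]} (h : x * (qm 0 1 0 0) = (qm 0 1 0 0) * x) : x.imJ = 0 ∧ x.imK = 0 := by
  have h3 := congrArg QuaternionAlgebra.imJ h
  have h4 := congrArg QuaternionAlgebra.imK h
  simp at h3 h4
  exact ⟨two_mul_eq_zero (by linear_combination -h4), two_mul_eq_zero (by linear_combination h3)⟩

theorem comm_j {x : ℍ[F]} (h : x * (qm 0 0 1 0) = (qm 0 0 1 0) * x) : x.imI = 0 ∧ x.imK = 0 := by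
  have h2 := congrArg QuaternionAlgebra.imI h
  have h4 := congrArg QuaternionAlgebra.imK h
  simp at h2 h4
  exact ⟨two_mul_eq_zero (by linear_combination h4), two_mul_eq_zero (by linear_combination -h2)⟩

theorem comm_k {x : ℍ[F]} (h : x * (qm 0 0 0 1) = (qm 0 0 0 1) * x) : x.imI = 0 ∧ x.imJ = 0 := by
  have h2 := congrArg QuaternionAlgebra.imI h
  have h3 := congrArg QuaternionAlgebra.imJ h
  simp at h2 h3
  exact ⟨two_mul_eq_zero (by linear_combination -h3), two_mul_eq_zero (by linear_combination h2)⟩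

theorem mem_Ax_i {x : U1 F} :
    x ∈ Ax (qi : U1 F) ↔ (x.1.imJ = 0 ∧ x.1.imK = 0) ∨ (x.1.re = 0 ∧ x.1.imI = 0) := by
  rw [mem_Ax, mul_inv_eq_iff_eq_mul, mul_inv_eq_iff_eq_mul, qi_inv]
  refine or_congr ⟨fun h => comm_i (congrArg Subtype.val h), fun h => ?_⟩ ⟨fun h => ?_, fun h => ?_⟩
  · apply U1.ext' <;> simp [h.1, h.2]
  · have h1 := congrArg (fun x : U1 F => x.1.re) h
    have h2 := congrArg (fun x : U1 F => x.1.imI) h
    simp at h1 h2
    exact ⟨two_mul_eq_zero (by linear_combination h2), two_mul_eq_zero (by linear_combination -h1)⟩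
  · apply U1.ext' <;> simp [h.1, h.2]

theorem mem_Ax_j {x : U1 F} :
    x ∈ Ax (qj : U1 F) ↔ (x.1.imI = 0 ∧ x.1.imK = 0) ∨ (x.1.re = 0 ∧ x.1.imJ = 0) := by
  rw [mem_Ax, mul_inv_eq_iff_eq_mul, mul_inv_eq_iff_eq_mul, qj_inv]
  refine or_congr ⟨fun h => comm_j (congrArg Subtype.val h), fun h => ?_⟩ ⟨fun h => ?_, fun h => ?_⟩
  · apply U1.ext' <;> simp [h.1, h.2]
  · have h1 := congrArg (fun x : U1 F => x.1.re) h
    have h2 := congrArg (fun x : U1 F => x.1.imJ) h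
    simp at h1 h2
    exact ⟨two_mul_eq_zero (by linear_combination h2), two_mul_eq_zero (by linear_combination -h1)⟩
  · apply U1.ext' <;> simp [h.1, h.2]

theorem mem_Q8 {x : U1 F} : x ∈ Q8 F ↔ (x = 1 ∨ x = -1) ∨ (x = qi ∨ x = -qi) ∨
    (x = qj ∨ x = -qj) ∨ (x = qk ∨ x = -qk) := by
  rw [Q8, mem_inf, mem_Ax_i, mem_Ax_j]
  constructor
  · have hn := nrm' x
    rintro ⟨h | h, h' | h'⟩ <;> simp only [h.1, h.2, h'.1, h'.2, ne_eq, OfNat.ofNat_ne_zero,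
      not_false_eq_true, zero_pow, add_zero, zero_add,
      sq_eq_one_iff] at hn
    · left
      refine hn.imp (fun e => ?_) fun e => ?_ <;> apply U1.ext' <;> simp [h.1, h.2, h'.1, e]
    · right; left
      refine hn.imp (fun e => ?_) fun e => ?_ <;> apply U1.ext' <;> simp [h.1, h.2, h'.1, e]
    · right; right; left
      refine hn.imp (fun e => ?_) fun e => ?_ <;> apply U1.ext' <;> simp [h.1, h.2, h'.2, e]
    · right; right; right
      refine hn.imp (fun e => ?_) fun e => ?_ <;> apply U1.ext' <;> simp [h.1, h.2, h'.2, e]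
  · rintro ((rfl | rfl) | (rfl | rfl) | (rfl | rfl) | (rfl | rfl)) <;> simp

theorem neg_one_mem : (-1 : U1 F) ∈ Q8 F := mem_Q8.2 (by simp)
theorem qi_mem : (qi : U1 F) ∈ Q8 F := mem_Q8.2 (by simp)
theorem qj_mem : (qj : U1 F) ∈ Q8 F := mem_Q8.2 (by simp)
theorem qk_mem : (qk : U1 F) ∈ Q8 F := mem_Q8.2 (by simp)

theorem neg_mem_Q8 {x : U1 F} (h : x ∈ Q8 F) : -x ∈ Q8 F := by
  rw [← neg_one_mul]; exact mul_mem neg_one_mem h

theorem pow_four {x : U1 F} (h : x ∈ Q8 F) : x ^ 4 = 1 := by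
  have e : x ^ 4 = (x * x) * (x * x) := by simp [pow_succ, mul_assoc]
  rw [e]
  rcases mem_Q8.1 h with (rfl | rfl) | (rfl | rfl) | (rfl | rfl) | (rfl | rfl) <;>
    simp [qi_sq, qj_sq, qk_sq]

theorem pgroup_Q8 : IsPGroup 2 (Q8 F) := fun x => ⟨2, Subtype.ext (pow_four x.2)⟩

theorem eq_of_sq {x : U1 F} (h : x * x = 1) : x = 1 ∨ x = -1 := by
  have e : x = x⁻¹ := eq_inv_of_mul_eq_one_left h
  have h2 := congrArg (fun x : U1 F => x.1.imI) e
  have h3 := congrArg (fun x : U1 F => x.1.imJ) e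
  have h4 := congrArg (fun x : U1 F => x.1.imK) e
  simp only [coe_inv', imI_star, imJ_star, imK_star] at h2 h3 h4
  replace h2 := two_mul_eq_zero (a := x.1.imI) (by linear_combination h2)
  replace h3 := two_mul_eq_zero (a := x.1.imJ) (by linear_combination h3)
  replace h4 := two_mul_eq_zero (a := x.1.imK) (by linear_combination h4)
  have hn := nrm' x
  simp only [h2, h3, h4, ne_eq, OfNat.ofNat_ne_zero, not_false_eq_true, zero_pow, add_zero,
    sq_eq_one_iff] at hn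
  refine hn.imp (fun e => ?_) fun e => ?_ <;> apply U1.ext' <;> simp [h2, h3, h4, e]

/-- The element `(1 - i - j - k) / 2` of order `6`. -/
def qw : U1 F := mkU (qm 2⁻¹ (-2⁻¹) (-2⁻¹) (-2⁻¹)) (by
  simp only [normSq_def', re_qm, imI_qm, imJ_qm, imK_qm]; field_simp; norm_num)
/-- The element `(1 + i + j - k) / 2` of order `6`. -/
def qv : U1 F := mkU (qm 2⁻¹ 2⁻¹ 2⁻¹ (-2⁻¹)) (by
  simp only [normSq_def', re_qm, imI_qm, imJ_qm, imK_qm]; field_simp; norm_num)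

@[simp] theorem coe_qw : ((qw : U1 F) : ℍ[F]) = (qm 2⁻¹ (-2⁻¹) (-2⁻¹) (-2⁻¹)) := rfl
@[simp] theorem coe_qv : ((qv : U1 F) : ℍ[F]) = (qm 2⁻¹ 2⁻¹ 2⁻¹ (-2⁻¹)) := rfl

theorem qv_eq : (qv : U1 F) = qw * qj := by apply U1.ext' <;> simp

theorem qw_i : (qw : U1 F) * qi * qw⁻¹ = qk := by
  rw [mul_inv_eq_iff_eq_mul]; apply U1.ext' <;> simp
theorem qw_j : (qw : U1 F) * qj * qw⁻¹ = qi := by
  rw [mul_inv_eq_iff_eq_mul]; apply U1.ext' <;> simp
theorem qw_k : (qw : U1 F) * qk * qw⁻¹ = qj := by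
  rw [mul_inv_eq_iff_eq_mul]; apply U1.ext' <;> simp

theorem qw_cube : (qw : U1 F) * qw * qw = -1 := by
  apply U1.ext' <;> simp <;> field_simp <;> norm_num

theorem qw_not_mem : (qw : U1 F) ∉ Q8 F := fun h => by
  simpa [two_ne_zero] using mem_Ax_i.1 h.1

theorem qw_sq_not_mem : (qw : U1 F) * qw ∉ Q8 F := fun h =>
  qw_not_mem (F := F) (by
    have := mul_mem (inv_mem h) (qw_cube (F := F) ▸ neg_one_mem)
    rwa [inv_mul_cancel_left] at this)

theorem conj_neg (t x : U1 F) : t * -x * t⁻¹ = -(t * x * t⁻¹) := by simp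

theorem mem_Ax_of {t s : U1 F} (hs : s⁻¹ = -s) (h : t * s * t⁻¹ = s ∨ t * s * t⁻¹ = -s) :
    t ∈ Ax s := by rwa [mem_Ax, hs]

theorem conj_sq {t s : U1 F} (hs : s * s = -1) : t * s * t⁻¹ * (t * s * t⁻¹) = -1 := by
  rw [show t * s * t⁻¹ * (t * s * t⁻¹) = t * (s * s) * t⁻¹ by group, hs]; simp

theorem mem_Q8_of_sq {x : U1 F} (h : x ∈ Q8 F) (hx : x * x = -1) : (x = qi ∨ x = -qi) ∨
    (x = qj ∨ x = -qj) ∨ (x = qk ∨ x = -qk) := by
  refine (mem_Q8.1 h).resolve_left ?_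
  rintro (rfl | rfl) <;> exact neg_one_ne (F := F) (by simpa using hx.symm)

theorem sq_of_pure {x : U1 F} (h : x.1.re = 0) : x * x = -1 := by
  have := nrm' x
  apply U1.ext' <;> simp [h] at this ⊢
  · linear_combination -this
  all_goals ring

variable [Finite F]

theorem qw_norm : (qw : U1 F) ∈ 𝐍(Q8 F) := by
  refine mem_normalizer_of_conj_le (conj_le_iff.2 fun x hx => ?_)
  rcases mem_Q8.1 hx with (rfl | rfl) | (rfl | rfl) | (rfl | rfl) | (rfl | rfl) <;>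
    simp only [conj_neg, qw_i, qw_j, qw_k, mul_one, mul_inv_cancel] <;> exact mem_Q8.2 (by simp)

theorem mem_of_sq {X : Type*} [Group X] [Finite X] {S : Subgroup X} (hS : Syl 2 S ⊤) {t : X}
    (ht : t ∈ 𝐍(S)) (h : t * t ∈ S) : t ∈ S := by
  obtain ⟨k, hk⟩ := hS.pgroup ⟨_, h⟩
  have e : t ^ 2 ^ (k + 1) = 1 := by
    rw [pow_succ', pow_mul, sq]; exact congrArg Subtype.val hk
  exact hS.ge_of_norm_p' le_top (isPGroup_zpowers e) (zpowers_le.2 ht) (mem_zpowers t)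

theorem mem_of_Ax (hQ : Syl 2 (Q8 F) ⊤) {t : U1 F} (ht : t ∈ 𝐍(Q8 F)) (h : t ∈ Ax qi) :
    t ∈ Q8 F := by
  refine mem_of_sq hQ ht ?_
  rcases mem_Ax_i.1 h with h | h
  · have e : t * qj * t⁻¹ = t * t * qj := by
      apply U1.ext' <;> simp [coe_inv', h.1, h.2, sub_eq_add_neg]
    have := mul_mem (e ▸ conj_mem_of_norm ht qj_mem) (inv_mem (qj_mem (F := F)))
    rwa [mul_inv_cancel_right] at this
  · rw [sq_of_pure h.1]; exact neg_one_mem

theorem norm_cases (hQ : Syl 2 (Q8 F) ⊤) {t : U1 F} (ht : t ∈ 𝐍(Q8 F)) :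
    t ∈ Q8 F ∨ qw * t ∈ Q8 F ∨ qw * (qw * t) ∈ Q8 F := by
  have e : ∀ a b c : U1 F, a * b * c * (a * b)⁻¹ = a * (b * c * b⁻¹) * a⁻¹ := fun _ _ _ => by group
  refine (mem_Q8_of_sq (conj_mem_of_norm ht qi_mem) (conj_sq qi_sq)).imp
    (fun h => mem_of_Ax hQ ht (mem_Ax_of qi_inv h)) (Or.imp (fun h => ?_) fun h => ?_)
  · refine mem_of_Ax hQ (mul_mem qw_norm ht) (mem_Ax_of qi_inv ?_)
    rcases h with h | h <;> simp only [e, h, conj_neg, qw_j] <;> simp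
  · refine mem_of_Ax hQ (mul_mem qw_norm (mul_mem qw_norm ht)) (mem_Ax_of qi_inv ?_)
    rcases h with h | h <;> simp only [e, h, conj_neg, qw_j, qw_k] <;> simp

theorem norm_exists (hQ : Syl 2 (Q8 F) ⊤) {t : U1 F} (ht : t ∈ 𝐍(Q8 F)) :
    ∃ n : ℕ, ∃ q ∈ Q8 F, t = (qw ^ n)⁻¹ * q := by
  rcases norm_cases hQ ht with h | h | h
  · exact ⟨0, t, h, by simp⟩
  · exact ⟨1, _, h, by simp⟩
  · exact ⟨2, _, h, by simp [sq, mul_assoc]⟩

theorem norm_comm (hQ : Syl 2 (Q8 F) ⊤) {s t : U1 F} (hs : s ∈ 𝐍(Q8 F)) (ht : t ∈ 𝐍(Q8 F)) :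
    s * t * s⁻¹ * t⁻¹ ∈ Q8 F := by
  obtain ⟨n, a, ha, rfl⟩ := norm_exists hQ hs
  obtain ⟨m, b, hb, rfl⟩ := norm_exists hQ ht
  have hw : ∀ k : ℤ, ∀ x ∈ Q8 F, qw ^ k * x * (qw ^ k)⁻¹ ∈ Q8 F := fun k x hx =>
    conj_mem_of_norm (zpow_mem qw_norm k) hx
  have e : (qw ^ n)⁻¹ * a * ((qw ^ m)⁻¹ * b) * ((qw ^ n)⁻¹ * a)⁻¹ * ((qw ^ m)⁻¹ * b)⁻¹ =
      (qw ^ (-n : ℤ) * a * (qw ^ (-n : ℤ))⁻¹) *
        (qw ^ (-n - m : ℤ) * (b * a⁻¹) * (qw ^ (-n - m : ℤ))⁻¹) *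
        (qw ^ (-m : ℤ) * b⁻¹ * (qw ^ (-m : ℤ))⁻¹) := by group
  rw [e]
  exact mul_mem (mul_mem (hw _ _ ha) (hw _ _ (mul_mem hb (inv_mem ha)))) (hw _ _ (inv_mem hb))

theorem norm_gen (hQ : Syl 2 (Q8 F) ⊤) {s t : U1 F} (hs : s ∈ 𝐍(Q8 F)) (ht : t ∈ 𝐍(Q8 F))
    (h : t ∉ Q8 F) : s ∈ Q8 F ⊔ zpowers t := by
  have h1 : Q8 F ≤ Q8 F ⊔ zpowers t := le_sup_left
  have h2 : t ∈ Q8 F ⊔ zpowers t := mem_sup_right (mem_zpowers t)
  have hw : qw ∈ Q8 F ⊔ zpowers t := by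
    rcases (norm_cases hQ ht).resolve_left h with h' | h'
    · simpa using mul_mem (h1 h') (inv_mem h2)
    · have := mul_mem (inv_mem (mul_mem (h1 h') (inv_mem h2))) (h1 (qw_cube (F := F) ▸ neg_one_mem))
      simpa [mul_assoc] using this
  obtain ⟨n, a, ha, rfl⟩ := norm_exists hQ hs
  exact mul_mem (inv_mem (pow_mem hw n)) (h1 ha)

omit [Finite F] in
theorem anti_of_comm {x t : U1 F} (hx : (x = qi ∨ x = -qi) ∨ (x = qj ∨ x = -qj) ∨
    (x = qk ∨ x = -qk)) (h : t * x = x * t) : ∃ s ∈ Q8 F, s * t * s⁻¹ = t⁻¹ := by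
  rcases hx with hx | hx | hx
  · have := comm_i (x := t.1) (by
      rcases hx with rfl | rfl <;> simpa using congrArg Subtype.val h)
    exact ⟨qj, qj_mem, by apply U1.ext' <;> simp [coe_inv', this.1, this.2]⟩
  · have := comm_j (x := t.1) (by
      rcases hx with rfl | rfl <;> simpa using congrArg Subtype.val h)
    exact ⟨qi, qi_mem, by apply U1.ext' <;> simp [coe_inv', this.1, this.2]⟩
  · have := comm_k (x := t.1) (by
      rcases hx with rfl | rfl <;> simpa using congrArg Subtype.val h)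
    exact ⟨qi, qi_mem, by apply U1.ext' <;> simp [coe_inv', this.1, this.2]⟩

theorem exists_second {S : Subgroup (U1 F)} (hS : IsPGroup 2 S) (hQ : Q8 F ≤ S) :
    ∃ x ∈ S, x ≠ 1 ∧ x ≠ -1 ∧ ∀ y ∈ S, y * x * y⁻¹ = x ∨ y * x * y⁻¹ = -x := by
  have hz : ∀ x : U1 F, x ∈ zpowers (-1 : U1 F) → x = 1 ∨ x = -1 := by
    rintro x ⟨n, rfl⟩
    exact eq_of_sq (by
      change (-1) ^ n * (-1) ^ n = 1
      rw [← (Commute.refl _).mul_zpow]; simp)
  haveI : (zpowers (-1 : U1 F)).Normal := ⟨fun x hx g => by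
    rcases hz x hx with rfl | rfl <;> simp⟩
  let π := QuotientGroup.mk' (zpowers (-1 : U1 F))
  have h1 : S.map π ≠ ⊥ := by
    refine ne_bot_of_mem (mem_map_of_mem π (hQ qi_mem)) fun e => ?_
    rcases hz _ ((QuotientGroup.eq_one_iff _).1 e) with e | e <;>
      simpa using congrArg (fun x : U1 F => x.1.imI) e
  obtain ⟨_, ⟨⟨x, hx, rfl⟩, hc⟩, hne⟩ :=
    exists_ne_one (center_ne_bot_of_nil (pgroup_nil (hS.map π)) h1)
  refine ⟨x, hx, fun e => hne (by simp [e]), fun e => hne ?_, fun y hy => ?_⟩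
  · exact (QuotientGroup.eq_one_iff _).2 (e ▸ mem_zpowers _)
  · have e := mem_cent.1 hc _ (mem_map_of_mem π hy)
    have e' : π (y * x * y⁻¹ * x⁻¹) = 1 := by simp only [map_mul, map_inv, e]; group
    refine (hz _ ((QuotientGroup.eq_one_iff _).1 e')).imp (fun h => ?_) fun h => ?_
    · exact mul_inv_eq_one.1 h
    · rw [mul_inv_eq_iff_eq_mul] at h; simpa using h

omit [Finite F] in
theorem mem_Ax_symm {x y : U1 F} (hy : y * y = -1) (h : y * x * y⁻¹ = x ∨ y * x * y⁻¹ = -x) :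
    x ∈ Ax y := by
  have hy' : y⁻¹ = -y := by
    rw [inv_eq_iff_mul_eq_one]; simp [hy]
  refine mem_Ax_of hy' (h.imp (fun h => ?_) fun h => ?_)
  · rw [mul_inv_eq_iff_eq_mul] at h ⊢; exact h.symm
  · rw [mul_inv_eq_iff_eq_mul] at h ⊢; simp [h]

theorem norm_le_of_ne {S : Subgroup (U1 F)} (hS : Syl 2 S ⊤) (hQ : Q8 F ≤ S) (hne : S ≠ Q8 F) :
    𝐍(S) ≤ S := by
  refine le_trans (le_inf le_top le_rfl) (norm_le_of_odd hS le_rfl fun t ht ho => ?_)
  let Z : U1 F → Prop := fun x => x ∈ S ∧ ∀ y ∈ S, y * x * y⁻¹ = x ∨ y * x * y⁻¹ = -x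
  have hZQ : ∀ x, Z x → x ∈ Q8 F := fun x hx =>
    ⟨mem_Ax_symm qi_sq (hx.2 _ (hQ qi_mem)), mem_Ax_symm qj_sq (hx.2 _ (hQ qj_mem))⟩
  have hZt : ∀ x, Z x → Z (t * x * t⁻¹) := fun x hx => ⟨conj_mem_of_norm ht.2 hx.1, fun y hy => by
    have e : y * (t * x * t⁻¹) * y⁻¹ = t * ((t⁻¹ * y * t) * x * (t⁻¹ * y * t)⁻¹) * t⁻¹ := by group
    rcases hx.2 _ (conj_mem_of_norm' ht.2 hy) with h | h <;> simp only [e, h, conj_neg] <;> simp⟩
  have hZn : ∀ x, Z (-x) → Z x := fun x hx =>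
    ⟨by simpa using mul_mem (hQ neg_one_mem) hx.1, fun y hy => by
      simpa only [conj_neg, neg_inj] using hx.2 y hy⟩
  have hZm : ∀ x y, Z x → Z y → Z (x * y) := fun x y hx hy => ⟨mul_mem hx.1 hy.1, fun z hz => by
    have e : z * (x * y) * z⁻¹ = (z * x * z⁻¹) * (z * y * z⁻¹) := by group
    rcases hx.2 z hz with h | h <;> rcases hy.2 z hz with h' | h' <;> simp [e, h, h']⟩
  have hij : Z qi → Z qj → False := fun hi hj => hne (le_antisymm (fun y hy =>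
    ⟨mem_Ax_of qi_inv (hi.2 y hy), mem_Ax_of qj_inv (hj.2 y hy)⟩) hQ)
  have hik : Z qi → Z qk → False := fun hi hk => hij hi (by
    have := hZm _ _ hk hi
    rwa [show (qk : U1 F) * qi = qj by apply U1.ext' <;> simp] at this)
  have hjk : Z qj → Z qk → False := fun hj hk => hij (by
    have := hZm _ _ hj hk
    rwa [show (qj : U1 F) * qk = qi by apply U1.ext' <;> simp] at this) hj
  have hpm : ∀ x y, Z x → (x = y ∨ x = -y) → Z y := by
    rintro x y hx (rfl | rfl)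
    exacts [hx, hZn _ hx]
  obtain ⟨x, hx, h1, h2, h3⟩ := exists_second hS.pgroup hQ
  have hx' : Z x := ⟨hx, h3⟩
  have hc := (mem_Q8.1 (hZQ x hx')).resolve_left (by simp [h1, h2])
  have hsq : x * x = -1 := by
    rcases hc with (rfl | rfl) | (rfl | rfl) | (rfl | rfl) <;> simp [qi_sq, qj_sq, qk_sq]
  have hc' := mem_Q8_of_sq (hZQ _ (hZt x hx')) (conj_sq hsq)
  have key : t * x * t⁻¹ = x ∨ t * x * t⁻¹ = -x := by
    have aux : ∀ y, (x = y ∨ x = -y) → (t * x * t⁻¹ = y ∨ t * x * t⁻¹ = -y) →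
        t * x * t⁻¹ = x ∨ t * x * t⁻¹ = -x := by
      rintro y (h | h) (h' | h') <;> rw [h'] <;> simp [h]
    rcases hc with a | a | a <;> rcases hc' with b | b | b
    exacts [aux _ a b, (hij (hpm _ _ hx' a) (hpm _ _ (hZt x hx') b)).elim,
      (hik (hpm _ _ hx' a) (hpm _ _ (hZt x hx') b)).elim,
      (hij (hpm _ _ (hZt x hx') b) (hpm _ _ hx' a)).elim, aux _ a b,
      (hjk (hpm _ _ hx' a) (hpm _ _ (hZt x hx') b)).elim,
      (hik (hpm _ _ (hZt x hx') b) (hpm _ _ hx' a)).elim,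
      (hjk (hpm _ _ (hZt x hx') b) (hpm _ _ hx' a)).elim, aux _ a b]
  have hcm : t * x = x * t := comm_of_sq ho (by
    have e : t * t * x = t * (t * x * t⁻¹) * t⁻¹ * (t * t) := by group
    rcases key with h | h <;> simp only [e, h, conj_neg, neg_neg])
  obtain ⟨s, hs, e⟩ := anti_of_comm hc hcm
  refine mem_of_sq hS ht.2 ?_
  have e' : t * t = (t * s * t⁻¹) * s⁻¹ := by
    rw [mul_assoc, mul_assoc, ← mul_assoc s, show s * t⁻¹ * s⁻¹ = (s * t * s⁻¹)⁻¹ by group, e,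
      inv_inv]
  rw [e']
  exact mul_mem (conj_mem_of_norm ht.2 (hQ hs)) (inv_mem (hQ hs))

end Cfsg.Lib.Pron.Sp
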