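import Cfsg.Agent.Lib.Pron.SpA

/-!
# Unitary groups of quaternionic matrices: embeddings, rank one elements, monomial subgroups
-/

set_option autoImplicit false

namespace Cfsg.Lib.Pron.Sp

open Subgroup Cfsg.Lib.BG Cfsg.Lib.Transfer Quaternion Matrix
open scoped Cfsg.Lib.Transfer Quaternion

/-- The unitary group of quaternionic matrices (a model of the symplectic group). -/
abbrev UM (I : Type*) [Fintype I] [DecidableEq I] (F : Type*) [Field F] : Type _ :=
  unitary (Matrix I I ℍ[F])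

variable {F : Type*} [Field F] {I J : Type*} [Fintype I] [DecidableEq I] [Fintype J]
  [DecidableEq J]

theorem UM.ext' {x y : UM I F} (h : ∀ a b, x.1 a b = y.1 a b) : x = y :=
  Subtype.ext (Matrix.ext h)

theorem UM.coe_mul (x y : UM I F) : (x * y).1 = x.1 * y.1 := rfl
theorem UM.coe_one : (1 : UM I F).1 = 1 := rfl
theorem UM.coe_inv (x : UM I F) : (x⁻¹).1 = x.1ᴴ := rfl
theorem UM.coe_neg (x : UM I F) : (-x).1 = -x.1 := rfl
theorem UM.hl (x : UM I F) : x.1ᴴ * x.1 = 1 := x.2.1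
theorem UM.hr (x : UM I F) : x.1 * x.1ᴴ = 1 := x.2.2

theorem emb_mul {P : Matrix I J ℍ[F]} (hP : Pᴴ * P = 1) (M N : Matrix J J ℍ[F]) :
    (1 + P * (M - 1) * Pᴴ) * (1 + P * (N - 1) * Pᴴ) = 1 + P * (M * N - 1) * Pᴴ := by
  have e : P * (M - 1) * Pᴴ * (P * (N - 1) * Pᴴ) = P * ((M - 1) * (N - 1)) * Pᴴ := by
    simp only [Matrix.mul_assoc]
    rw [← Matrix.mul_assoc Pᴴ P, hP, Matrix.one_mul]
  have e' : M * N - 1 = (M - 1) + (N - 1) + (M - 1) * (N - 1) := by noncomm_ring
  rw [e', Matrix.mul_add P, Matrix.mul_add P, Matrix.add_mul _ _ Pᴴ, Matrix.add_mul _ _ Pᴴ, ← e]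
  noncomm_ring

theorem emb_star (P : Matrix I J ℍ[F]) (M : Matrix J J ℍ[F]) :
    (1 + P * (M - 1) * Pᴴ)ᴴ = 1 + P * (Mᴴ - 1) * Pᴴ := by
  simp [conjTranspose_mul, Matrix.mul_assoc]

/-- The embedding of unitary groups given by an orthonormal family. -/
def emb (P : Matrix I J ℍ[F]) (hP : Pᴴ * P = 1) : UM J F →* UM I F where
  toFun M := ⟨1 + P * (M.1 - 1) * Pᴴ, by
    constructor
    · rw [star_eq_conjTranspose, emb_star, emb_mul hP, M.hl]; simp
    · rw [star_eq_conjTranspose, emb_star, emb_mul hP, M.hr]; simp⟩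
  map_one' := Subtype.ext (by simp)
  map_mul' M N := Subtype.ext (emb_mul hP _ _).symm

theorem coe_emb {P : Matrix I J ℍ[F]} (hP : Pᴴ * P = 1) (M : UM J F) :
    (emb P hP M).1 = 1 + P * (M.1 - 1) * Pᴴ := rfl

theorem emb_injective {P : Matrix I J ℍ[F]} (hP : Pᴴ * P = 1) :
    Function.Injective (emb P hP) := by
  refine (injective_iff_map_eq_one _).2 fun M h => Subtype.ext ?_
  have e := congrArg (fun x : UM I F => Pᴴ * (x.1 - 1) * P) h
  simp only [coe_emb, add_sub_cancel_left, UM.coe_one, sub_self, Matrix.mul_zero, Matrix.zero_mul,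
    Matrix.mul_assoc, hP, Matrix.mul_one] at e
  rw [← Matrix.mul_assoc, hP, Matrix.one_mul] at e
  exact sub_eq_zero.1 e

theorem emb_emb {L : Type*} [Fintype L] [DecidableEq L] {P : Matrix I J ℍ[F]} (hP : Pᴴ * P = 1)
    {R : Matrix J L ℍ[F]} (hR : Rᴴ * R = 1) (h : (P * R)ᴴ * (P * R) = 1) (M : UM L F) :
    emb P hP (emb R hR M) = emb (P * R) h M :=
  Subtype.ext (by simp [coe_emb, conjTranspose_mul, Matrix.mul_assoc])

theorem conj_eq_emb (k M : UM I F) : k * M * k⁻¹ = emb k.1 k.hl M :=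
  Subtype.ext (by simp [coe_emb, UM.coe_inv, Matrix.mul_sub, Matrix.sub_mul, k.hr])

/-- Diagonal matrices. -/
def dg : (I → U1 F) →* UM I F where
  toFun a := ⟨diagonal fun i => (a i : ℍ[F]), by
    constructor <;> simp [star_eq_conjTranspose, diagonal_conjTranspose, diagonal_mul_diagonal]⟩
  map_one' := Subtype.ext (by simp)
  map_mul' a b := Subtype.ext (by simp [diagonal_mul_diagonal])

theorem coe_dg (a : I → U1 F) : (dg a).1 = diagonal fun i => (a i : ℍ[F]) := rfl

theorem dg_apply (a : I → U1 F) (i j : I) :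
    (dg a).1 i j = if i = j then (a i : ℍ[F]) else 0 := by rw [coe_dg, diagonal_apply]

/-- Unit vectors. -/
def Un (u : I → ℍ[F]) : Prop := ∑ i, normSq (u i) = 1

omit [Fintype I] [DecidableEq I] in
theorem coe_sum (s : Finset I) (f : I → F) : ((∑ i ∈ s, f i : F) : ℍ[F]) = ∑ i ∈ s, (f i : ℍ[F]) :=
  map_sum (algebraMap F ℍ[F]) f s

omit [DecidableEq I] in
theorem un_iff {u : I → ℍ[F]} :
    Un u ↔ (replicateCol Unit u)ᴴ * replicateCol Unit u = 1 := by
  rw [Un, ← Quaternion.coe_inj, ← Matrix.ext_iff, coe_sum]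
  simp [mul_apply, Quaternion.star_mul_self]

theorem Un.mulVec {P : Matrix I J ℍ[F]} (hP : Pᴴ * P = 1) {v : J → ℍ[F]} (hv : Un v) :
    Un (P *ᵥ v) := by
  rw [un_iff] at hv ⊢
  rw [replicateCol_mulVec, conjTranspose_mul, Matrix.mul_assoc, ← Matrix.mul_assoc Pᴴ, hP,
    Matrix.one_mul, hv]

theorem un_single (j : I) : Un (Pi.single j 1 : I → ℍ[F]) := by
  simp [Un, Pi.single_apply, apply_ite normSq]

theorem un_col (k : UM I F) (j : I) : Un fun i => k.1 i j := by
  have := (un_single (F := F) j).mulVec k.hl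
  rwa [mulVec_single_one] at this

/-- The symplectic group of the plane spanned by a unit vector. -/
def rk (u : I → ℍ[F]) (hu : Un u) : U1 F →* UM I F :=
  (emb (replicateCol Unit u) (un_iff.1 hu)).comp (dg.comp (Pi.constMonoidHom Unit (U1 F)))

theorem rk_apply {u : I → ℍ[F]} (hu : Un u) (s : U1 F) (a b : I) :
    (rk u hu s).1 a b = (if a = b then 1 else 0) + u a * (s - 1) * star (u b) := by
  simp [rk, coe_emb, coe_dg, mul_apply, one_apply]

theorem emb_rk {P : Matrix I J ℍ[F]} (hP : Pᴴ * P = 1) {v : J → ℍ[F]} (hv : Un v) (s : U1 F) :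
    emb P hP (rk v hv s) = rk (P *ᵥ v) (hv.mulVec hP) s := by
  simp only [rk, MonoidHom.comp_apply]
  rw [emb_emb hP _ (by rw [← replicateCol_mulVec]; exact un_iff.1 (hv.mulVec hP))]
  simp only [replicateCol_mulVec]

theorem conj_rk (k : UM I F) {v : I → ℍ[F]} (hv : Un v) (s : U1 F) :
    k * rk v hv s * k⁻¹ = rk (k.1 *ᵥ v) (hv.mulVec k.hl) s := by
  rw [conj_eq_emb, emb_rk]

theorem rk_congr {u v : I → ℍ[F]} (hu : Un u) (h : u = v) (s : U1 F) :
    rk u hu s = rk v (h ▸ hu) s := by subst h; rfl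

theorem rk_mul {u v : I → ℍ[F]} (hu : Un u) (hv : Un v) (c s : U1 F) (h : ∀ i, v i = u i * c) :
    rk v hv s = rk u hu (c * s * c⁻¹) := by
  refine UM.ext' fun a b => ?_
  rw [rk_apply, rk_apply, h, h, star_mul, coe_mul', coe_mul', coe_inv']
  have := Unitary.coe_mul_star_self c
  rw [Unitary.coe_star] at this
  generalize (if a = b then (1 : ℍ[F]) else 0) = d
  conv_rhs => rw [← this]
  noncomm_ring

/-- The symplectic group of a coordinate plane. -/
def dl (j : I) : U1 F →* UM I F := dg.comp (MonoidHom.mulSingle (fun _ : I => U1 F) j)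

theorem dl_eq (j : I) (s : U1 F) : dl j s = dg (Pi.mulSingle j s) := rfl

theorem dl_eq_rk (j : I) (s : U1 F) : dl j s = rk (Pi.single j 1) (un_single j) s := by
  refine UM.ext' fun a b => ?_
  rw [rk_apply, dl_eq, dg_apply]
  by_cases ha : a = j <;> by_cases hb : b = j <;> by_cases h : a = b <;> simp_all

theorem conj_dl (k : UM I F) (j : I) (s : U1 F) :
    k * dl j s * k⁻¹ = rk (fun i => k.1 i j) (un_col k j) s := by
  rw [dl_eq_rk, conj_rk]
  exact rk_congr _ (mulVec_single_one _ _) _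

theorem rk_eq_dl {u : I → ℍ[F]} (hu : Un u) {x : I} (h : ∀ l, l ≠ x → u l = 0) :
    rk u hu (-1) = dl x (-1) := by
  have h1 : normSq (u x) = 1 := by
    rw [← hu, Finset.sum_eq_single x (fun l _ hl => by simp [h l hl]) (by simp)]
  rw [dl_eq_rk, rk_mul (un_single x) hu (mkU _ h1) _ fun i => ?_]
  · simp
  · by_cases hi : i = x <;> simp [hi, h]

theorem dg_mem {H : Subgroup (UM I F)} {a : I → U1 F} (h : ∀ j, dl j (a j) ∈ H) : dg a ∈ H :=
  Subgroup.pi_mem_of_mulSingle_mem (H := H.comap dg) a h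

/-- Permutation matrices. -/
def pm : Equiv.Perm I →* UM I F where
  toFun σ := ⟨of fun i j => if i = σ j then 1 else 0, by
    constructor <;> ext i j : 1
    · simp [mul_apply, one_apply, eq_comm, apply_ite star]
    · simp only [mul_apply, star_apply, of_apply, apply_ite star, star_one, star_zero, one_apply]
      rw [Finset.sum_eq_single (σ.symm j) (fun l _ hl => ?_) (by simp)]
      · simp
      · rw [if_neg (fun e : j = σ l => hl (by simp [e])), mul_zero]⟩
  map_one' := UM.ext' fun i j => by simp [one_apply]; rfl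
  map_mul' σ τ := UM.ext' fun i j => by simp [mul_apply]; rfl

/-- Monomial matrices. -/
def mon (σ : Equiv.Perm I) (a : I → U1 F) : UM I F := pm σ * dg a

theorem mon_apply (σ : Equiv.Perm I) (a : I → U1 F) (i j : I) :
    (mon σ a).1 i j = if i = σ j then (a j : ℍ[F]) else 0 := by
  simp [mon, pm, coe_dg]

theorem mon_one (a : I → U1 F) : mon 1 a = dg a := by simp [mon]
theorem mon_one' (σ : Equiv.Perm I) : mon σ (1 : I → U1 F) = pm σ := by simp [mon]

theorem mon_mul (σ τ : Equiv.Perm I) (a b : I → U1 F) :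
    mon σ a * mon τ b = mon (σ * τ) fun j => a (τ j) * b j :=
  UM.ext' fun i j => by simp [mul_apply, mon_apply]; rfl

theorem mon_inv (σ : Equiv.Perm I) (a : I → U1 F) :
    (mon σ a)⁻¹ = mon σ⁻¹ fun j => (a (σ⁻¹ j))⁻¹ := by
  rw [inv_eq_iff_mul_eq_one, mon_mul, mul_inv_cancel, mon_one]
  simp only [mul_inv_cancel]
  exact map_one dg

theorem mon_inj {σ τ : Equiv.Perm I} {a b : I → U1 F} (h : mon σ a = mon τ b) : σ = τ ∧ a = b := by
  have e : ∀ j, σ j = τ j ∧ a j = b j := fun j => by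
    have := congrArg (fun x : UM I F => x.1 (σ j) j) h
    simp only [mon_apply, if_true] at this
    split_ifs at this with h'
    · exact ⟨h', Subtype.ext this⟩
    · exact absurd this (coe_ne_zero _)
  exact ⟨Equiv.ext fun j => (e j).1, funext fun j => (e j).2⟩

theorem mon_col {σ : Equiv.Perm I} {a : I → U1 F} {x y j : I} (hx : (mon σ a).1 x j ≠ 0)
    (hy : (mon σ a).1 y j ≠ 0) : x = y := by
  rw [mon_apply] at hx hy
  rw [of_not_not fun h => hx (if_neg h), of_not_not fun h => hy (if_neg h)]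

theorem conj_mon_dl (σ : Equiv.Perm I) (a : I → U1 F) (j : I) (s : U1 F) :
    mon σ a * dl j s * (mon σ a)⁻¹ = dl (σ j) (a j * s * (a j)⁻¹) := by
  rw [conj_dl, dl_eq_rk]
  refine rk_mul _ _ _ _ fun i => ?_
  by_cases h : i = σ j <;> simp [mon_apply, h]

theorem exists_mon {k : UM I F} (h : ∀ j, ∃ i, ∀ l, l ≠ i → k.1 l j = 0) :
    ∃ σ a, k = mon σ a := by
  choose f hf using h
  have h1 : ∀ j, normSq (k.1 (f j) j) = 1 := fun j => by
    rw [← un_col k j, Finset.sum_eq_single (f j) (fun l _ hl => by simp [hf j l hl]) (by simp)]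
  have hinj : Function.Injective f := fun j j' e => by
    by_contra hne
    have := congrFun (congrFun k.hl j) j'
    rw [mul_apply, Finset.sum_eq_single (f j) (fun l _ hl => by simp [hf j l hl]) (by simp),
      one_apply_ne hne] at this
    have := congrArg normSq this
    rw [map_mul, conjTranspose_apply, normSq_star, h1, e, h1] at this
    simp at this
  refine ⟨Equiv.ofBijective f hinj.bijective_of_finite, fun j => mkU _ (h1 j),
    UM.ext' fun i j => ?_⟩
  rw [mon_apply]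
  split_ifs with h
  · rw [h]; rfl
  · exact hf j i h

/-- The wreath product of `A` by `P`. -/
def W (A : Subgroup (U1 F)) (P : Subgroup (Equiv.Perm I)) : Subgroup (UM I F) where
  carrier := {g | ∃ σ ∈ P, ∃ a : I → U1 F, (∀ i, a i ∈ A) ∧ g = mon σ a}
  one_mem' := ⟨1, one_mem _, 1, fun _ => one_mem _, by simp [mon]⟩
  mul_mem' := by
    rintro _ _ ⟨σ, hσ, a, ha, rfl⟩ ⟨τ, hτ, b, hb, rfl⟩
    exact ⟨_, mul_mem hσ hτ, _, fun i => mul_mem (ha _) (hb _), mon_mul _ _ _ _⟩
  inv_mem' := by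
    rintro _ ⟨σ, hσ, a, ha, rfl⟩
    exact ⟨_, inv_mem hσ, _, fun i => inv_mem (ha _), mon_inv _ _⟩

variable {A : Subgroup (U1 F)} {P : Subgroup (Equiv.Perm I)}

theorem mem_W {g : UM I F} :
    g ∈ W A P ↔ ∃ σ ∈ P, ∃ a : I → U1 F, (∀ i, a i ∈ A) ∧ g = mon σ a := Iff.rfl

theorem mon_mem_W {σ : Equiv.Perm I} {a : I → U1 F} : mon σ a ∈ W A P ↔ σ ∈ P ∧ ∀ i, a i ∈ A := by
  refine ⟨?_, fun h => ⟨σ, h.1, a, h.2, rfl⟩⟩
  rintro ⟨τ, hτ, b, hb, e⟩
  obtain ⟨rfl, rfl⟩ := mon_inj e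
  exact ⟨hτ, hb⟩

theorem dg_mem_W {a : I → U1 F} : dg a ∈ W A P ↔ ∀ i, a i ∈ A := by
  rw [← mon_one, mon_mem_W]; simp

theorem pm_mem_W {σ : Equiv.Perm I} : pm σ ∈ W A P ↔ σ ∈ P := by
  rw [← mon_one', mon_mem_W]; simp

theorem dl_mem_W {j : I} {s : U1 F} : dl j s ∈ W A P ↔ s ∈ A := by
  rw [dl_eq, dg_mem_W]
  refine ⟨fun h => by simpa using h j, fun h i => ?_⟩
  by_cases hi : i = j
  · simpa [hi] using h
  · simp [hi]

theorem card_W : Nat.card (W A P) = Nat.card P * Nat.card A ^ Fintype.card I := by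
  have : Function.Bijective (fun x : P × (I → A) =>
      (⟨mon x.1 fun i => x.2 i, mon_mem_W.2 ⟨x.1.2, fun i => (x.2 i).2⟩⟩ : W A P)) := by
    constructor
    · intro x y h
      obtain ⟨h1, h2⟩ := mon_inj (congrArg Subtype.val h)
      exact Prod.ext (Subtype.ext h1) (funext fun i => Subtype.ext (congrFun h2 i))
    · rintro ⟨_, σ, hσ, a, ha, rfl⟩
      exact ⟨(⟨σ, hσ⟩, fun i => ⟨a i, ha i⟩), rfl⟩
  rw [← Nat.card_eq_of_bijective _ this, Nat.card_prod, Nat.card_fun,
    Nat.card_eq_fintype_card (α := I)]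

end Cfsg.Lib.Pron.Sp
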