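import Cfsg.Agent.Lib.Pron.SpB
import Cfsg.Agent.Lib.Symp.Group
import Cfsg.Agent.Lib.PLocal.JordanField

/-!
# The quaternionic unitary group is the symplectic group; its Sylow `2`-subgroups
-/

set_option autoImplicit false

namespace Cfsg.Lib.Pron.Sp

open Subgroup Cfsg.Lib.BG Cfsg.Lib.Transfer Quaternion Matrix
open scoped Cfsg.Lib.Transfer Quaternion MatrixGroups

variable {F : Type*} [Field F] {I : Type*} [Fintype I] [DecidableEq I]

/-- The linear form on the quaternions with given coefficients. -/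
def lf (α β γ δ : F) : ℍ[F] →+ F where
  toFun x := α * x.re + β * x.imI + γ * x.imJ + δ * x.imK
  map_zero' := by simp
  map_add' x y := by simp only [re_add, imI_add, imJ_add, imK_add]; ring

theorem lf_apply (α β γ δ : F) (x : ℍ[F]) :
    lf α β γ δ x = α * x.re + β * x.imI + γ * x.imJ + δ * x.imK := rfl

variable {a b : F}

/-- The splitting of quaternionic matrices. -/
def split (a b : F) (M : Matrix I I ℍ[F]) : Matrix (I ⊕ I) (I ⊕ I) F :=
  fromBlocks (M.map (lf 1 a 0 (-b))) (M.map (lf 0 b 1 a)) (M.map (lf 0 b (-1) a))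
    (M.map (lf 1 (-a) 0 b))

theorem split_mul (h : a * a + b * b = -1) (M N : Matrix I I ℍ[F]) :
    split a b (M * N) = split a b M * split a b N := by
  rw [split, split, split, fromBlocks_multiply]
  congr 1 <;> ext i j <;>
    simp only [map_apply, mul_apply, map_sum, Matrix.add_apply, ← Finset.sum_add_distrib] <;>
    refine Finset.sum_congr rfl fun l _ => ?_ <;>
    simp only [lf_apply, re_mul, imI_mul, imJ_mul, imK_mul]
  · linear_combination (-(M i l).imI * (N l j).imI - (M i l).imK * (N l j).imK) * h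
  · linear_combination ((M i l).imK * (N l j).imI - (M i l).imI * (N l j).imK) * h
  · linear_combination ((M i l).imI * (N l j).imK - (M i l).imK * (N l j).imI) * h
  · linear_combination (-(M i l).imI * (N l j).imI - (M i l).imK * (N l j).imK) * h

omit [Fintype I] in
theorem split_one : split a b (1 : Matrix I I ℍ[F]) = 1 := by
  rw [split, ← fromBlocks_one]
  congr 1 <;> ext i j <;> by_cases h : i = j <;> simp [lf_apply, one_apply, h]

theorem split_star (M : Matrix I I ℍ[F]) :
    J I F * (split a b M)ᵀ = split a b Mᴴ * J I F := by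
  rw [split, split, J, fromBlocks_transpose, fromBlocks_multiply, fromBlocks_multiply]
  congr 1 <;> ext i j <;> simp [lf_apply] <;> ring

variable [NeZero (2 : F)]

omit [Fintype I] [DecidableEq I] in
theorem split_bijective (h : a * a + b * b = -1) :
    Function.Bijective (split a b : Matrix I I ℍ[F] → _) := by
  constructor
  · intro M N e
    obtain ⟨e1, e2, e3, e4⟩ := fromBlocks_inj.1 e
    refine Matrix.ext fun i j => ?_
    replace e1 := congrFun (congrFun e1 i) j
    replace e2 := congrFun (congrFun e2 i) j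
    replace e3 := congrFun (congrFun e3 i) j
    replace e4 := congrFun (congrFun e4 i) j
    simp only [map_apply, lf_apply] at e1 e2 e3 e4
    refine Quaternion.ext _ _ ?_ ?_ ?_ ?_ <;> refine sub_eq_zero.1 (two_mul_eq_zero ?_)
    · linear_combination e1 + e4
    · linear_combination -a * (e1 - e4) - b * (e2 + e3) + 2 * ((M i j).imI - (N i j).imI) * h
    · linear_combination e2 - e3
    · linear_combination b * (e1 - e4) - a * (e2 + e3) + 2 * ((M i j).imK - (N i j).imK) * h
  · intro A
    have h2 : (2 : F)⁻¹ * 2 = 1 := inv_mul_cancel₀ two_ne_zero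
    refine ⟨of fun i j => qm (2⁻¹ * (A (.inl i) (.inl j) + A (.inr i) (.inr j)))
      (2⁻¹ * (-a * (A (.inl i) (.inl j) - A (.inr i) (.inr j)) -
        b * (A (.inl i) (.inr j) + A (.inr i) (.inl j))))
      (2⁻¹ * (A (.inl i) (.inr j) - A (.inr i) (.inl j)))
      (2⁻¹ * (b * (A (.inl i) (.inl j) - A (.inr i) (.inr j)) -
        a * (A (.inl i) (.inr j) + A (.inr i) (.inl j)))), ?_⟩
    ext (i | i) (j | j) <;> simp only [split, fromBlocks_apply₁₁, fromBlocks_apply₁₂,
      fromBlocks_apply₂₁, fromBlocks_apply₂₂, map_apply, of_apply, lf_apply, re_qm, imI_qm, imJ_qm,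
      imK_qm]
    · linear_combination A (.inl i) (.inl j) * h2 -
        2⁻¹ * (A (.inl i) (.inl j) - A (.inr i) (.inr j)) * h
    · linear_combination A (.inl i) (.inr j) * h2 -
        2⁻¹ * (A (.inl i) (.inr j) + A (.inr i) (.inl j)) * h
    · linear_combination A (.inr i) (.inl j) * h2 -
        2⁻¹ * (A (.inl i) (.inr j) + A (.inr i) (.inl j)) * h
    · linear_combination A (.inr i) (.inr j) * h2 +
        2⁻¹ * (A (.inl i) (.inl j) - A (.inr i) (.inr j)) * h

theorem split_mem_iff (h : a * a + b * b = -1) {M : Matrix I I ℍ[F]} :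
    split a b M ∈ symplecticGroup I F ↔ M ∈ unitary (Matrix I I ℍ[F]) := by
  rw [SymplecticGroup.mem_iff, Matrix.mul_assoc, split_star, ← Matrix.mul_assoc, ← split_mul h,
    Unitary.mem_iff, star_eq_conjTranspose]
  constructor
  · intro e
    have e1 : split a b (M * Mᴴ) = 1 := by
      have := congrArg (· * -J I F) e
      simpa [Matrix.mul_assoc, J_squared] using this
    have e2 : split a b (Mᴴ * M) = 1 := by
      rw [split_mul h] at e1 ⊢
      exact mul_eq_one_comm.1 e1
    exact ⟨(split_bijective h).1 (e2.trans split_one.symm),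
      (split_bijective h).1 (e1.trans split_one.symm)⟩
  · intro e
    rw [e.2, split_one, Matrix.one_mul]

variable [Finite F]

theorem exists_ab : ∃ a b : F, a * a + b * b = -1 := by
  obtain ⟨a, b, h⟩ := PLocal.Jordan.exists_sq_add_sq (-1 : F)
  exact ⟨a, b, h.symm⟩

theorem exists_sp : ∃ φ : UM I F →* symplecticGroup I F, Function.Bijective φ := by
  obtain ⟨a, b, h⟩ := exists_ab (F := F)
  refine ⟨{ toFun := fun M => ⟨split a b M.1, (split_mem_iff h).2 M.2⟩
            map_one' := Subtype.ext split_one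
            map_mul' := fun M N => Subtype.ext (split_mul h _ _) }, fun M N e => ?_, fun A => ?_⟩
  · exact Subtype.ext ((split_bijective h).1 (congrArg Subtype.val e))
  · obtain ⟨M, hM⟩ := (split_bijective (I := I) h).2 A.1
    exact ⟨⟨M, (split_mem_iff h).1 (hM ▸ A.2)⟩, Subtype.ext hM⟩

theorem exists_sl : ∃ φ : U1 F →* SL(2, F), Function.Bijective φ := by
  obtain ⟨a, b, h⟩ := exists_ab (F := F)
  let f : ℍ[F] → Matrix (Fin 2) (Fin 2) F := fun x =>
    !![lf 1 a 0 (-b) x, lf 0 b 1 a x; lf 0 b (-1) a x, lf 1 (-a) 0 b x]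
  have hf : ∀ x, f x = (split a b (of fun _ _ : Unit => x)).submatrix
      ![.inl (), .inr ()] ![.inl (), .inr ()] := fun x => by
    ext i j; fin_cases i <;> fin_cases j <;> simp [f, split]
  have hd : ∀ x, (f x).det = normSq x := fun x => by
    simp only [f, det_fin_two_of, lf_apply, normSq_def']
    linear_combination (-x.imI ^ 2 - x.imK ^ 2) * h
  have hm : ∀ x y, f (x * y) = f x * f y := fun x y => by
    have := split_mul (I := Unit) h (of fun _ _ => x) (of fun _ _ => y)
    rw [show (of fun _ _ : Unit => x) * (of fun _ _ : Unit => y) = of fun _ _ => x * y by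
      ext1; simp [mul_apply]] at this
    rw [hf, hf, hf, this]
    ext i j
    simp only [submatrix_apply, mul_apply, Fin.sum_univ_two, Fintype.sum_sum_type,
      Finset.univ_unique, Finset.sum_singleton]
    rfl
  refine ⟨{ toFun := fun x => ⟨f x.1, (hd _).trans (nrm x)⟩
            map_one' := Subtype.ext ?_
            map_mul' := fun x y => Subtype.ext (hm _ _) }, fun x y e => ?_, fun A => ?_⟩
  · ext i j; fin_cases i <;> fin_cases j <;> simp [f, lf_apply]
  · have e' : f x.1 = f y.1 := congrArg Subtype.val e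
    have : split a b (of fun _ _ : Unit => x.1) = split a b (of fun _ _ : Unit => y.1) := by
      ext (i | i) (j | j)
      exacts [congrFun (congrFun e' 0) 0, congrFun (congrFun e' 0) 1, congrFun (congrFun e' 1) 0,
        congrFun (congrFun e' 1) 1]
    exact Subtype.ext (congrFun (congrFun ((split_bijective h).1 this) ()) ())
  · obtain ⟨M, hM⟩ := (split_bijective (I := Unit) h).2
      (A.1.submatrix (Sum.elim (fun _ => 0) fun _ => 1) (Sum.elim (fun _ => 0) fun _ => 1))
    have e : f (M () ()) = A.1 := by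
      rw [hf, show (of fun _ _ : Unit => M () ()) = M from rfl, hM]
      ext i j; fin_cases i <;> fin_cases j <;> simp
    exact ⟨mkU (M () ()) (by rw [← hd, e, A.2]), Subtype.ext e⟩

omit [Finite F] in
theorem exists_norm [Finite F] (c : F) : ∃ x : ℍ[F], normSq x = c := by
  obtain ⟨a, b, h⟩ := PLocal.Jordan.exists_sq_add_sq c
  exact ⟨qm a b 0 0, by simp [normSq_def', h, sq]⟩

theorem odd_card : Odd (Nat.card F) := by
  classical
  haveI := Fintype.ofFinite F
  rw [Nat.card_eq_fintype_card, Nat.odd_iff]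
  refine FiniteField.odd_card_of_char_ne_two fun h => two_ne_zero (α := F) ?_
  exact_mod_cast h ▸ ringChar.Nat.cast_ringChar (R := F)

theorem val_prod {q : ℕ} (h1 : 1 < q) (hq : Odd q) (m : ℕ) :
    padicValNat 2 (∏ i ∈ Finset.range m, (q ^ (2 * (i + 1)) - 1)) =
      m * padicValNat 2 (q ^ 2 - 1) + padicValNat 2 m.factorial := by
  have h2 : ¬ 2 ∣ q := fun h => Nat.not_even_iff_odd.2 hq (even_iff_two_dvd.2 h)
  have hne : ∀ n, n ≠ 0 → q ^ n - 1 ≠ 0 := fun n hn =>
    Nat.sub_ne_zero_of_lt (Nat.one_lt_pow hn h1)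
  induction m with
  | zero => simp
  | succ m ih =>
    have e1 := padicValNat.pow_two_sub_one h1 h2 (n := 2 * (m + 1)) (by omega) (by simp)
    have e2 := padicValNat.pow_two_sub_one h1 h2 (n := 2) (by omega) (by simp)
    rw [padicValNat.mul (by omega) (by omega)] at e1
    rw [Finset.prod_range_succ, padicValNat.mul (Finset.prod_ne_zero_iff.2 fun i _ =>
      hne _ (by omega)) (hne _ (by omega)), ih, Nat.factorial_succ,
      padicValNat.mul (by omega) (Nat.factorial_ne_zero _), add_mul]
    omega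

theorem syl_iff {X : Type*} [Group X] [Finite X] {S : Subgroup X} :
    Syl 2 S ⊤ ↔ Nat.card S = 2 ^ padicValNat 2 (Nat.card X) := by
  rw [Syl.top_iff_sylow, ← Nat.factorization_def _ Nat.prime_two]
  refine ⟨?_, fun h => ⟨Sylow.ofCard S h, rfl⟩⟩
  rintro ⟨T, rfl⟩
  exact T.card_eq_multiplicity

theorem val_pow {q : ℕ} (hq : Odd q) (k : ℕ) {n : ℕ} (hn : n ≠ 0) :
    padicValNat 2 (q ^ k * n) = padicValNat 2 n := by
  rw [padicValNat.mul (hq.pow.pos.ne') hn, padicValNat.eq_zero_of_not_dvd, zero_add]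
  exact fun h => Nat.not_even_iff_odd.2 hq.pow (even_iff_two_dvd.2 h)

theorem syl_W {A : Subgroup (U1 F)} {P : Subgroup (Equiv.Perm I)} (hA : Syl 2 A ⊤)
    (hP : Syl 2 P ⊤) : Syl 2 (W A P) ⊤ := by
  obtain ⟨φ, hφ⟩ := exists_sp (I := I) (F := F)
  obtain ⟨ψ, hψ⟩ := exists_sl (F := F)
  have h1 : 1 < Nat.card F := Finite.one_lt_card
  have hne : ∀ n, n ≠ 0 → Nat.card F ^ n - 1 ≠ 0 := fun n hn =>
    Nat.sub_ne_zero_of_lt (Nat.one_lt_pow hn h1)
  rw [syl_iff] at hA hP ⊢
  have e := val_pow (odd_card (F := F)) 1 (hne 2 two_ne_zero)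
  rw [pow_one] at e
  rw [Nat.card_eq_of_bijective _ hψ, PSL2.card_SL2, e] at hA
  rw [card_W, hA, hP, Nat.card_eq_of_bijective _ hφ, Symp.card_sp, val_pow odd_card _
    (Finset.prod_ne_zero_iff.2 fun i _ => hne _ (by omega)), val_prod h1 odd_card,
    Nat.card_perm, Nat.card_eq_fintype_card (α := I)]
  ring

end Cfsg.Lib.Pron.Sp
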