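import Cfsg.Agent.Lib.Pron.SpC

/-!
# The normalizer of a Sylow `2`-subgroup of a symplectic group; fusion of reflections
-/

set_option autoImplicit false

namespace Cfsg.Lib.Pron.Sp

open Subgroup Cfsg.Lib.BG Cfsg.Lib.Transfer Quaternion Matrix
open scoped Cfsg.Lib.Transfer Quaternion

universe u

variable {F : Type*} [Field F] {I : Type*} [Fintype I] [DecidableEq I] [NeZero (2 : F)]

omit [NeZero (2 : F)] in
theorem rk_neg_apply {u : I → ℍ[F]} (hu : Un u) (a b : I) :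
    (rk u hu (-1)).1 a b = (if a = b then 1 else 0) - u a * ((2 : F) * star (u b)) := by
  rw [rk_apply, coe_neg', coe_one', ← one_add_one_eq_two, Quaternion.coe_add, Quaternion.coe_one]
  noncomm_ring

theorem eq_zero_of_mul {x y : ℍ[F]} (hy : normSq y ≠ 0) (h : x * ((2 : F) * star y) = 0) :
    x = 0 :=
  mul_cancel_of_norm (c := (2 : F) * star y)
    (by simp [normSq_coe, hy, two_ne_zero]) (by rw [h, zero_mul])

theorem refl_cases {u : I → ℍ[F]} (hu : Un u) {σ : Equiv.Perm I} {a : I → U1 F}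
    (h : rk u hu (-1) = mon σ a) : (∃ x, ∀ l, l ≠ x → u l = 0) ∨
      ∃ x y, x ≠ y ∧ normSq (u x) = 2⁻¹ ∧ (∀ l, l ≠ x → l ≠ y → u l = 0) ∧ u y = -a x * u x := by
  have e : ∀ l m, (if l = m then 1 else 0) - u l * ((2 : F) * star (u m)) =
      if l = σ m then (a m : ℍ[F]) else 0 := fun l m => by rw [← rk_neg_apply hu, h, mon_apply]
  by_cases hσ : ∀ x, σ x = x
  · obtain ⟨x, hx⟩ : ∃ x, normSq (u x) ≠ 0 := by
      by_contra! h0
      simpa [Un, h0] using hu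
    refine Or.inl ⟨x, fun l hl => eq_zero_of_mul hx ?_⟩
    simpa [hσ, hl] using e l x
  · obtain ⟨x, hx⟩ := not_forall.1 hσ
    have e1 := e x x
    rw [if_pos rfl, if_neg (Ne.symm hx), ← mul_assoc, ← coe_commutes, mul_assoc, self_mul_star,
      ← Quaternion.coe_mul, ← Quaternion.coe_one, ← coe_sub, ← Quaternion.coe_zero, coe_inj] at e1
    have hn : normSq (u x) = 2⁻¹ := by
      field_simp
      linear_combination -e1
    refine Or.inr ⟨x, σ x, Ne.symm hx, hn, fun l h1 h2 => eq_zero_of_mul (y := u x)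
      (by simp [hn, two_ne_zero]) (by simpa [h1, h2] using e l x), ?_⟩
    have e2 := e (σ x) x
    rw [if_neg hx, if_pos rfl] at e2
    rw [← e2, zero_sub, neg_neg, mul_assoc, mul_assoc, Quaternion.star_mul_self, hn,
      ← Quaternion.coe_mul, mul_inv_cancel₀ two_ne_zero, Quaternion.coe_one, mul_one]

variable {A : Subgroup (U1 F)} {P : Subgroup (Equiv.Perm I)}

theorem mon_of_norm (hA : Q8 F ≤ A) {g : UM I F} (hg : g ∈ 𝐍(W A P)) : ∃ σ a, g = mon σ a := by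
  refine exists_mon fun j => ?_
  obtain ⟨σ, -, a, -, e⟩ := conj_mem_of_norm hg (dl_mem_W.2 (hA neg_one_mem) : dl j _ ∈ _)
  rw [conj_dl] at e
  refine (refl_cases _ e).resolve_right ?_
  rintro ⟨x, y, hxy, hx, -, hy⟩
  obtain ⟨τ, -, b, -, e'⟩ := conj_mem_of_norm hg (dl_mem_W.2 (hA qi_mem) : dl j _ ∈ _)
  rw [conj_dl] at e'
  refine hxy (mon_col (σ := τ) (a := b) (j := x) (fun h => ?_) fun h => ?_)
  · rw [← e', rk_apply, if_pos rfl] at h
    have h1 : g.1 x j * star (g.1 x j) + g.1 x j * star (g.1 x j) = 1 := by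
      rw [self_mul_star, hx, ← Quaternion.coe_add, ← Quaternion.coe_one, coe_inj]
      field_simp
      norm_num
    have h2 : g.1 x j * (1 + (qi : U1 F)) * star (g.1 x j) = 0 := by
      rw [mul_add, add_mul, mul_one]
      rw [mul_sub, sub_mul, mul_one, ← h1] at h
      rw [← h]
      abel
    have := congrArg normSq h2
    simp only [map_mul, normSq_star, hx, map_zero] at this
    simp [normSq_def', one_add_one_eq_two, two_ne_zero] at this
  · rw [← e', rk_apply, if_neg hxy.symm, zero_add, hy] at h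
    have := congrArg normSq h
    simp only [map_mul, normSq_star, hx, map_zero, normSq_neg, nrm] at this
    simp [normSq_def', one_add_one_eq_two, two_ne_zero] at this

theorem norm_W [Finite F] (hA : Q8 F ≤ A) (hP : 𝐍(P) ≤ P) (htr : ∀ i j, ∃ τ ∈ P, τ i = j)
    (j₀ : I) {g : UM I F} (hg : g ∈ 𝐍(W A P)) :
    ∃ s ∈ W A P, ∃ t ∈ 𝐍(A), g = s * dg fun _ => t := by
  obtain ⟨σ, a, rfl⟩ := mon_of_norm hA hg
  have hσ : σ ∈ P := hP (mem_normalizer_of_conj_le (conj_le_iff.2 fun τ hτ => by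
    have := conj_mem_of_norm hg (pm_mem_W.2 hτ)
    rw [← mon_one', mon_inv, mon_mul, mon_mul] at this
    exact (mon_mem_W.1 this).1))
  have ht : a j₀ ∈ 𝐍(A) := mem_normalizer_of_conj_le (conj_le_iff.2 fun s hs => by
    have := conj_mem_of_norm hg (dl_mem_W.2 hs : dl j₀ s ∈ _)
    rwa [conj_mon_dl, dl_mem_W] at this)
  refine ⟨mon σ fun i => a i * (a j₀)⁻¹, mon_mem_W.2 ⟨hσ, fun i => ?_⟩, a j₀, ht, ?_⟩
  · obtain ⟨τ, hτ, rfl⟩ := htr j₀ i
    have := conj_mem_of_norm hg (pm_mem_W.2 hτ)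
    rw [← mon_one', mon_inv, mon_mul, mon_mul] at this
    simpa using (mon_mem_W.1 this).2 (σ j₀)
  · rw [← mon_one, mon_mul]; simp

theorem exists_chi {X : Type u} [Group X] {Q : Subgroup X}
    (h : ∀ s ∈ 𝐍(Q), ∀ t ∈ 𝐍(Q), s * t * s⁻¹ * t⁻¹ ∈ Q) :
    ∃ (C : Type u) (_ : CommGroup C) (χ : 𝐍(Q) →* C), ∀ t, χ t = 1 ↔ t.1 ∈ Q := by
  let N := Q.subgroupOf 𝐍(Q)
  have hc : ∀ a b : 𝐍(Q) ⧸ N, a * b = b * a := fun a b => by
    induction a using QuotientGroup.induction_on with | _ a => ?_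
    induction b using QuotientGroup.induction_on with | _ b => ?_
    rw [← mul_inv_eq_one, ← QuotientGroup.mk_mul, ← QuotientGroup.mk_mul, ← QuotientGroup.mk_inv,
      ← QuotientGroup.mk_mul, QuotientGroup.eq_one_iff]
    simpa [N, mem_subgroupOf, mul_assoc] using h a a.2 b b.2
  exact ⟨𝐍(Q) ⧸ N, { (inferInstance : Group (𝐍(Q) ⧸ N)) with mul_comm := hc },
    QuotientGroup.mk' N, fun t => QuotientGroup.eq_one_iff t⟩

omit [NeZero (2 : F)] in
theorem chi [Finite F] {Γ : Subgroup (U1 F)} (hA : A ≤ Γ) {C : Type*} [CommGroup C] (χ : Γ →* C)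
    (hχ : ∀ t : Γ, t.1 ∈ A → χ t = 1) {K : Subgroup (UM I F)} (hS : Syl 2 (W A P) K)
    (hN : K ⊓ 𝐍(W A P) ≤ W A P) (a : I → Γ) (ha : dg (fun i => (a i : U1 F)) ∈ K) :
    ∏ i, χ (a i) = 1 := by
  let V : UM I F → C → Prop := fun g c =>
    ∃ σ, ∃ a : I → Γ, ∏ i, χ (a i) = c ∧ g = mon σ fun i => a i
  have hm : ∀ {g h c d}, V g c → V h d → V (g * h) (c * d) := by
    rintro _ _ _ _ ⟨σ, a, rfl, rfl⟩ ⟨τ, b, rfl, rfl⟩
    refine ⟨σ * τ, fun j => a (τ j) * b j, ?_, mon_mul _ _ _ _⟩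
    simp only [map_mul, Finset.prod_mul_distrib]
    rw [Equiv.prod_comp τ fun j => χ (a j)]
  have hi : ∀ {g c}, V g c → V g⁻¹ c⁻¹ := by
    rintro _ _ ⟨σ, a, rfl, rfl⟩
    refine ⟨σ⁻¹, fun j => (a (σ⁻¹ j))⁻¹, ?_, mon_inv _ _⟩
    simp only [map_inv, Finset.prod_inv_distrib]
    rw [Equiv.prod_comp σ⁻¹ fun j => χ (a j)]
  let W₀ : Subgroup (UM I F) :=
    { carrier := {g | V g 1}
      one_mem' := ⟨1, 1, by simp, by rw [mon_one]; exact (map_one dg).symm⟩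
      mul_mem' := fun h h' => one_mul (1 : C) ▸ hm h h'
      inv_mem' := fun h => inv_one (G := C) ▸ hi h }
  have hV : ∀ g ∈ W Γ (⊤ : Subgroup (Equiv.Perm I)), ∃ c, V g c := by
    rintro _ ⟨σ, -, b, hb, rfl⟩
    exact ⟨_, σ, fun i => ⟨b i, hb i⟩, rfl, rfl⟩
  have h0 : W A P ≤ W₀ := by
    rintro _ ⟨σ, -, b, hb, rfl⟩
    exact ⟨σ, fun i => ⟨b i, hA (hb i)⟩, Finset.prod_eq_one fun i _ => hχ _ (hb i), rfl⟩
  have h1 : W A P ≤ W Γ ⊤ := by
    rintro _ ⟨σ, -, b, hb, rfl⟩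
    exact mon_mem_W.2 ⟨trivial, fun i => hA (hb i)⟩
  have hn : Nml (K ⊓ W Γ ⊤ ⊓ W₀) (K ⊓ W Γ ⊤) := ⟨inf_le_left, norm_inf (le_norm _)
    (le_norm_iff.2 fun g hg w hw => by
      obtain ⟨c, hc⟩ := hV g hg.2
      have := hm (hm hc hw) (hi hc)
      rwa [mul_one, mul_inv_cancel] at this)⟩
  have hf := Syl.frattini (hS.of_le (le_inf (le_inf hS.le h1) h0) (inf_le_left.trans inf_le_left)) hn
  have hle : K ⊓ W Γ ⊤ ≤ W₀ := hf ▸ sup_le inf_le_right
    ((le_inf (inf_le_left.trans inf_le_left) inf_le_right).trans (hN.trans h0))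
  obtain ⟨σ, b, hb, e⟩ := hle ⟨ha, dg_mem_W.2 fun i => (a i).2⟩
  rw [← mon_one] at e
  rw [← hb]
  exact Finset.prod_congr rfl fun i _ => congrArg χ (Subtype.ext (congrFun (mon_inj e).2 i))

variable [Finite F] {K : Subgroup (UM I F)}

theorem chi_two (hQ : Syl 2 (Q8 F) ⊤) (hS : Syl 2 (W (Q8 F) P) K)
    (hN : K ⊓ 𝐍(W (Q8 F) P) ≤ W (Q8 F) P) {x y : I} {s t : U1 F} (hs : s ∈ 𝐍(Q8 F))
    (ht : t ∈ 𝐍(Q8 F)) (h : dl x s * dl y t ∈ K) : s * t ∈ Q8 F := by
  obtain ⟨C, _, χ, hχ⟩ := exists_chi (Q := Q8 F) fun s hs t ht => norm_comm hQ hs ht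
  have e : (fun i => ((Pi.mulSingle x ⟨s, hs⟩ * Pi.mulSingle y ⟨t, ht⟩ : I → 𝐍(Q8 F)) i : U1 F)) =
      Pi.mulSingle x s * Pi.mulSingle y t := by
    ext1 i
    simp only [Pi.mul_apply, Pi.mulSingle_apply, Subgroup.coe_mul]
    split_ifs <;> rfl
  have := chi (le_norm _) χ (fun t => (hχ t).2) hS hN
    (Pi.mulSingle x ⟨s, hs⟩ * Pi.mulSingle y ⟨t, ht⟩) (by rw [e, map_mul]; exact h)
  simp only [Pi.mul_apply, map_mul, Finset.prod_mul_distrib, Pi.mulSingle_apply, apply_ite χ,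
    map_one, Finset.prod_ite_eq', Finset.mem_univ, if_true] at this
  rw [← map_mul, hχ, Subgroup.coe_mul] at this
  exact this

omit [Finite F] [NeZero (2 : F)] in
theorem emb_dl {J : Type*} [Fintype J] [DecidableEq J] {R : Matrix I J ℍ[F]} (hR : Rᴴ * R = 1)
    {a : J} {x : I} (h : ∀ i, R i a = (Pi.single x 1 : I → ℍ[F]) i) (s : U1 F) :
    emb R hR (dl a s) = dl x s := by
  rw [dl_eq_rk, dl_eq_rk, emb_rk]
  exact rk_congr _ (by rw [mulVec_single_one]; exact funext h) _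

/-- The matrix with two given columns. -/
def fr (u v : I → ℍ[F]) : Matrix I (Fin 2) ℍ[F] := of fun i a => ![u, v] a i

omit [Finite F] [NeZero (2 : F)] in
theorem sum_single (x : I) (v : I → ℍ[F]) :
    ∑ i, star ((Pi.single x 1 : I → ℍ[F]) i) * v i = v x := by
  rw [Finset.sum_eq_single x (fun l _ hl => by simp [hl]) (by simp)]; simp

omit [Finite F] [NeZero (2 : F)] [DecidableEq I] in
theorem fr_orth {u v : I → ℍ[F]} (hu : Un u) (hv : Un v) (h : ∑ i, star (u i) * v i = 0) :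
    (fr u v)ᴴ * fr u v = 1 := by
  have h1 : ∀ w : I → ℍ[F], Un w → ∑ i, star (w i) * w i = 1 := fun w hw => by
    simp only [Quaternion.star_mul_self]
    rw [← coe_sum, hw, Quaternion.coe_one]
  have h' : ∑ i, star (v i) * u i = 0 := by simpa [star_sum] using congrArg star h
  ext1 a b
  fin_cases a <;> fin_cases b
  exacts [h1 u hu, h, h', h1 v hv]

omit [Finite F] [NeZero (2 : F)] [DecidableEq I] in
theorem fr_mulVec (u v : I → ℍ[F]) (a b : ℍ[F]) (i : I) :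
    (fr u v *ᵥ ![a, b]) i = u i * a + v i * b := by
  simp [fr, mulVec, dotProduct]

omit [Finite F] in
theorem word {c : ℍ[F]} (hc : normSq c = 2⁻¹) (hu : Un ![c, c]) {r : U1 F → U1 F}
    (hr : ∀ s, (r s : ℍ[F]) = (2 : F) * star c * s * c) :
    rk _ hu (r qj) * dl 0 (-qk) * rk _ hu (r qi) = dl 0 qw * dl 1 qv := by
  have e : ∀ s a b, (rk _ hu (r s)).1 a b = (if a = b then 1 else 0) + (2⁻¹ : F) * (s - 1) := by
    intro s a b
    have h1 : c * star c = (2⁻¹ : F) := by rw [self_mul_star, hc]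
    have h2 : ((2 : F) : ℍ[F]) * (2⁻¹ : F) = 1 := by
      rw [← Quaternion.coe_mul, mul_inv_cancel₀ two_ne_zero, Quaternion.coe_one]
    have : c * (r s - 1) * star c = (2⁻¹ : F) * (s - 1) := by
      calc _ = ((2 : F) : ℍ[F]) * (c * star c) * s * (c * star c) - c * star c := by
            rw [hr]
            simp only [coe_mul_eq_smul, mul_sub, sub_mul, smul_mul_assoc, mul_smul_comm, mul_assoc,
              mul_one]
        _ = _ := by rw [h1, h2, one_mul, ← coe_commutes, mul_sub, mul_one]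
    rw [rk_apply]
    fin_cases a <;> fin_cases b <;> simp [this]
  refine UM.ext' fun a b => ?_
  simp only [UM.coe_mul, mul_apply, Fin.sum_univ_two, e, dl_eq, dg_apply]
  fin_cases a <;> fin_cases b <;> refine Quaternion.ext _ _ ?_ ?_ ?_ ?_ <;> simp <;> field_simp <;>
    norm_num

omit [Finite F] [NeZero (2 : F)] in
theorem mem_of_norm {X : Type*} [Group X] [Finite X] {S M : Subgroup X} (hS : Syl 2 S ⊤)
    (h : S ≤ M) {x : X} (hx : x ∈ 𝐍(M)) {k : ℕ} (hk : x ^ 2 ^ k = 1) : x ∈ M :=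
  (PiGrp.of_pgroup (π := {2}) (isPGroup_zpowers hk) rfl).le_of_relIndex (zpowers_le.2 hx) le_rfl
    (((hS.of_le (h.trans (le_norm M)) le_top).idx).of_dvd (relIndex_dvd_left h _)) (mem_zpowers x)

theorem not_transp (hQ : Syl 2 (Q8 F) ⊤) (hS : Syl 2 (W (Q8 F) P) K)
    (hN : K ⊓ 𝐍(W (Q8 F) P) ≤ W (Q8 F) P) {u : I → ℍ[F]} (hu : Un u)
    (hK : ∀ s ∈ Q8 F, rk u hu s ∈ K) {x y : I} (hxy : x ≠ y) (hx : normSq (u x) = 2⁻¹)
    (h0 : ∀ l, l ≠ x → l ≠ y → u l = 0) (hy : u y = u x) : False := by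
  set c := u x with hc
  let r : U1 F → U1 F := fun s => mkU ((2 : F) * star c * s * c) (by
    simp only [map_mul, normSq_coe, normSq_star, hx, nrm]
    field_simp)
  have h1 : c * star c = (2⁻¹ : F) := by rw [self_mul_star, hx]
  have h2 : ((2 : F) : ℍ[F]) * (2⁻¹ : F) = 1 := by
    rw [← Quaternion.coe_mul, mul_inv_cancel₀ two_ne_zero, Quaternion.coe_one]
  have hcr : ∀ s, c * r s = s * c := fun s => by
    simp only [r, coe_mkU]
    rw [← mul_assoc, ← mul_assoc, ← mul_assoc, ← coe_commutes, mul_assoc _ c, h1, h2, one_mul]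
  have hrm : ∀ s t, r (s * t) = r s * r t := fun s t => Subtype.ext
    (mul_cancel_of_norm' (c := c) (by simp [hx, two_ne_zero]) (by
      rw [coe_mul', ← mul_assoc, hcr, hcr, mul_assoc _ c, hcr, coe_mul', mul_assoc]))
  have hr1 : r 1 = 1 := by simpa using (hrm 1 1).symm
  have hrK : ∀ s ∈ Q8 F, rk u hu (r s) ∈ K := fun s hs => by
    refine mem_of_norm (M := K.comap (rk u hu)) hQ hK ?_ (k := 2) ?_
    · refine mem_normalizer_of_conj_le (conj_le_iff.2 fun t ht => ?_)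
      have hd : dg (fun _ : I => s) ∈ K := hS.le (dg_mem_W.2 fun _ => hs)
      have := mul_mem (mul_mem hd ht) (inv_mem hd)
      rwa [conj_rk, rk_mul hu _ (r s) t fun i => ?_] at this
      rw [coe_dg, mulVec_diagonal]
      by_cases h : i = x
      · rw [h, ← hc, hcr]
      · by_cases h' : i = y
        · rw [h', hy, hcr]
        · rw [h0 i h h', mul_zero, zero_mul]
    · exact (map_pow (MonoidHom.mk' r hrm) s 4).symm.trans (by rw [pow_four hs, map_one])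
  let R : Matrix I (Fin 2) ℍ[F] := fr (Pi.single x 1) (Pi.single y 1)
  have hR : Rᴴ * R = 1 := fr_orth (un_single x) (un_single y) (by rw [sum_single]; simp [hxy])
  have hv : Un ![c, c] := by
    simp only [Un, Fin.sum_univ_two, cons_val_zero, cons_val_one, hx]
    field_simp
    norm_num
  have hRv : R *ᵥ ![c, c] = u := by
    ext1 i
    rw [fr_mulVec]
    by_cases h : i = x
    · simp [h, hxy, hc]
    · by_cases h' : i = y
      · simp [h', hxy.symm, hy]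
      · simp [h, h', h0 i h h']
  have e := congrArg (emb R hR) (word hx hv (r := r) fun _ => rfl)
  rw [map_mul, map_mul, map_mul, emb_rk, emb_rk, rk_congr _ hRv, rk_congr _ hRv,
    emb_dl hR (x := x) (fun _ => rfl), emb_dl hR (x := x) (fun _ => rfl),
    emb_dl hR (x := y) (fun _ => rfl)] at e
  have := chi_two hQ hS hN qw_norm (qv_eq (F := F) ▸ mul_mem qw_norm (le_norm _ qj_mem))
    (e ▸ mul_mem (mul_mem (hrK _ qj_mem) (hS.le (dl_mem_W.2 (neg_mem_Q8 qk_mem)))) (hrK _ qi_mem))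
  rw [qv_eq, ← mul_assoc] at this
  exact qw_sq_not_mem ((mul_mem_cancel_right qj_mem).1 this)

/-- The conjugates in `K` of the coordinate reflections. -/
def DD (K : Subgroup (UM I F)) : Set (UM I F) := {d | ∃ k ∈ K, ∃ j, d = k * dl j (-1) * k⁻¹}

omit [Finite F] [NeZero (2 : F)] in
theorem DD_conj {d g : UM I F} (hd : d ∈ DD K) (hg : g ∈ K) : g * d * g⁻¹ ∈ DD K := by
  obtain ⟨k, hk, j, rfl⟩ := hd
  exact ⟨g * k, mul_mem hg hk, j, by group⟩

omit [Finite F] [NeZero (2 : F)] in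
theorem DD_sq {d : UM I F} (hd : d ∈ DD K) : d * d = 1 := by
  obtain ⟨k, hk, j, rfl⟩ := hd
  rw [show k * dl j (-1) * k⁻¹ * (k * dl j (-1) * k⁻¹) = k * (dl j (-1) * dl j (-1)) * k⁻¹ by group,
    ← map_mul]
  simp

theorem eq_dl (hQ : Syl 2 (Q8 F) ⊤) (hS : Syl 2 (W (Q8 F) P) K)
    (hN : K ⊓ 𝐍(W (Q8 F) P) ≤ W (Q8 F) P) {d : UM I F} (hd : d ∈ DD K) (h : d ∈ W (Q8 F) P) :
    ∃ x, d = dl x (-1) := by
  obtain ⟨k, hk, j, rfl⟩ := hd
  obtain ⟨σ, -, a, ha, e⟩ := h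
  rw [conj_dl] at e ⊢
  rcases refl_cases _ e with ⟨x, hx⟩ | ⟨x, y, hxy, hx, h0, hy⟩
  · exact ⟨x, rk_eq_dl _ hx⟩
  · have hk' : dl y (-a x)⁻¹ * k ∈ K :=
      mul_mem (hS.le (dl_mem_W.2 (inv_mem (neg_mem_Q8 (ha x))))) hk
    have e' : ∀ l, (dl y (-a x)⁻¹ * k).1 l j = (Pi.mulSingle y (-a x)⁻¹ : I → U1 F) l * k.1 l j :=
      fun l => by rw [UM.coe_mul, dl_eq, coe_dg, diagonal_mul]
    refine (not_transp hQ hS hN (un_col (dl y (-a x)⁻¹ * k) j) (fun s hs => ?_) hxy ?_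
      (fun l h h' => ?_) ?_).elim
    · rw [← conj_dl]
      exact mul_mem (mul_mem hk' (hS.le (dl_mem_W.2 hs))) (inv_mem hk')
    · rw [e', Pi.mulSingle_eq_of_ne hxy, coe_one', one_mul, hx]
    · rw [e', h0 l h h', mul_zero]
    · rw [e', e', hy, Pi.mulSingle_eq_same, Pi.mulSingle_eq_of_ne hxy, ← coe_neg', ← mul_assoc,
        ← coe_mul', inv_mul_cancel]

theorem DD_comm (hQ : Syl 2 (Q8 F) ⊤) (hS : Syl 2 (W (Q8 F) P) K)
    (hN : K ⊓ 𝐍(W (Q8 F) P) ≤ W (Q8 F) P) {d e : UM I F} (hd : d ∈ DD K) (he : e ∈ DD K) {n : ℕ}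
    (h : (d * e) ^ 2 ^ n = 1) : d * e = e * d := by
  have hK : ∀ d ∈ DD K, d ∈ K := by
    rintro _ ⟨k, hk, j, rfl⟩
    exact mul_mem (mul_mem hk (hS.le (dl_mem_W.2 neg_one_mem))) (inv_mem hk)
  have hd1 : d⁻¹ = d := inv_eq_of_mul_eq_one_left (DD_sq hd)
  have he1 : e⁻¹ = e := inv_eq_of_mul_eq_one_left (DD_sq he)
  have hp : IsPGroup 2 ↥(zpowers (d * e) ⊔ zpowers d) :=
    pgroup_sup (isPGroup_zpowers h) (isPGroup_zpowers (k := 1) (by rw [pow_one, pow_two, DD_sq hd]))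
      (zpowers_le.2 (mem_normalizer_of_conj_le (conj_le_iff.2 (by
        rintro _ ⟨n, rfl⟩
        rw [← conj_zpow, show d * (d * e) * d⁻¹ = (d * e)⁻¹ by
          rw [← mul_assoc, DD_sq hd, one_mul, _root_.mul_inv_rev, he1, hd1]]
        exact zpow_mem (inv_mem (mem_zpowers _)) n))))
  obtain ⟨g, hg, hle⟩ := hS.exists_conj_le hp (sup_le (zpowers_le.2 (mul_mem (hK d hd) (hK e he)))
    (zpowers_le.2 (hK d hd)))
  have h1 : d ∈ zpowers (d * e) ⊔ zpowers d := mem_sup_right (mem_zpowers d)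
  have h2 : e ∈ zpowers (d * e) ⊔ zpowers d := by
    simpa using mul_mem (inv_mem h1) (mem_sup_left (mem_zpowers (d * e)))
  obtain ⟨x, hx⟩ := eq_dl hQ hS hN (DD_conj hd hg) (hle (conj_mem_conj.2 h1))
  obtain ⟨y, hy⟩ := eq_dl hQ hS hN (DD_conj he hg) (hle (conj_mem_conj.2 h2))
  have : dl x (-1 : U1 F) * dl y (-1) = dl y (-1) * dl x (-1) := by
    rw [dl_eq, dl_eq, ← map_mul, ← map_mul]
    congr 1
    ext1 i
    simp only [Pi.mul_apply, Pi.mulSingle_apply]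
    split_ifs <;> simp
  rw [← hx, ← hy] at this
  rw [conj_mul, conj_mul] at this
  exact mul_left_cancel (mul_right_cancel this)

end Cfsg.Lib.Pron.Sp
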