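import Cfsg.Agent.Lib.Pron.SpD
import Cfsg.Agent.Lib.ZStar.Main

/-!
# An application of the `Z*`-theorem to pairs of reflections
-/

set_option autoImplicit false

namespace Cfsg.Lib.Pron.Sp

open Subgroup Cfsg.Lib.BG Cfsg.Lib.Transfer
open scoped Cfsg.Lib.Transfer

section Abstract

variable {X : Type*} [Group X] [Finite X]

theorem exists_odd {c z : X} (hc : ∀ x, x * c = c * x) (hc2 : c * c = 1) {L : Subgroup X}
    (hz : z ∈ L) (hz2 : z * z = 1) (h1 : z ≠ 1) (h1' : z ≠ c)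
    (hiso : ∀ g ∈ L, (z * (g * z * g⁻¹)) ^ 2 ^ 2 = 1 → g * z * g⁻¹ = z ∨ g * z * g⁻¹ = c * z) :
    ∃ O : Subgroup X, Odd (Nat.card O) ∧ L ≤ 𝐍(O) ∧
      ∀ g ∈ L, Odd (orderOf (z * g * z⁻¹ * g⁻¹)) → z * g * z⁻¹ * g⁻¹ ∈ O := by
  have hZ : ∀ x ∈ zpowers c, x = 1 ∨ x = c := by
    rintro _ ⟨n, rfl⟩
    have e : c ^ (2 : ℤ) = 1 := by rw [zpow_two, hc2]
    obtain ⟨k, rfl | rfl⟩ := Int.even_or_odd' n <;> simp [zpow_add, zpow_mul, e]
  haveI : (zpowers c).Normal := ⟨fun x hx g => by rcases hZ x hx with rfl | rfl <;> simp [hc g]⟩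
  let π := QuotientGroup.mk' (zpowers c)
  have hπ : ∀ x, π x = 1 ↔ x ∈ zpowers c := fun x => QuotientGroup.eq_one_iff x
  have hπc : π c = 1 := (hπ c).2 (mem_zpowers c)
  let z' : L.map π := ⟨π z, mem_map_of_mem π hz⟩
  have hi : IsIsolatedInvolution z' := by
    refine ⟨orderOf_eq_prime (Subtype.ext ?_) fun e => ?_, ?_⟩
    · change π z ^ 2 = 1
      rw [← map_pow, sq, hz2, map_one]
    · rcases hZ _ ((hπ z).1 (congrArg Subtype.val e)) with e | e <;> contradiction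
    · rintro ⟨_, g, hg, rfl⟩ h
      have e : π z * π (g * z * g⁻¹) = π (g * z * g⁻¹) * π z := congrArg Subtype.val h
      have hw : g * z * g⁻¹ * (g * z * g⁻¹) = 1 := by rw [conj_mul, hz2]; simp
      have e' : π ((z * (g * z * g⁻¹)) ^ 2) = 1 := by
        rw [map_pow, map_mul, sq, mul_assoc, ← mul_assoc (π (g * z * g⁻¹)), ← e, mul_assoc,
          ← map_mul, hw, map_one, mul_one, ← map_mul, hz2, map_one]
      have e4 : (z * (g * z * g⁻¹)) ^ 2 ^ 2 = 1 := by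
        rw [show 2 ^ 2 = 2 * 2 by rfl, pow_mul]
        rcases hZ _ ((hπ _).1 e') with e | e <;> simp [e, sq, hc2]
      refine Subtype.ext ?_
      change π (g * z * g⁻¹) = π z
      rcases hiso g hg e4 with e | e <;> simp [e, hπc]
  let O := ((oddCore (L.map π)).map (L.map π).subtype).comap π
  have hZO : zpowers c ≤ O := fun x hx => by
    rw [mem_comap, (hπ x).2 hx]; exact one_mem _
  have hH : Hall {2} (zpowers c) O := by
    refine Hall.mk' hZO (PiGrp.of_pgroup (isPGroup_zpowers (p := 2) (k := 1) (by rw [pow_one, sq, hc2])) rfl)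
      (PiNat.p'_iff.2 ?_)
    rw [← QuotientGroup.ker_mk' (zpowers c), relIndex_ker,
      map_comap_eq_self_of_surjective (QuotientGroup.mk'_surjective _), card_map_of_injective
      (subtype_injective _)]
    exact Core.not_dvd_card_pPrimeCore 2 _
  obtain ⟨H, hsd, hH'⟩ := hH.exists_compl (le_norm_iff.2 fun g _ x hx =>
    Normal.conj_mem inferInstance x hx g)
  have hn : O ≤ 𝐍(H) := hsd.sup ▸ sup_le (norm_of_cent (le_cent_iff.2 fun x hx y _ => by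
    rcases hZ x hx with rfl | rfl <;> simp [hc y])) (le_norm H)
  refine ⟨H, Nat.odd_iff.2 (Nat.two_dvd_ne_zero.1 (PiGrp.p'_iff.1 hH'.pi)),
    le_trans (le_norm_iff.2 fun g hg x hx => ?_) (hH'.norm_le hn), fun g hg ho => ?_⟩
  · obtain ⟨y, hy, e⟩ := hx
    refine ⟨_, Normal.conj_mem inferInstance y hy ⟨π g, mem_map_of_mem π hg⟩, ?_⟩
    simp only [coe_subtype] at e
    simp [e]
  · refine hH'.mem_of_normal hn ⟨_, ZStar.zstar hi ⟨π g, mem_map_of_mem π hg⟩, rfl⟩ ?_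
    exact PiNat.p'_iff.2 (Nat.two_dvd_ne_zero.2 (Nat.odd_iff.1 ho))

omit [Finite X] in
theorem eq_one_of_odd {x : X} (ho : Odd (orderOf x)) (h : x * x = 1) : x = 1 := by
  obtain ⟨k, hk⟩ := ho
  have := pow_orderOf_eq_one x
  rwa [hk, pow_succ, pow_mul, sq, h, one_pow, one_mul] at this

theorem eq_one_of_inv {O R : Subgroup X} {z x : X} {r : ℕ} [Fact r.Prime] (hO : Odd (Nat.card O))
    (hz : z ∈ 𝐍(O)) (hz2 : z * z = 1) (hR : Syl r R O) (hc : R ≤ 𝐂[z]) (hx : x ∈ O)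
    (hr : x ^ r = 1) (h : z * x * z⁻¹ = x⁻¹) : x = 1 := by
  have hp : IsPGroup 2 (zpowers z) := isPGroup_zpowers (k := 1) (by rw [pow_one, sq, hz2])
  have hco : (Nat.card (zpowers z)).Coprime (Nat.card O) :=
    ((PiGrp.p'_iff.2 (Nat.two_dvd_ne_zero.2 (Nat.odd_iff.1 hO))).coprime_pgroup hp).symm
  obtain ⟨P, hP, h1, h2⟩ := Syl.exists_inv_ge (p := r) (zpowers_le.2 hz) hco (Or.inl (pgroup_sol hp))
    (isPGroup_zpowers (k := 1) (by rw [pow_one, hr])) (zpowers_le.2 hx)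
    (zpowers_le.2 (mem_normalizer_of_conj_le (conj_le_iff.2 (by
      rintro _ ⟨n, rfl⟩
      rw [← conj_zpow, h]
      exact zpow_mem (inv_mem (mem_zpowers _)) n))))
  obtain ⟨c, hc', e⟩ := hR.inv_trans hP (zpowers_le.2 hz) hco (Or.inl (pgroup_sol hp))
    (zpowers_le.2 (cent_le_norm _ (le_cent1_iff.1 hc))) h2
  have : x ∈ 𝐂[z] := conj_le_of_mem hc (cent_zpowers z ▸ hc'.2) (e ▸ h1 (mem_zpowers x))
  rw [← mem_cent1.1 this, mul_inv_cancel_right] at h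
  exact eq_one_of_odd (Odd.of_dvd_nat hO (orderOf_dvd_natCard O hx)) (mul_eq_one_iff_eq_inv.2 h)

theorem main_two {p : ℕ} [Fact p.Prime] {c z : X} (hc : ∀ x, x * c = c * x) (hc2 : c * c = 1)
    {Q L : Subgroup X} (hQ : IsPGroup 2 Q) (hQL : Q ≤ L) {D : Set X} (hDL : ∀ d ∈ D, d ∈ L)
    (hDc : ∀ d ∈ D, ∀ g ∈ L, g * d * g⁻¹ ∈ D) (hD2 : ∀ d ∈ D, d * d = 1)
    (hb : ∀ d ∈ D, ∀ e ∈ D, ∀ n : ℕ, (d * e) ^ 2 ^ n = 1 → d * e = e * d) (hz : z ∈ D)
    (h1 : z ≠ 1) (h1' : z ≠ c) (hiso : ∀ g ∈ L, z * (g * z * g⁻¹) = (g * z * g⁻¹) * z →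
      g * z * g⁻¹ = z ∨ g * z * g⁻¹ = c * z)
    (hC : ∀ r : ℕ, r.Prime → r ≠ 2 → r ≠ p → ∀ R : Subgroup X, IsPGroup r R → Q ≤ 𝐍(R) → R ≤ 𝐂[z])
    {e : X} (he : e ∈ D) : ∃ N, (z * e) ^ (2 * p ^ N) = 1 := by
  obtain ⟨O, hO, hLO, hm⟩ := exists_odd hc hc2 (hDL z hz) (hD2 z hz) h1 h1' fun g hg h =>
    hiso g hg (hb _ hz _ (hDc z hz g hg) _ h)
  have hz1 : z⁻¹ = z := inv_eq_of_mul_eq_one_left (hD2 z hz)
  have he1 : e⁻¹ = e := inv_eq_of_mul_eq_one_left (hD2 e he)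
  set x := z * e with hx
  have hxL : x ∈ L := mul_mem (hDL z hz) (hDL e he)
  have hi : ∀ y ∈ zpowers x, z * y * z⁻¹ = y⁻¹ := by
    rintro _ ⟨n, rfl⟩
    rw [← conj_zpow, ← inv_zpow, hx, ← mul_assoc, hD2 z hz, one_mul, _root_.mul_inv_rev, he1]
  have hzx : ∀ y ∈ zpowers x, z * y = y⁻¹ * z := fun y hy => by rw [← hi y hy]; simp
  obtain ⟨y, hy, w, hw, h2, h3, e1, e2⟩ := exists_pi_decomp {2} x
  have hy2 : y * y = 1 := by
    have hD : z * y ∈ D := by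
      obtain ⟨n, rfl⟩ := hy
      obtain ⟨k, rfl | rfl⟩ := Int.even_or_odd' n
      · have := hDc z hz _ (inv_mem (zpow_mem hxL k))
        rwa [← hzx _ (zpow_mem (mem_zpowers x) k), inv_inv, mul_assoc, ← zpow_add, ← two_mul] at this
      · have := hDc e he _ (inv_mem (zpow_mem hxL k))
        rwa [show e = z * x by rw [hx, ← mul_assoc, hD2 z hz, one_mul], ← mul_assoc,
          ← hzx _ (zpow_mem (mem_zpowers x) k), inv_inv, mul_assoc, mul_assoc, ← zpow_one_add,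
          ← zpow_add, show k + (1 + k) = 2 * k + 1 by ring] at this
    obtain ⟨n, hn⟩ := (PiNat.p_iff (orderOf_pos y).ne').1 h2
    have := hb z hz _ hD n (by rw [← mul_assoc, hD2 z hz, one_mul, ← hn, pow_orderOf_eq_one])
    rw [← mul_assoc, hD2 z hz, one_mul] at this
    have h4 := hi y hy
    rw [hz1, ← this] at h4
    exact mul_eq_one_iff_eq_inv.2 h4
  have ho : Odd (orderOf w) := Nat.odd_iff.2 (Nat.two_dvd_ne_zero.1 (PiNat.p'_iff.1 h3))
  have hwO : w ∈ O := by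
    obtain ⟨k, hk⟩ := ho
    have e3 : z * w ^ k * z⁻¹ * (w ^ k)⁻¹ = w := by
      rw [hi _ (pow_mem hw k), ← _root_.mul_inv_rev, inv_eq_iff_mul_eq_one, ← pow_add, ← pow_succ,
        ← two_mul, ← hk, pow_orderOf_eq_one]
    have := hm _ (pow_mem (zpowers_le.2 hxL hw) k) (by rw [e3]; exact ⟨k, hk⟩)
    rwa [e3] at this
  have hp : PiNat {p} (orderOf w) := fun r hr hd => by
    by_contra hne
    haveI := Fact.mk hr
    have hr2 : r ≠ 2 := fun h => Nat.two_dvd_ne_zero.2 (Nat.odd_iff.1 ho) (h ▸ hd)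
    obtain ⟨R, hR, hn⟩ := Syl.exists_inv (p := r) (hQL.trans hLO)
      ((PiGrp.p'_iff.2 (Nat.two_dvd_ne_zero.2 (Nat.odd_iff.1 hO))).coprime_pgroup hQ).symm
      (Or.inl (pgroup_sol hQ))
    have h5 := orderOf_pow_orderOf_div (orderOf_pos w).ne' hd
    have := eq_one_of_inv hO (hLO (hDL z hz)) (hD2 z hz) hR (hC r hr hr2 hne R hR.pgroup hn)
      (pow_mem hwO (orderOf w / r)) (by rw [← pow_mul, Nat.div_mul_cancel hd, pow_orderOf_eq_one])
      (hi _ (pow_mem hw _))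
    rw [this, orderOf_one] at h5
    exact hr.one_lt.ne h5
  obtain ⟨N, hN⟩ := (PiNat.p_iff (orderOf_pos w).ne').1 hp
  refine ⟨N, ?_⟩
  rw [e1, Commute.mul_pow e2, pow_mul, sq, hy2, one_pow, one_mul, mul_comm, pow_mul, ← hN,
    pow_orderOf_eq_one, one_pow]

end Abstract

end Cfsg.Lib.Pron.Sp
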