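import Cfsg.Agent.Lib.Pron.SpE

/-!
# Computations in the four-dimensional symplectic group
-/

set_option autoImplicit false

namespace Cfsg.Lib.Pron.Sp

open Subgroup Cfsg.Lib.BG Cfsg.Lib.Transfer Quaternion Matrix
open scoped Cfsg.Lib.Transfer Quaternion

variable {F : Type*} [Field F] {I : Type*} [Fintype I] [DecidableEq I]

theorem conj_dg_apply (a : I → U1 F) (y : UM I F) (i j : I) :
    (dg a * y * (dg a)⁻¹).1 i j = a i * y.1 i j * star (a j : ℍ[F]) := by
  rw [← map_inv, UM.coe_mul, UM.coe_mul, coe_dg, coe_dg, mul_diagonal, diagonal_mul]; rfl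

theorem dg_injective : Function.Injective (dg : (I → U1 F) → UM I F) := fun a b h => by
  rw [← mon_one, ← mon_one] at h
  exact (mon_inj h).2

theorem dl_zero (s : U1 F) : dl (0 : Fin 2) s = dg ![s, 1] := by
  rw [dl_eq]; congr 1; ext1 i; fin_cases i <;> simp

theorem dg_neg : dg (fun _ : I => (-1 : U1 F)) = -1 :=
  UM.ext' fun i j => by by_cases h : i = j <;> simp [dg_apply, UM.coe_neg, h]

/-- The shape of an element of `U₂` inverted by the first coordinate reflection. -/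
structure Inv2 (y : UM (Fin 2) F) (a d : F) (b : ℍ[F]) : Prop where
  h00 : y.1 0 0 = a
  h11 : y.1 1 1 = d
  h01 : y.1 0 1 = b
  h10 : y.1 1 0 = -star b
  na : a ^ 2 + normSq b = 1
  nd : d ^ 2 + normSq b = 1
  ad : a = d ∨ b = 0

variable [NeZero (2 : F)]

theorem eq_coe_of_star {x : ℍ[F]} (h : x = star x) : x = (x.re : F) := by
  have h2 := congrArg QuaternionAlgebra.imI h
  have h3 := congrArg QuaternionAlgebra.imJ h
  have h4 := congrArg QuaternionAlgebra.imK h
  simp only [imI_star, imJ_star, imK_star] at h2 h3 h4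
  refine Quaternion.ext _ _ rfl ?_ ?_ ?_ <;> refine two_mul_eq_zero ?_
  exacts [by linear_combination h2, by linear_combination h3, by linear_combination h4]

theorem eq_zero_of_neg {x : ℍ[F]} (h : -x = x) : x = 0 := by
  refine Quaternion.ext _ _ ?_ ?_ ?_ ?_ <;> refine two_mul_eq_zero ?_
  · simpa [neg_eq_iff_add_eq_zero] using congrArg QuaternionAlgebra.re h
  · simpa [neg_eq_iff_add_eq_zero] using congrArg QuaternionAlgebra.imI h
  · simpa [neg_eq_iff_add_eq_zero] using congrArg QuaternionAlgebra.imJ h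
  · simpa [neg_eq_iff_add_eq_zero] using congrArg QuaternionAlgebra.imK h

theorem exists_inv2 {y : UM (Fin 2) F} (h : dl 0 (-1) * y * (dl 0 (-1))⁻¹ = y⁻¹) :
    ∃ a d b, Inv2 y a d b := by
  have e : ∀ i j, (![-1, 1] i : U1 F) * y.1 i j * star ((![-1, 1] j : U1 F) : ℍ[F]) =
      star (y.1 j i) := fun i j => by rw [← conj_dg_apply, ← dl_zero, h]; rfl
  have e0 := eq_coe_of_star (x := y.1 0 0) (by simpa using e 0 0)
  have e1 := eq_coe_of_star (x := y.1 1 1) (by simpa using e 1 1)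
  have e2 : y.1 1 0 = -star (y.1 0 1) := by simpa [neg_eq_iff_eq_neg] using e 1 0
  have n0 := un_col y 0
  have n1 := un_col y 1
  have n2 := congrFun (congrFun y.hl 0) 1
  simp only [Un, Fin.sum_univ_two] at n0 n1
  rw [e0, e2, normSq_coe, normSq_neg, normSq_star] at n0
  rw [e1, normSq_coe, add_comm] at n1
  refine ⟨_, _, _, e0, e1, rfl, e2, n0, n1, ?_⟩
  rw [mul_apply, Fin.sum_univ_two, conjTranspose_apply, conjTranspose_apply, e0, e1, e2, star_coe,
    star_neg, star_star, neg_mul, ← coe_commutes, ← sub_eq_add_neg, ← sub_mul, ← coe_sub,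
    one_apply_ne zero_ne_one] at n2
  by_contra! hne
  exact hne.2 (mul_cancel_of_norm' (by
    rw [normSq_coe]; exact pow_ne_zero 2 (sub_ne_zero.2 hne.1))
    (n2.trans (mul_zero _).symm))

omit [NeZero (2 : F)] in
theorem Inv2.sq {y : UM (Fin 2) F} {a d : F} {b : ℍ[F]} (h : Inv2 y a d b) :
    (y.1 * y.1 - 1) ^ 2 = (-4 * normSq b) • (y.1 * y.1) := by
  rcases h.ad with rfl | rfl
  · have e : y.1 * y.1 + 1 = (2 * a) • y.1 := by
      have h1 : (a : ℍ[F]) * a - normSq b + 1 = (2 * a) • (a : ℍ[F]) := by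
        rw [← Quaternion.coe_mul, ← coe_sub, ← Quaternion.coe_one, ← Quaternion.coe_add,
          Quaternion.smul_coe, coe_inj]
        linear_combination -h.na
      ext1 i j
      fin_cases i <;> fin_cases j <;> simp [mul_apply, h.h00, h.h01, h.h10, h.h11, self_mul_star,
        Quaternion.star_mul_self, coe_mul_eq_smul, mul_coe_eq_smul, two_mul, add_smul]
      · simpa [coe_mul_eq_smul, two_mul, add_smul, sub_eq_add_neg] using h1
      · simpa [coe_mul_eq_smul, two_mul, add_smul, sub_eq_add_neg, add_comm] using h1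
    have e' : (y.1 * y.1 - 1) ^ 2 = (y.1 * y.1 + 1) * (y.1 * y.1 + 1) - (4 : F) • (y.1 * y.1) := by
      rw [show (4 : F) = 1 + 1 + 1 + 1 by norm_num, add_smul, add_smul, add_smul, one_smul]
      noncomm_ring
    rw [e', e, smul_mul_smul_comm, ← sub_smul]
    congr 1
    linear_combination 4 * h.na
  · have e : y.1 * y.1 = 1 := by
      have h1 := h.na
      have h2 := h.nd
      rw [map_zero, add_zero, _root_.sq] at h1 h2
      ext1 i j
      fin_cases i <;> fin_cases j <;>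
        simp [mul_apply, h.h00, h.h01, h.h10, h.h11, ← Quaternion.coe_mul, h1, h2]
    simp [e]

omit [NeZero (2 : F)] in
theorem charP_mat (p : ℕ) [CharP F p] : CharP (Matrix (Fin 2) (Fin 2) ℍ[F]) p :=
  haveI : CharP ℍ[F] p := charP_of_injective_algebraMap algebraMap_injective p
  inferInstance

omit [NeZero (2 : F)] in
theorem Inv2.pow_eq (p : ℕ) [hp : Fact p.Prime] [CharP F p] {y : UM (Fin 2) F} {a d : F}
    {b : ℍ[F]} (h : Inv2 y a d b) (hb : normSq b = 0) : y ^ (2 * p) = 1 := by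
  haveI := charP_mat (F := F) p
  have e := h.sq
  rw [hb, mul_zero, zero_smul] at e
  have e' := sub_pow_char_pow_of_commute p 1 (Commute.one_right (y.1 * y.1))
  rw [pow_one, pow_eq_zero_of_le hp.out.two_le e, one_pow, eq_comm, sub_eq_zero] at e'
  refine Subtype.ext ?_
  rw [SubmonoidClass.coe_pow, pow_mul, _root_.sq, e']; rfl

theorem Inv2.norm_eq (p : ℕ) [hp : Fact p.Prime] [CharP F p] {y : UM (Fin 2) F} {a d : F}
    {b : ℍ[F]} (h : Inv2 y a d b) {N : ℕ} (hy : y ^ (2 * p ^ N) = 1) : normSq b = 0 := by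
  haveI := charP_mat (F := F) p
  have e1 : (y.1 * y.1) ^ p ^ N = 1 := by
    rw [← _root_.sq, ← pow_mul, ← SubmonoidClass.coe_pow, hy]; rfl
  have e' := sub_pow_char_pow_of_commute p N (Commute.one_right (y.1 * y.1))
  rw [e1, one_pow, sub_self] at e'
  have e := congrArg (· ^ p ^ N) h.sq
  simp only [_root_.smul_pow, e1] at e
  rw [← pow_mul, mul_comm, pow_mul, e', zero_pow two_ne_zero] at e
  have e2 := congrArg (fun M : Matrix (Fin 2) (Fin 2) ℍ[F] => (M 0 0).re) e
  have h4 : (4 : F) ≠ 0 := by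
    rw [show (4 : F) = 2 * 2 by norm_num]; exact mul_ne_zero two_ne_zero two_ne_zero
  simpa [h4] using eq_zero_of_pow_eq_zero (n := p ^ N) (x := -4 * normSq b) (by simpa using e2.symm)

theorem diag_of_comm {w : UM (Fin 2) F} (h : dl 0 (-1) * w = w * dl 0 (-1)) :
    ∃ α β, w = dg ![α, β] := by
  have e : ∀ i j, (![-1, 1] i : U1 F) * w.1 i j * star ((![-1, 1] j : U1 F) : ℍ[F]) = w.1 i j :=
    fun i j => by rw [← conj_dg_apply, ← dl_zero, h, mul_inv_cancel_right]
  have e1 := eq_zero_of_neg (x := w.1 0 1) (by simpa using e 0 1)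
  have e2 := eq_zero_of_neg (x := w.1 1 0) (by simpa using e 1 0)
  refine ⟨mkU (w.1 0 0) (by simpa [Un, e2] using un_col w 0),
    mkU (w.1 1 1) (by simpa [Un, e1] using un_col w 1), UM.ext' fun i j => ?_⟩
  fin_cases i <;> fin_cases j <;> simp [dg_apply, e1, e2]

theorem z_ne_one : dl (0 : Fin 2) (-1 : U1 F) ≠ 1 := fun h => by
  rw [dl_zero, ← map_one dg] at h
  exact neg_one_ne (congrFun (dg_injective h) 0)

theorem z_ne_neg : dl (0 : Fin 2) (-1 : U1 F) ≠ -1 := fun h => by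
  rw [dl_zero, ← dg_neg] at h
  exact neg_one_ne (congrFun (dg_injective h) 1).symm

theorem iso_two (g : UM (Fin 2) F)
    (h : dl 0 (-1) * (g * dl 0 (-1) * g⁻¹) = g * dl 0 (-1) * g⁻¹ * dl 0 (-1)) :
    g * dl 0 (-1) * g⁻¹ = dl 0 (-1) ∨ g * dl 0 (-1) * g⁻¹ = -1 * dl 0 (-1) := by
  obtain ⟨α, β, e⟩ := diag_of_comm h
  have h1 : dg ![α, β] * dg ![α, β] = 1 := by rw [← e, conj_mul, ← map_mul]; simp
  rw [← map_mul, ← map_one dg] at h1
  have h2 := eq_of_sq (x := α) (congrFun (dg_injective h1) 0)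
  have h3 := eq_of_sq (x := β) (congrFun (dg_injective h1) 1)
  rcases h2 with rfl | rfl <;> rcases h3 with rfl | rfl
  · refine (z_ne_one (F := F) ?_).elim
    rw [show ![(1 : U1 F), 1] = 1 by ext1 i; fin_cases i <;> rfl, map_one] at e
    exact conj_eq_one_iff.1 e
  · right
    rw [e, dl_zero, ← dg_neg, ← map_mul]
    congr 1; ext1 i; fin_cases i <;> simp
  · left; rw [e, dl_zero]
  · refine (z_ne_neg (F := F) ?_).elim
    rw [show ![(-1 : U1 F), -1] = fun _ => -1 by ext1 i; fin_cases i <;> rfl, dg_neg,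
      mul_inv_eq_iff_eq_mul, neg_one_mul g, ← mul_neg_one g] at e
    exact mul_left_cancel e

theorem cent_two [Finite F] (p : ℕ) [hp : Fact p.Prime] [CharP F p] {r : ℕ} (hr : r.Prime)
    (h2 : r ≠ 2) (hrp : r ≠ p) {R : Subgroup (UM (Fin 2) F)} (hR : IsPGroup r R)
    (hn : (Q8 F).map (dl 0) ≤ 𝐍(R)) : R ≤ 𝐂[dl 0 (-1)] := by
  haveI := Fact.mk hr
  set z : UM (Fin 2) F := dl 0 (-1) with hz
  have hz2 : z * z = 1 := by rw [hz, ← map_mul]; simp
  have hz1 : z⁻¹ = z := inv_eq_of_mul_eq_one_left hz2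
  have ho : ∀ y ∈ R, y ^ (2 * p) = 1 → y = 1 := fun y hy h => by
    obtain ⟨k, hk⟩ := hR ⟨y, hy⟩
    have hc : (2 * p).Coprime (r ^ k) := Nat.Coprime.pow_right k (Nat.Coprime.mul_left
      ((Nat.coprime_primes Nat.prime_two hr).2 h2.symm) ((Nat.coprime_primes hp.out hr).2 hrp.symm))
    exact orderOf_eq_one_iff.1 (Nat.eq_one_of_dvd_coprimes hc (orderOf_dvd_of_pow_eq_one h)
      (orderOf_dvd_of_pow_eq_one (congrArg Subtype.val hk)))
  have key : ∀ {M : Subgroup (UM (Fin 2) F)}, M ≤ R → z ∈ 𝐍(M) → ¬ M ≤ 𝐂[z] →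
      ∃ y ∈ M, ∃ a b, Inv2 y a a b ∧ normSq b ≠ 0 := fun {M} hM hzM h => by
    obtain ⟨g, hg, hc⟩ := SetLike.not_le_iff_exists.1 h
    have hy : z * g * z⁻¹ * g⁻¹ ∈ M := mul_mem (conj_mem_of_norm hzM hg) (inv_mem hg)
    obtain ⟨a, d, b, hi⟩ := exists_inv2 (y := z * g * z⁻¹ * g⁻¹) (by
      rw [← hz, hz1, ← mul_assoc, ← mul_assoc, ← mul_assoc, hz2]
      simp [hz1, mul_assoc])
    have hb : normSq b ≠ 0 := fun hb => hc (mem_cent1.2 (by
      have := ho _ (hM hy) (hi.pow_eq p hb)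
      rw [mul_inv_eq_one, mul_inv_eq_iff_eq_mul] at this
      exact this.symm))
    obtain rfl : a = d := hi.ad.resolve_right fun e => hb (by simp [e])
    exact ⟨_, hy, a, b, hi, hb⟩
  have hs : ∀ s ∈ Q8 F, dg ![s, 1] ∈ 𝐍(R) := fun s hs => dl_zero s ▸ hn (mem_map_of_mem _ hs)
  have hZ : 𝐙(R) ≤ 𝐂[z] := by
    by_contra h
    obtain ⟨y, hy, a, b, hi, hb⟩ := key inf_le_left (norm_center hn (mem_map_of_mem _ neg_one_mem)) h
    have e := congrArg (fun x : UM (Fin 2) F => (x.1 0 0).imI)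
      (mem_cent.1 hy.2 _ (conj_mem_of_norm (hs _ qi_mem) hy.1))
    simp only [UM.coe_mul (dg ![qi, 1] * y * (dg ![qi, 1])⁻¹),
      UM.coe_mul y (dg ![qi, 1] * y * (dg ![qi, 1])⁻¹), mul_apply, Fin.sum_univ_two,
      conj_dg_apply, hi.h00, hi.h01, hi.h10] at e
    simp at e
    exact hb (two_mul_eq_zero (by rw [normSq_def']; linear_combination -e))
  by_contra h
  obtain ⟨y, hy, a, b, hi, hb⟩ := key le_rfl (hn (mem_map_of_mem _ neg_one_mem)) h
  obtain ⟨c, hc, h1⟩ := exists_ne_one (center_ne_bot_of_nil (pgroup_nil hR) fun e => h (by simp [e]))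
  obtain ⟨α, β, rfl⟩ := diag_of_comm (mem_cent1.1 (hZ hc)).symm
  have e : ∀ γ : U1 F, dg ![γ, β] ∈ 𝐙(R) → γ * b = b * β := fun γ hγ => by
    have := congrArg (fun x : UM (Fin 2) F => x.1 0 1) (mem_cent.1 hγ.2 _ hy)
    simpa [coe_dg, hi.h01] using this.symm
  have e' : ∀ s ∈ Q8 F, α * s = s * α := fun s hs' => by
    have h3 := conj_mem_of_norm (norm_center (zpowers_le.2 (hs s hs')) (mem_zpowers _)) hc
    rw [← map_inv, ← map_mul, ← map_mul, show ![s, 1] * ![α, β] * ![s, 1]⁻¹ = ![s * α * s⁻¹, β] by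
      ext1 i; fin_cases i <;> simp] at h3
    have := Subtype.ext (mul_cancel_of_norm hb ((e _ h3).trans (e _ hc).symm))
    rw [mul_inv_eq_iff_eq_mul] at this
    exact this.symm
  have h3 := comm_i (congrArg Subtype.val (e' _ qi_mem))
  have h4 := comm_j (congrArg Subtype.val (e' _ qj_mem))
  have h5 : (α : ℍ[F]) = (α.1.re : F) := Quaternion.ext _ _ rfl h4.1 h3.1 h3.2
  have h6 : α = β := Subtype.ext (mul_cancel_of_norm' hb (by rw [← e _ hc, h5, coe_commutes]))
  have h7 : α * α = 1 := by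
    have := nrm α
    rw [h5, normSq_coe] at this
    refine Subtype.ext ?_
    rw [coe_mul', h5, ← Quaternion.coe_mul, ← _root_.sq, this]; rfl
  refine h1 (ho _ hc.1 ?_)
  rw [pow_mul, _root_.sq, ← map_mul, ← h6, show ![α, α] * ![α, α] = 1 by
    ext1 i; fin_cases i <;> simp [h7], map_one, one_pow]

end Cfsg.Lib.Pron.Sp
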