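import Cfsg.Agent.Lib.Pron.SpF

/-!
# Overgroups of a Sylow `2`-subgroup of a symplectic group in which it is self-normalizing
-/

set_option autoImplicit false

namespace Cfsg.Lib.Pron.Sp

open Subgroup Cfsg.Lib.BG Cfsg.Lib.Transfer Quaternion Matrix
open scoped Cfsg.Lib.Transfer Quaternion MatrixGroups

variable {F : Type*} [Field F] {I : Type*} [Fintype I] [DecidableEq I] [NeZero (2 : F)] [Finite F]
  {P : Subgroup (Equiv.Perm I)} {K : Subgroup (UM I F)}

theorem norm_entry (hQ : Syl 2 (Q8 F) ⊤) (hS : Syl 2 (W (Q8 F) P) K)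
    (hN : K ⊓ 𝐍(W (Q8 F) P) ≤ W (Q8 F) P) {k : UM I F} (hk : k ∈ K) (x j : I) :
    normSq (k.1 x j) = 0 ∨ normSq (k.1 x j) = 1 := by
  by_contra! hne
  obtain ⟨p, hp⟩ := CharP.exists F
  haveI : Fact p.Prime := ⟨CharP.char_is_prime F p⟩
  set n := normSq (k.1 x j) with hn
  have h1 : 1 - n ≠ 0 := sub_ne_zero.2 hne.2.symm
  obtain ⟨c, hc⟩ := exists_norm (1 - n)⁻¹
  let u : I → ℍ[F] := fun i => (if i = x then 0 else k.1 i j) * c
  have hu : Un u := by
    have := un_col k j
    rw [Un, ← Finset.add_sum_erase _ _ (Finset.mem_univ x)] at this ⊢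
    rw [Finset.sum_congr rfl (g := fun i => normSq (k.1 i j) * (1 - n)⁻¹) fun i hi => by
      simp [u, (Finset.mem_erase.1 hi).1, hc], ← Finset.sum_mul, eq_sub_of_add_eq' this]
    simp [u, ← hn, h1]
  have hR := fr_orth (un_single x) hu (by rw [sum_single]; simp [u])
  have hv : Un ![k.1 x j, ((1 - n : F) : ℍ[F]) * star c] := by
    simp only [Un, Fin.sum_univ_two, cons_val_zero, cons_val_one, map_mul, normSq_coe, normSq_star,
      hc, ← hn]
    field_simp
    ring
  have hRv : fr (Pi.single x 1) u *ᵥ ![k.1 x j, ((1 - n : F) : ℍ[F]) * star c] =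
      fun i => k.1 i j := by
    ext1 i
    rw [fr_mulVec, mul_assoc, ← mul_assoc c, ← coe_commutes, mul_assoc, self_mul_star, hc,
      ← Quaternion.coe_mul, mul_inv_cancel₀ h1, Quaternion.coe_one, mul_one]
    by_cases h : i = x <;> simp [h]
  have hz : ∀ s, emb _ hR (dl 0 s) = dl x s := emb_dl hR fun _ => rfl
  have hK : ∀ d ∈ DD K, d ∈ K := by
    rintro _ ⟨k, hk, j, rfl⟩
    exact mul_mem (mul_mem hk (hS.le (dl_mem_W.2 neg_one_mem))) (inv_mem hk)
  obtain ⟨N, hN'⟩ := main_two (p := p) (c := -1) (z := dl 0 (-1)) (Q := (Q8 F).map (dl 0))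
    (L := K.comap (emb _ hR)) (D := {d | emb _ hR d ∈ DD K}) (by simp) (by simp)
    (pgroup_Q8.map _) (map_le_iff_le_comap.2 fun s hs => by
      rw [mem_comap, mem_comap, hz]; exact hS.le (dl_mem_W.2 hs))
    (fun d hd => hK _ hd) (fun d hd g hg => by
      rw [Set.mem_ofPred_eq, map_mul, map_mul, map_inv]; exact DD_conj hd hg)
    (fun d hd => emb_injective hR (by rw [map_mul, DD_sq hd, map_one]))
    (fun d hd e he m h => emb_injective hR (by
      rw [map_mul, map_mul]
      exact DD_comm hQ hS hN hd he (n := m) (by rw [← map_mul, ← map_pow, h, map_one])))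
    ⟨1, one_mem _, x, by simp [hz]⟩ z_ne_one z_ne_neg (fun g _ => iso_two g)
    (fun r hr h2 hrp R hR hn => cent_two p hr h2 hrp hR hn) (e := rk _ hv (-1))
    ⟨k, hk, j, by rw [emb_rk, rk_congr _ hRv, conj_dl]⟩
  obtain ⟨a, d, b, hi⟩ := exists_inv2 (y := dl 0 (-1) * rk _ hv (-1)) (by
    rw [← mul_assoc, ← map_mul, _root_.mul_inv_rev, ← map_inv, ← map_inv]; simp)
  have h2 := hi.na
  have h3 := hi.h00
  rw [hi.norm_eq p hN', add_zero] at h2
  rw [dl_zero, UM.coe_mul, coe_dg, diagonal_mul, rk_neg_apply, if_pos rfl, cons_val_zero,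
    cons_val_zero, ← mul_assoc, ← coe_commutes, mul_assoc, self_mul_star, ← hn] at h3
  have h4 := congrArg QuaternionAlgebra.re h3
  simp at h4
  have h5 : (2 * 2 : F) * (n * (1 - n)) = 0 := by rw [← h4] at h2; linear_combination -h2
  simp [two_ne_zero, hne.1, h1] at h5

omit [NeZero (2 : F)] [Finite F] in
theorem conj_entry (k : UM I F) {x y : I} (hxy : x ≠ y) (s t : U1 F) (j : I) :
    (k⁻¹ * (dl x s * dl y t) * k).1 j j = 1 + star (k.1 x j) * (s - 1) * k.1 x j +
      star (k.1 y j) * (t - 1) * k.1 y j := by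
  have h1 := congrFun (congrFun k.hl j) j
  rw [mul_apply, one_apply_eq] at h1
  rw [dl_eq, dl_eq, ← map_mul, UM.coe_mul, UM.coe_mul, UM.coe_inv, coe_dg, mul_apply, add_assoc,
    ← sub_eq_iff_eq_add']
  conv_lhs => rw [← h1]
  rw [← Finset.sum_sub_distrib,
    Finset.sum_eq_add_of_mem x y (Finset.mem_univ _) (Finset.mem_univ _) hxy fun l _ hl => by
      simp [hl.1, hl.2]]
  simp [hxy, hxy.symm, mul_sub, sub_mul]

omit [Finite F] in
theorem eq_zero_of_conj {c : ℍ[F]} (h : normSq c = 0) (h' : ∀ t ∈ Q8 F, star c * t * c = 0) :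
    c = 0 := by
  have h1 := congrArg QuaternionAlgebra.imI (h' _ qi_mem)
  have h2 := congrArg QuaternionAlgebra.imJ (h' _ qj_mem)
  have h3 := congrArg QuaternionAlgebra.imK (h' _ qk_mem)
  rw [normSq_def'] at h
  simp at h1 h2 h3
  have e : ∀ a : F, (2 * 2) * a ^ 2 = 0 → a = 0 := fun a ha => by simpa [two_ne_zero] using ha
  refine Quaternion.ext _ _ (e _ ?_) (e _ ?_) (e _ ?_) (e _ ?_)
  · linear_combination h + h1 + h2 + h3
  · linear_combination h + h1 - h2 - h3
  · linear_combination h - h1 + h2 - h3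
  · linear_combination h - h1 - h2 + h3

theorem mon_of_mem (hQ : Syl 2 (Q8 F) ⊤) (hS : Syl 2 (W (Q8 F) P) K)
    (hN : K ⊓ 𝐍(W (Q8 F) P) ≤ W (Q8 F) P) {k : UM I F} (hk : k ∈ K) : ∃ σ a, k = mon σ a := by
  refine exists_mon fun j => ?_
  obtain ⟨x, hx⟩ : ∃ x, normSq (k.1 x j) ≠ 0 := by
    by_contra! h0
    simpa [Un, h0] using un_col k j
  replace hx := (norm_entry hQ hS hN hk x j).resolve_left hx
  refine ⟨x, fun y hy => ?_⟩
  have hE : ∀ s ∈ Q8 F, ∀ t ∈ Q8 F, ∀ E, E = 1 + star (k.1 x j) * (s - 1) * k.1 x j +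
      star (k.1 y j) * (t - 1) * k.1 y j → normSq E = 0 ∨ normSq E = 1 := fun s hs t ht E e => by
    rw [e, ← conj_entry k hy.symm]
    exact norm_entry hQ hS hN (mul_mem (mul_mem (inv_mem hk) (mul_mem (hS.le (dl_mem_W.2 hs))
      (hS.le (dl_mem_W.2 ht)))) hk) j j
  have ex : star (k.1 x j) * k.1 x j = 1 := by rw [Quaternion.star_mul_self, hx]; rfl
  set b := k.1 x j
  set c := k.1 y j
  have h4 : (2 * 2 : F) ≠ 0 := mul_ne_zero two_ne_zero two_ne_zero
  rcases norm_entry hQ hS hN hk y j with h | h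
  · have ey : star c * c = 0 := by rw [Quaternion.star_mul_self, h]; rfl
    refine eq_zero_of_conj h fun t ht => ?_
    have h1 : ∀ s ∈ Q8 F, (s * (b * star (star c * t * c) * star b) : ℍ[F]).re = 0 := by
      intro s hs
      have e1 := hE s hs t ht (star b * s * b + star c * t * c) (by
        simp only [mul_sub, sub_mul, mul_one, ex, ey]; abel)
      have e2 := hE s hs _ (neg_mem_Q8 ht) (star b * s * b + -(star c * t * c)) (by
        simp only [mul_sub, sub_mul, mul_one, ex, ey, coe_neg', mul_neg, neg_mul]; abel)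
      have n1 : normSq (star b * s * b : ℍ[F]) = 1 := by
        rw [map_mul, map_mul, normSq_star, hx, nrm]; simp
      have n2 : normSq (star c * t * c : ℍ[F]) = 0 := by rw [map_mul, h, mul_zero]
      rw [normSq_add, n1, n2] at e1
      rw [normSq_add, n1, normSq_neg, n2, star_neg, mul_neg, re_neg] at e2
      have e3 : (s * (b * star (star c * t * c) * star b) : ℍ[F]).re =
          (star b * s * b * star (star c * t * c)).re := by
        generalize star (star c * t * c) = m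
        simp only [re_mul, imI_mul, imJ_mul, imK_mul, re_star, imI_star, imJ_star, imK_star]
        ring
      rw [e3]
      refine two_mul_eq_zero ?_
      rcases e1 with e1 | e1 <;> rcases e2 with e2 | e2
      · exact (two_ne_zero (α := F) (by linear_combination e1 + e2)).elim
      · linear_combination -e2
      · linear_combination e1
      · linear_combination e1
    have h2 : b * star (star c * t * c) * star b = 0 := by
      generalize b * star (star c * t * c) * star b = m at h1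
      exact Quaternion.ext _ _ (by simpa using h1 _ (one_mem _)) (by simpa using h1 _ qi_mem)
        (by simpa using h1 _ qj_mem) (by simpa using h1 _ qk_mem)
    have h3 := congrArg (fun z => star (star b * z * b)) h2
    simp only [← mul_assoc, ex, one_mul] at h3
    simpa only [mul_assoc _ (star b) b, ex, mul_one, star_star, mul_zero, zero_mul, star_zero]
      using h3
  · have ey : star c * c = 1 := by rw [Quaternion.star_mul_self, h]; rfl
    have e1 := hE _ neg_one_mem _ neg_one_mem (-(1 + 1 + 1)) (by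
      simp only [mul_sub, sub_mul, mul_one, ex, ey, coe_neg', coe_one', mul_neg, neg_mul]; abel)
    have e2 := hE _ neg_one_mem _ qi_mem (-(1 + 1) + star c * (qi : U1 F) * c) (by
      simp only [mul_sub, sub_mul, mul_one, ex, ey, coe_neg', coe_one', mul_neg, neg_mul]; abel)
    have n1 : normSq (star c * (qi : U1 F) * c : ℍ[F]) = 1 := by
      rw [map_mul, map_mul, normSq_star, h, nrm]; simp
    have n2 : (-(1 + 1) * star (star c * (qi : U1 F) * c) : ℍ[F]).re = 0 := by
      simp only [re_mul, imI_mul, imJ_mul, imK_mul, re_star, imI_star, imJ_star, imK_star, coe_qi,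
        re_qm, imI_qm, imJ_qm, imK_qm, re_neg, re_add, re_one, imI_neg, imI_add, imI_one, imJ_neg,
        imJ_add, imJ_one, imK_neg, imK_add, imK_one]
      ring
    rw [normSq_add, n1, n2] at e2
    simp only [normSq_def', re_neg, re_add, re_one, imI_neg, imI_add, imI_one, imJ_neg, imJ_add,
      imJ_one, imK_neg, imK_add, imK_one] at e1 e2
    exfalso
    rcases e2 with e2 | e2
    · rcases e1 with e1 | e1
      · exact one_ne_zero (α := F) (by linear_combination 2 * e2 - e1)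
      · exact mul_ne_zero h4 two_ne_zero (by linear_combination e1)
    · exact h4 (by linear_combination e2)

theorem pron_of_map {X Y : Type*} [Group X] [Group Y] (φ : X →* Y) {H : Subgroup X}
    (hk : φ.ker ≤ H) (h : IsPronormal (H.map φ)) : IsPronormal H := by
  intro g
  obtain ⟨y, hy, e⟩ := h (φ g)
  change y ∈ H.map φ ⊔ φ g ⋆ H.map φ at hy
  change φ g ⋆ H.map φ = y ⋆ H.map φ at e
  rw [← map_conj', ← Subgroup.map_sup] at hy
  obtain ⟨x, hx, rfl⟩ := hy
  rw [← map_conj', ← map_conj'] at e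
  have hk' : ∀ a : X, φ.ker ≤ a ⋆ H := fun a =>
    (conj_eq_of_norm (H := φ.ker) (by rw [normalizer_eq_top]; trivial)).ge.trans (conj_mono a hk)
  have := congrArg (comap φ) e
  rw [comap_map_eq_self (hk' g), comap_map_eq_self (hk' x)] at this
  exact ⟨x, hx, this⟩

theorem exists_norm_of_pron {X : Type*} [Group X] [Finite X] {S H : Subgroup X} (hS : Syl 2 S ⊤)
    (h1 : S ≤ H) (h : IsPronormal H) {g : X} (hg : g ∈ 𝐍(S)) :
    ∃ x ∈ (H ⊔ g ⋆ H) ⊓ 𝐍(S), g ⋆ H = x ⋆ H := by
  obtain ⟨x, hx, e⟩ := h g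
  change g ⋆ H = x ⋆ H at e
  have h2 : x⁻¹ ⋆ S ≤ H := by
    rw [← inv_conj_conj (g := x) (H := H), ← e, ← conj_eq_of_norm hg]
    exact conj_mono _ (conj_mono _ h1)
  obtain ⟨y, hy, e'⟩ := Syl.exists_conj_eq (hS.of_le h1 le_top) ((hS.conj_top x⁻¹).of_le h2 le_top)
  refine ⟨x * y, ⟨mul_mem hx (mem_sup_left hy), norm_of_conj_eq ?_⟩, ?_⟩
  · rw [← conj_conj, ← e', conj_conj, mul_inv_cancel, conj_one]
  · rw [← conj_conj, conj_eq_of_mem hy, e]

theorem pron_U1 {S H : Subgroup (U1 F)} (hS : Syl 2 S ⊤) (h1 : S ≤ H) : IsPronormal H := by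
  obtain ⟨ψ, hψ⟩ := exists_sl (F := F)
  let φ : U1 F →* PSL(2, F) := (QuotientGroup.mk' _).comp ψ
  have hφ : Function.Surjective φ := (QuotientGroup.mk'_surjective _).comp hψ.2
  have hk : φ.ker ≤ H := fun x hx => by
    have hc : ∀ y, y * x = x * y := fun y => hψ.1 (by
      rw [map_mul, map_mul]
      exact mem_center_iff.1 ((QuotientGroup.eq_one_iff _).1 hx) _)
    have hx' : x ∈ Q8 F := ⟨Or.inl (by rw [← hc, mul_inv_cancel_right]),
      Or.inl (by rw [← hc, mul_inv_cancel_right])⟩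
    refine h1 (hS.ge_of_norm_p' le_top (isPGroup_zpowers (k := 2) (pow_four hx'))
      (zpowers_le.2 (cent_le_norm _ (mem_cent.2 fun y _ => hc y))) (mem_zpowers x))
  refine pron_of_map φ hk (isPronormal_psl odd_card ?_)
  rw [← index_comap_of_surjective _ hφ, comap_map_eq_self hk, Nat.odd_iff,
    ← Nat.two_dvd_ne_zero]
  exact fun h => hS.not_dvd' (by rw [relIndex_top_right]; exact h.trans (index_dvd_of_le h1))

theorem norm_of_not_mem (hQ : Syl 2 (Q8 F) ⊤) (hS : Syl 2 (W (Q8 F) P) K)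
    (hN : K ⊓ 𝐍(W (Q8 F) P) ≤ W (Q8 F) P) (htr : ∀ i j, ∃ τ ∈ P, τ i = j) {H : Subgroup (UM I F)}
    (h1 : W (Q8 F) P ≤ H) (h2 : H ≤ K) {t : U1 F} (ht : t ∈ 𝐍(Q8 F))
    (h3 : dg (fun _ => t) ⋆ H ≤ K) : dg (fun _ : I => t) ∈ 𝐍(H) := by
  have hQH : ∀ j, Q8 F ≤ H.comap (dl j) := fun j s hs => h1 (dl_mem_W.2 hs)
  have hm : ∀ σ a, mon σ a ∈ H → ∀ j, ∀ s ∈ H.comap (dl j), a j * s * (a j)⁻¹ ∈ H.comap (dl j) := by
    intro σ a h j s hs
    obtain ⟨τ, hτ, e⟩ := htr (σ j) j
    have h4 := mul_mem (h1 (pm_mem_W.2 hτ)) h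
    have := mul_mem (mul_mem h4 hs) (inv_mem h4)
    rw [← mon_one', mon_mul, conj_mon_dl] at this
    simpa [e] using this
  have hn : ∀ j, t ∈ 𝐍(H.comap (dl j)) := fun j => by
    obtain ⟨x, ⟨hx, hx'⟩, e⟩ := exists_norm_of_pron hQ (hQH j) (pron_U1 hQ (hQH j)) ht
    have hK : H.comap (dl j) ⊔ t ⋆ H.comap (dl j) ≤ K.comap (dl j) :=
      sup_le (comap_mono h2) (conj_le_iff.2 fun s hs => by
        have := h3 (conj_mem_conj.2 hs)
        rwa [← mon_one, conj_mon_dl] at this)
    have := chi_two hQ hS hN (x := j) (y := j) hx' (one_mem _) (by simpa using hK hx)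
    rw [mul_one] at this
    exact norm_of_conj_eq (e.trans (conj_eq_of_mem (hQH j this)))
  refine mem_normalizer_of_conj_le (conj_le_iff.2 fun h hh => ?_)
  obtain ⟨σ, a, rfl⟩ := mon_of_mem hQ hS hN (h2 hh)
  have e : dg (fun _ => t) * mon σ a * (dg fun _ => t)⁻¹ =
      mon σ a * dg fun j => (a j)⁻¹ * t * a j * t⁻¹ := by
    rw [← mon_one, ← mon_one, mon_inv, mon_mul, mon_mul, mon_mul]
    simp [mul_assoc]
  rw [e]
  refine mul_mem hh (dg_mem fun j => ?_)
  have ha : a j ∈ 𝐍(H.comap (dl j)) := mem_normalizer_of_conj_le (conj_le_iff.2 (hm σ a hh j))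
  have hf := Syl.frattini (hQ.of_le (hQH j) le_top) ⟨le_norm (H.comap (dl j)), le_rfl⟩
  obtain ⟨u, hu, v, hv, e'⟩ := (mem_sup_left_norm inf_le_left).1 (hf.symm ▸ inv_mem ha)
  have e2 : (a j)⁻¹ * t * a j * t⁻¹ = u * (v * t * v⁻¹ * t⁻¹) * (t * u⁻¹ * t⁻¹) := by
    rw [← inv_inv (a j), ← e']; group
  rw [e2]
  exact mul_mem (mul_mem hu (hQH j (norm_comm hQ hv.2 ht))) (conj_mem_of_norm (hn j) (inv_mem hu))

end Cfsg.Lib.Pron.Sp
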