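import Cfsg.Agent.Lib.Pron.SpG
import Cfsg.Agent.Lib.Alt.SylNorm

/-!
# Pronormality of odd index subgroups in products of symplectic groups of dimension `2 ^ k`
-/

set_option autoImplicit false

namespace Cfsg.Lib.Pron.Sp

open Subgroup Cfsg.Lib.BG Cfsg.Lib.Transfer Quaternion
open scoped Cfsg.Lib.Transfer Quaternion

/-- A Sylow `2`-subgroup has index `1` or a prime in its normalizer, and its overgroups are
pronormal. -/
def Good2 (X : Type*) [Group X] : Prop := ∃ S : Subgroup X, Syl 2 S ⊤ ∧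
  (∀ g ∈ 𝐍(S), ∀ h ∈ 𝐍(S), h ∉ S → g ∈ S ⊔ zpowers h) ∧
    ∀ H, S ≤ H → ∀ g ∈ 𝐍(S), g ∈ H ⊔ g ⋆ H ∨ g ∈ 𝐍(H)

theorem exists_perm (k : ℕ) : ∃ P : Subgroup (Equiv.Perm (Fin (2 ^ k))), Syl 2 P ⊤ ∧ 𝐍(P) ≤ P ∧
    ∀ i j, ∃ τ ∈ P, τ i = j := by
  let f := MulAction.toPermHom (Multiplicative (Fin (2 ^ k))) (Fin (2 ^ k))
  have hf : IsPGroup 2 f.range :=
    (IsPGroup.of_card (G := Multiplicative (Fin (2 ^ k))) (n := k) (by simp)).of_surjective _
      f.rangeRestrict_surjective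
  obtain ⟨P, hP, hle⟩ := Syl.exists_ge hf le_top
  refine ⟨P, hP, le_trans (le_inf le_top le_rfl) (norm_le_of_odd hP le_rfl fun g hg ho => ?_),
    fun i j => ⟨_, hle ⟨Multiplicative.ofAdd (j - i), rfl⟩, sub_add_cancel j i⟩⟩
  obtain ⟨T, rfl⟩ := Syl.top_iff_sylow.1 hP
  rw [Alt.SylNorm.perm_eq_one T g ho hg.2]
  exact one_mem _

theorem good_UM (F : Type*) [Field F] [Finite F] [NeZero (2 : F)] (k : ℕ) :
    Good2 (UM (Fin (2 ^ k)) F) := by
  obtain ⟨P, hP, hn, htr⟩ := exists_perm k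
  obtain ⟨A, hA, hQ⟩ := Syl.exists_ge (pgroup_Q8 (F := F)) le_top
  have hS := syl_W hA hP
  by_cases h : A = Q8 F
  · subst h
    have h1 : ∀ g ∈ 𝐍(W (Q8 F) P), ∀ h ∈ 𝐍(W (Q8 F) P), h ∉ W (Q8 F) P →
        g ∈ W (Q8 F) P ⊔ zpowers h := fun g hg h hh h' => by
      obtain ⟨s, hs, t, ht, rfl⟩ := norm_W le_rfl hn htr 0 hg
      obtain ⟨s', hs', t', ht', rfl⟩ := norm_W le_rfl hn htr 0 hh
      let d : U1 F →* UM (Fin (2 ^ k)) F := dg.comp (Pi.constMonoidHom _ _)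
      have : Q8 F ⊔ zpowers t' ≤ (W (Q8 F) P ⊔ zpowers (s' * dg fun _ => t')).comap d :=
        sup_le (fun x hx => mem_sup_left (dg_mem_W.2 fun _ => hx)) (zpowers_le.2
          ((mul_mem_cancel_left (mem_sup_left hs')).1 (mem_sup_right (mem_zpowers _))))
      exact mul_mem (mem_sup_left hs)
        (this (norm_gen hA ht ht' fun e => h' (mul_mem hs' (dg_mem_W.2 fun _ => e))))
    refine ⟨_, hS, h1, fun H hH g hg => or_iff_not_imp_left.2 fun hK => ?_⟩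
    have hH' := hH.trans (le_sup_left (b := g ⋆ H))
    have hN : (H ⊔ g ⋆ H) ⊓ 𝐍(W (Q8 F) P) ≤ W (Q8 F) P := fun h hh => by_contra fun h' =>
      hK (sup_le hH' (zpowers_le.2 hh.1) (h1 g hg h hh.2 h'))
    obtain ⟨s, hs, t, ht, rfl⟩ := norm_W le_rfl hn htr 0 hg
    refine mul_mem (le_norm_of_le hH hs) (norm_of_not_mem hA (hS.of_le hH' le_top) hN htr hH
      le_sup_left ht ?_)
    have e : (dg fun _ => t) ⋆ H = s⁻¹ ⋆ ((s * dg fun _ => t) ⋆ H) := by
      rw [conj_conj, inv_mul_cancel_left]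
    exact e.le.trans (conj_le_of_mem le_sup_right (inv_mem (hH' hs)))
  · have h1 : 𝐍(W A P) ≤ W A P := fun g hg => by
      obtain ⟨s, hs, t, ht, rfl⟩ := norm_W hQ hn htr 0 hg
      exact mul_mem hs (dg_mem_W.2 fun _ => norm_le_of_ne hA hQ h ht)
    exact ⟨_, hS, fun g _ h hh h' => (h' (h1 hh)).elim, fun H hH g hg =>
      Or.inr (le_norm_of_le hH (h1 hg))⟩

theorem comm_mem_of_good {X : Type*} [Group X] [Finite X] {S D M : Subgroup X} (hS : Syl 2 S ⊤)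
    (h : ∀ g ∈ 𝐍(S), ∀ h ∈ 𝐍(S), h ∉ S → g ∈ S ⊔ zpowers h) (hD : S ≤ D) (hn : Nml D M)
    (hne : ¬ M ≤ D) {g : X} (hg : g ∈ 𝐍(S)) {y : X} (hy : y ∈ M) : g * y * g⁻¹ * y⁻¹ ∈ D := by
  have hf := Syl.frattini (hS.of_le hD le_top) hn
  obtain ⟨x, hx, hx'⟩ := SetLike.not_le_iff_exists.1 fun e : M ⊓ 𝐍(S) ≤ D =>
    hne (hf ▸ sup_le le_rfl e)
  have h1 : 𝐍(S) ≤ D ⊔ zpowers x := fun a ha =>
    sup_le_sup_right hD _ (h a ha x hx.2 fun e => hx' (hD e))
  have h2 : zpowers x ≤ 𝐍(D) := zpowers_le.2 (hn.norm hx.1)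
  have h3 : M ≤ D ⊔ zpowers x := hf ▸ sup_le le_sup_left (inf_le_right.trans h1)
  obtain ⟨a, ha, u, hu, rfl⟩ := (mem_sup_left_norm h2).1 (h1 hg)
  obtain ⟨b, hb, v, hv, rfl⟩ := (mem_sup_left_norm h2).1 (h3 hy)
  have hc : u * v = v * u := by
    obtain ⟨m, rfl⟩ := hu
    obtain ⟨n, rfl⟩ := hv
    exact (Commute.zpow_zpow_self x m n).eq
  have e : a * u * (b * v) * (a * u)⁻¹ * (b * v)⁻¹ =
      a * (u * b * u⁻¹) * (u * v * u⁻¹ * a⁻¹ * v⁻¹) * b⁻¹ := by group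
  rw [e, hc, mul_inv_cancel_right]
  exact mul_mem (mul_mem (mul_mem ha (conj_mem_of_norm (h2 hu) hb))
    (conj_mem_of_norm (h2 hv) (inv_mem ha))) (inv_mem hb)

theorem syl_pi {ι : Type*} [Finite ι] {G : ι → Type*} [∀ i, Group (G i)] [∀ i, Finite (G i)]
    {S : ∀ i, Subgroup (G i)} (hS : ∀ i, Syl 2 (S i) ⊤) : Syl 2 (pi Set.univ S) ⊤ := by
  classical
  haveI := Fintype.ofFinite ι
  refine Syl.of_max le_top (fun x => ?_) fun Q hQ h _ x hx i _ => ?_
  · choose k hk using fun i => (hS i).pgroup ⟨x.1 i, x.2 i trivial⟩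
    refine ⟨Finset.univ.sup k, Subtype.ext (funext fun i => ?_)⟩
    obtain ⟨d, hd⟩ := Nat.exists_eq_add_of_le (Finset.le_sup (f := k) (Finset.mem_univ i))
    have : x.1 i ^ 2 ^ k i = 1 := congrArg Subtype.val (hk i)
    change x.1 i ^ 2 ^ _ = 1
    rw [hd, pow_add, pow_mul, this, one_pow]
  · change x i ∈ S i
    rw [(hS i).eq_of_le_pgroup (Q := Q.map (Pi.evalMonoidHom G i)) (fun s hs =>
      ⟨_, h ((mulSingle_mem_pi i s).2 fun _ => hs), by simp⟩) le_top (hQ.map _)]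
    exact mem_map_of_mem _ hx

theorem pron_pi {ι : Type*} [Finite ι] {G : ι → Type*} [∀ i, Group (G i)] [∀ i, Finite (G i)]
    (h : ∀ i, Good2 (G i)) {H : Subgroup (∀ i, G i)} (hH : Odd H.index) : IsPronormal H := by
  classical
  choose S hS h1 h2 using h
  have hT := syl_pi hS
  obtain ⟨T, hT', hle⟩ := exists_syl_le (p := 2) (H := H) le_top (by
    rw [relIndex_top_right]; exact Nat.two_dvd_ne_zero.2 (Nat.odd_iff.1 hH))
  obtain ⟨c, -, e⟩ := hT'.exists_conj_eq hT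
  refine pron_of_map (MulAut.conj c).toMonoidHom (by
    rw [(MonoidHom.ker_eq_bot_iff _).2 (MulAut.conj c).injective]; exact bot_le) ?_
  have hH' : pi Set.univ S ≤ c ⋆ H := e ▸ conj_mono c hle
  generalize c ⋆ H = H at hH'
  refine fun g => pronIn_of_norm hT hH' le_top (fun g hg => ?_) g trivial
  have hc : ∀ (a : ∀ i, G i) i (s : G i), a * Pi.mulSingle i s * a⁻¹ =
      Pi.mulSingle i (a i * s * (a i)⁻¹) := fun a i s => funext fun j => by
    by_cases h : j = i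
    · subst h; simp
    · simp [h]
  have key : ∀ i, Pi.mulSingle i (g i) ∈ H ⊔ g ⋆ H ∨ Pi.mulSingle i (g i) ∈ 𝐍(H) := fun i => by
    let D := H.comap (MonoidHom.mulSingle G i)
    let M := H.map (Pi.evalMonoidHom G i)
    have hD : S i ≤ D := fun s hs => hH' ((mulSingle_mem_pi i s).2 fun _ => hs)
    have hg' : g i ∈ 𝐍(S i) := mem_normalizer_of_conj_le (conj_le_iff.2 fun s hs => by
      have := conj_mem_of_norm hg.2 ((mulSingle_mem_pi i s).2 fun _ => hs) i trivial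
      simpa using this)
    have hN : (∀ y ∈ M, g i * y * (g i)⁻¹ * y⁻¹ ∈ D) → Pi.mulSingle i (g i) ∈ 𝐍(H) := fun h =>
      mem_normalizer_of_conj_le (conj_le_iff.2 fun y hy => by
        have : Pi.mulSingle i (g i) * y * (Pi.mulSingle i (g i))⁻¹ =
            Pi.mulSingle i (g i * y i * (g i)⁻¹ * (y i)⁻¹) * y := funext fun j => by
          by_cases h : j = i
          · subst h; simp
          · simp [h]
        rw [this]
        exact mul_mem (h _ (mem_map_of_mem _ hy)) hy)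
    by_cases hM : M ≤ D
    · refine (h2 i D hD _ hg').imp (fun h => ?_) fun h => hN fun y hy =>
        mul_mem (conj_mem_of_norm h (hM hy)) (inv_mem (hM hy))
      have : D ⊔ g i ⋆ D ≤ (H ⊔ g ⋆ H).comap (MonoidHom.mulSingle G i) :=
        sup_le (comap_mono le_sup_left) (conj_le_iff.2 fun s hs =>
          mem_sup_right (by rw [MonoidHom.mulSingle_apply, ← hc]; exact conj_mem_conj.2 hs))
      exact this h
    · refine Or.inr (hN fun y hy => comm_mem_of_good (hS i) (h1 i) hD (M := M) ⟨fun s hs =>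
        ⟨_, hs, by simp⟩, le_norm_iff.2 ?_⟩ hM hg' hy)
      rintro _ ⟨a, ha, rfl⟩ s hs
      rw [mem_comap, MonoidHom.mulSingle_apply, Pi.evalMonoidHom_apply, ← hc]
      exact mul_mem (mul_mem ha hs) (inv_mem ha)
  generalize hK : H ⊔ g ⋆ H = K at key
  let x : ∀ i, G i := fun i => if Pi.mulSingle i (g i) ∈ K then g i else 1
  have hx : x⁻¹ * g ∈ 𝐍(H) := pi_mem_of_mulSingle_mem _ fun i => by
    by_cases h : Pi.mulSingle i (g i) ∈ K
    · simp [x, h]
    · simpa [x, h] using (key i).resolve_left h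
  refine ⟨x, pi_mem_of_mulSingle_mem _ fun i => ?_, ?_⟩
  · by_cases h : Pi.mulSingle i (g i) ∈ K <;> simp [x, h]
  · conv_rhs => rw [← conj_eq_of_norm hx, conj_conj, mul_inv_cancel_left]

theorem pron_of_comap {X Y : Type*} [Group X] [Group Y] (φ : X →* Y) (hφ : Function.Surjective φ)
    {H : Subgroup Y} (h : IsPronormal (H.comap φ)) : IsPronormal H :=
  isPronormal_of_pronIn (MonoidHom.id X) Function.injective_id φ hφ fun g _ => by
    rw [map_id]; exact h g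

end Cfsg.Lib.Pron.Sp
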